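import Mathlib

/-!
Composition length of a finite group as the maximal length of a subnormal chain.
-/

set_option autoImplicit false

namespace Cfsg.Agent.H3.CompLen

variable {G : Type*} [Group G]

/-- A chain of length `l` from `A` to `B` in which every term is normal in the next. -/
inductive Chain (A : Subgroup G) : Subgroup G → ℕ → Prop
  | refl : Chain A A 0
  | step {B C : Subgroup G} {l : ℕ} : Chain A B l → B < C →
      (∀ c ∈ C, ∀ b ∈ B, c * b * c⁻¹ ∈ B) → Chain A C (l + 1)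

theorem Chain.trans {A B C : Subgroup G} {k l : ℕ} (h1 : Chain A B k) (h2 : Chain B C l) :
    Chain A C (k + l) := by
  induction h2 with
  | refl => exact h1
  | step _ hlt hn ih => exact Chain.step ih hlt hn

theorem Chain.le {A B : Subgroup G} {l : ℕ} (h : Chain A B l) : A ≤ B := by
  induction h with
  | refl => exact le_rfl
  | step _ hlt _ ih => exact ih.trans hlt.le

theorem exists_card_eq_of_lt [Finite G] {B C : Subgroup G} (h : B < C) :
    ∃ r, 2 ≤ r ∧ Nat.card C = Nat.card B * r := by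
  obtain ⟨r, hr⟩ := Subgroup.card_dvd_of_le h.le
  refine ⟨r, ?_, hr⟩
  by_contra h2
  have h3 : Nat.card C ≤ Nat.card B := by
    rw [hr]
    calc Nat.card B * r ≤ Nat.card B * 1 := Nat.mul_le_mul_left _ (by omega)
      _ = _ := mul_one _
  exact h.ne (Subgroup.eq_of_le_of_card_ge h.le h3)

theorem Chain.two_pow_le [Finite G] {B : Subgroup G} {l : ℕ} (h : Chain ⊥ B l) :
    2 ^ l ≤ Nat.card B := by
  induction h with
  | refl => simp
  | step _ hlt _ ih =>
    obtain ⟨r, hr, e⟩ := exists_card_eq_of_lt hlt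
    rw [e, pow_succ]
    exact Nat.mul_le_mul ih hr

theorem Chain.three_pow_le [Finite G] {B : Subgroup G} {l : ℕ} (h : Chain ⊥ B l) :
    3 ^ l * 2 ^ (Nat.card B).factorization 2 ≤ 3 ^ (Nat.card B).factorization 2 * Nat.card B := by
  induction h with
  | refl => simp
  | @step B C l _ hlt _ ih =>
    obtain ⟨r, hr, e⟩ := exists_card_eq_of_lt hlt
    have h1 : 3 * 2 ^ r.factorization 2 ≤ 3 ^ r.factorization 2 * r := by
      rcases Nat.eq_zero_or_pos (r.factorization 2) with h0 | h0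
      · have : ¬ 2 ∣ r := fun hd =>
          (Nat.prime_two.factorization_pos_of_dvd (by omega) hd).ne' h0
        rw [h0]
        omega
      · exact Nat.mul_le_mul (Nat.le_self_pow h0.ne' 3) (Nat.ordProj_le 2 (by omega))
    rw [e, Nat.factorization_mul Nat.card_pos.ne' (by omega), Finsupp.add_apply, pow_add, pow_add,
      pow_add]
    calc 3 ^ l * 3 ^ 1 * (2 ^ (Nat.card B).factorization 2 * 2 ^ r.factorization 2)
        = (3 ^ l * 2 ^ (Nat.card B).factorization 2) * (3 * 2 ^ r.factorization 2) := by ring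
      _ ≤ (3 ^ (Nat.card B).factorization 2 * Nat.card B) * (3 ^ r.factorization 2 * r) :=
        Nat.mul_le_mul ih h1
      _ = _ := by ring

/-- The composition length of a subgroup. -/
noncomputable def cl (H : Subgroup G) : ℕ := sSup {l | Chain ⊥ H l}

theorem bdd [Finite G] (H : Subgroup G) : BddAbove {l | Chain ⊥ H l} :=
  ⟨Nat.card H, fun _ hl => (Nat.lt_two_pow_self.le.trans (Chain.two_pow_le hl))⟩

theorem Chain.le_cl [Finite G] {H : Subgroup G} {l : ℕ} (h : Chain ⊥ H l) : l ≤ cl H :=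
  le_csSup (bdd H) h

theorem chain_one {H : Subgroup G} (h : H ≠ ⊥) : Chain ⊥ H 1 :=
  Chain.step Chain.refl (bot_lt_iff_ne_bot.mpr h) fun c _ b hb => by
    rw [Subgroup.mem_bot.mp hb]; simp

theorem chain_cl [Finite G] (H : Subgroup G) : Chain ⊥ H (cl H) := by
  refine Nat.sSup_mem (s := {l | Chain ⊥ H l}) ?_ (bdd H)
  by_cases h : H = ⊥
  · exact ⟨0, h ▸ Chain.refl⟩
  · exact ⟨1, chain_one h⟩

theorem one_le_cl [Finite G] {H : Subgroup G} (h : H ≠ ⊥) : 1 ≤ cl H := (chain_one h).le_cl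

theorem cl_bot [Finite G] : cl (⊥ : Subgroup G) = 0 := by
  have := (chain_cl (⊥ : Subgroup G)).two_pow_le
  rw [Subgroup.card_bot] at this
  by_contra h
  have := Nat.one_lt_two_pow h
  omega

theorem Chain.split {Q : Type*} [Group Q] (f : G →* Q) {H : Subgroup G} {l : ℕ}
    (h : Chain ⊥ H l) :
    ∃ l₁ l₂, l ≤ l₁ + l₂ ∧ Chain ⊥ (H ⊓ f.ker) l₁ ∧ Chain ⊥ (H.map f) l₂ := by
  induction h with
  | refl => exact ⟨0, 0, le_rfl, by rw [bot_inf_eq]; exact Chain.refl,
      by rw [Subgroup.map_bot]; exact Chain.refl⟩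
  | @step B C l _ hlt hn ih =>
    obtain ⟨l₁, l₂, hle, h1, h2⟩ := ih
    have n1 : ∀ c ∈ C ⊓ f.ker, ∀ b ∈ B ⊓ f.ker, c * b * c⁻¹ ∈ B ⊓ f.ker := fun c hc b hb =>
      ⟨hn c hc.1 b hb.1, f.normal_ker.conj_mem b hb.2 c⟩
    have n2 : ∀ c ∈ C.map f, ∀ b ∈ B.map f, c * b * c⁻¹ ∈ B.map f := by
      rintro _ ⟨c, hc, rfl⟩ _ ⟨b, hb, rfl⟩
      exact ⟨_, hn c hc b hb, by simp⟩
    rcases (inf_le_inf_right f.ker hlt.le).eq_or_lt with e1 | e1 <;>
      rcases (Subgroup.map_mono (f := f) hlt.le).eq_or_lt with e2 | e2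
    · exfalso
      apply hlt.not_ge
      intro c hc
      have : f c ∈ B.map f := e2 ▸ ⟨c, hc, rfl⟩
      obtain ⟨b, hb, e⟩ := this
      have h3 : b⁻¹ * c ∈ B ⊓ f.ker := e1 ▸ ⟨C.mul_mem (C.inv_mem (hlt.le hb)) hc, by
        simp [MonoidHom.mem_ker, e]⟩
      simpa using B.mul_mem hb h3.1
    · exact ⟨l₁, l₂ + 1, by omega, e1 ▸ h1, Chain.step h2 e2 n2⟩
    · exact ⟨l₁ + 1, l₂, by omega, Chain.step h1 e1 n1, e2 ▸ h2⟩
    · exact ⟨l₁ + 1, l₂ + 1, by omega, Chain.step h1 e1 n1, Chain.step h2 e2 n2⟩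

theorem Chain.comap {Q : Type*} [Group Q] (f : G →* Q) (H : Subgroup G) {A B : Subgroup Q} {l : ℕ}
    (h : Chain A B l) (hB : B ≤ H.map f) : Chain (H ⊓ A.comap f) (H ⊓ B.comap f) l := by
  induction h with
  | refl => exact Chain.refl
  | @step B C l _ hlt hn ih =>
    refine Chain.step (ih (hlt.le.trans hB))
      (lt_of_le_of_ne (inf_le_inf_left _ (Subgroup.comap_mono hlt.le)) fun e => ?_)
      fun c hc b hb => ⟨H.mul_mem (H.mul_mem hc.1 hb.1) (H.inv_mem hc.1), ?_⟩
    · apply hlt.not_ge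
      intro c hc
      obtain ⟨x, hx, rfl⟩ := hB hc
      have : x ∈ H ⊓ B.comap f := e ▸ ⟨hx, hc⟩
      exact this.2
    · simpa using hn _ hc.2 _ hb.2

/-- Additivity of the composition length. -/
theorem cl_eq [Finite G] {Q : Type*} [Group Q] [Finite Q] (f : G →* Q) (H : Subgroup G) :
    cl H = cl (H ⊓ f.ker) + cl (H.map f) := by
  apply le_antisymm
  · obtain ⟨l₁, l₂, hle, h1, h2⟩ := (chain_cl H).split f
    exact hle.trans (Nat.add_le_add h1.le_cl h2.le_cl)
  · have h1 := (chain_cl (H.map f)).comap f H le_rfl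
    rw [MonoidHom.comap_bot, inf_eq_left.mpr (Subgroup.le_comap_map f H)] at h1
    exact ((chain_cl _).trans h1).le_cl

theorem cl_map_of_injective [Finite G] {Q : Type*} [Group Q] [Finite Q] (f : G →* Q)
    (hf : Function.Injective f) (H : Subgroup G) : cl (H.map f) = cl H := by
  rw [cl_eq f H, (MonoidHom.ker_eq_bot_iff f).mpr hf, inf_bot_eq, cl_bot, zero_add]

theorem cl_top_subtype [Finite G] (H : Subgroup G) : cl (⊤ : Subgroup H) = cl H := by
  rw [← cl_map_of_injective H.subtype H.subtype_injective, ← MonoidHom.range_eq_map,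
    Subgroup.range_subtype]

theorem cl_top_eq [Finite G] {Q : Type*} [Group Q] [Finite Q] (f : G →* Q) :
    cl (⊤ : Subgroup G) = cl f.ker + cl f.range := by
  rw [cl_eq f, top_inf_eq, MonoidHom.range_eq_map]

theorem cl_top_simple [Finite G] [IsSimpleGroup G] : cl (⊤ : Subgroup G) ≤ 1 := by
  have h := chain_cl (⊤ : Subgroup G)
  generalize cl (⊤ : Subgroup G) = l at h
  generalize hT : (⊤ : Subgroup G) = T at h
  cases h with
  | refl => omega
  | @step B _ l h1 hlt hn =>
    subst hT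
    have hB : B.Normal := ⟨fun b hb c => hn c (Subgroup.mem_top c) b hb⟩
    rcases hB.eq_bot_or_eq_top with h | h
    · have := h1.two_pow_le
      rw [h, Subgroup.card_bot] at this
      by_contra h2
      have := Nat.one_lt_two_pow (n := l) (by omega)
      omega
    · exact absurd h hlt.ne

theorem cl_normal_simple [Finite G] [IsSimpleGroup G] (H : Subgroup G) (hH : H.Normal) :
    cl H ≤ 1 := by
  rcases hH.eq_bot_or_eq_top with h | h
  · rw [h, cl_bot]; omega
  · rw [h]; exact cl_top_simple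

theorem cl_pi_le {T ι : Type*} [Group T] [Finite T] [IsSimpleGroup T] [Finite ι] (S : Finset ι)
    (H : Subgroup (ι → T)) (hH : H.Normal) (hS : ∀ x ∈ H, ∀ i, i ∉ S → x i = 1) :
    cl H ≤ S.card := by
  classical
  induction S using Finset.induction_on generalizing H with
  | empty =>
    have : H = ⊥ := eq_bot_iff.mpr fun x hx => funext fun i => hS x hx i (by simp)
    rw [this, cl_bot]; omega
  | insert i S hi ih =>
    rw [cl_eq (Pi.evalMonoidHom (fun _ => T) i) H, Finset.card_insert_of_notMem hi]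
    refine Nat.add_le_add (ih _ inferInstance fun x hx j hj => ?_)
      (cl_normal_simple _ (hH.map _ fun t => ⟨fun _ => t, rfl⟩))
    by_cases hji : j = i
    · rw [hji]; exact hx.2
    · exact hS x hx.1 j (by simp [hji, hj])

theorem le_cl_pi {T ι : Type*} [Group T] [Finite T] [Finite ι] [DecidableEq ι] (S : Finset ι)
    (H : Subgroup (ι → T)) (hS : ∀ i ∈ S, ∃ t : T, t ≠ 1 ∧ Pi.mulSingle i t ∈ H) :
    S.card ≤ cl H := by
  induction S using Finset.induction_on generalizing H with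
  | empty => simp
  | insert i S hi ih =>
    rw [cl_eq (Pi.evalMonoidHom (fun _ => T) i) H, Finset.card_insert_of_notMem hi]
    refine Nat.add_le_add (ih _ fun j hj => ?_) (one_le_cl ?_)
    · obtain ⟨t, ht, h⟩ := hS j (Finset.mem_insert_of_mem hj)
      refine ⟨t, ht, h, ?_⟩
      have : i ≠ j := fun e => hi (e ▸ hj)
      simp [MonoidHom.mem_ker, this]
    · obtain ⟨t, ht, h⟩ := hS i (Finset.mem_insert_self _ _)
      intro e
      have : t ∈ H.map (Pi.evalMonoidHom (fun _ => T) i) := ⟨_, h, by simp⟩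
      rw [e] at this
      exact ht this

theorem chain_of_fin (l : ℕ) (H : Fin (l + 1) → Subgroup G)
    (hchain : ∀ i : Fin l, H i.castSucc < H i.succ ∧
      ((H i.castSucc).subgroupOf (H i.succ)).Normal) : Chain (H 0) (H (Fin.last l)) l := by
  suffices h : ∀ (k : ℕ) (hk : k < l + 1), Chain (H 0) (H ⟨k, hk⟩) k from h l (by omega)
  intro k
  induction k with
  | zero => intro _; exact Chain.refl
  | succ k ih =>
    intro hk
    obtain ⟨h1, h2⟩ := hchain ⟨k, by omega⟩
    exact Chain.step (ih (by omega)) h1 fun c hc b hb =>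
      h2.conj_mem ⟨b, h1.le hb⟩ hb ⟨c, hc⟩

end Cfsg.Agent.H3.CompLen
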