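import Mathlib
import Cfsg.Agent.H3.CompLen

/-!
The order of the automorphism group of a finite group of order `n` is at most
`∏ (n - 2 ^ i)` over `i < log₂ n`, and numerical consequences.
-/

set_option autoImplicit false

namespace Cfsg.Agent.H3.AutBound

open MulAction

variable {N : Type*} [Group N] [Finite N]

theorem card_le_prod_aux (d : ℕ) (hd : Nat.card N < 2 ^ (d + 1)) (hd' : 2 ^ d ≤ Nat.card N)
    (k : ℕ) : ∀ (j : ℕ), j + k = d → ∀ H : Subgroup (MulAut N),
      2 ^ j ≤ Nat.card (FixedPoints.subgroup H N) →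
      Nat.card H ≤ ∏ i ∈ Finset.Ico j d, (Nat.card N - 2 ^ i) := by
  have hbot : ∀ H : Subgroup (MulAut N), FixedPoints.subgroup H N = ⊤ → Nat.card H = 1 := by
    intro H h
    rw [Subgroup.card_eq_one, eq_bot_iff]
    intro φ hφ
    refine MulEquiv.ext fun x => ?_
    have : x ∈ FixedPoints.subgroup H N := h ▸ Subgroup.mem_top x
    exact (FixedPoints.mem_subgroup H N x).mp this ⟨φ, hφ⟩
  induction k with
  | zero =>
    intro j hj H hH
    obtain rfl : j = d := by omega
    rw [Finset.Ico_self, Finset.prod_empty]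
    by_cases h : FixedPoints.subgroup H N = ⊤
    · exact (hbot H h).le
    · obtain ⟨r, hr, e⟩ := CompLen.exists_card_eq_of_lt (lt_top_iff_ne_top.mpr h)
      rw [Subgroup.card_top] at e
      have := Nat.mul_le_mul hH hr
      rw [pow_succ] at hd
      omega
  | succ k ih =>
    intro j hj H hH
    by_cases h : FixedPoints.subgroup H N = ⊤
    · rw [hbot H h]
      refine Finset.one_le_prod' fun i hi => ?_
      have := Nat.pow_lt_pow_right (a := 2) (by omega) (Finset.mem_Ico.mp hi).2
      omega
    obtain ⟨x, hx⟩ : ∃ x, x ∉ FixedPoints.subgroup H N := by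
      by_contra h2
      push Not at h2
      exact h (eq_top_iff.mpr fun x _ => h2 x)
    have hlt : FixedPoints.subgroup H N <
        FixedPoints.subgroup ((stabilizer H x).map H.subtype) N := by
      refine lt_of_le_of_ne (fun y hy => ?_) fun e => hx ?_
      · rw [FixedPoints.mem_subgroup] at hy ⊢
        rintro ⟨_, φ, hφ, rfl⟩
        exact hy φ
      · rw [e, FixedPoints.mem_subgroup]
        rintro ⟨_, φ, hφ, rfl⟩
        exact hφ
    obtain ⟨r, hr, e⟩ := CompLen.exists_card_eq_of_lt hlt
    have h1 := ih (j + 1) (by omega) ((stabilizer H x).map H.subtype) (by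
      rw [e, pow_succ]; exact Nat.mul_le_mul hH hr)
    rw [Subgroup.card_map_of_injective H.subtype_injective] at h1
    have h2 : (orbit H x).ncard ≤ Nat.card N - 2 ^ j := by
      have h3 : orbit H x ⊆ ((FixedPoints.subgroup H N : Set N))ᶜ := by
        rintro _ ⟨φ, rfl⟩ h4
        apply hx
        have h5 : φ⁻¹ • φ • x = φ • x := (FixedPoints.mem_subgroup H N _).mp h4 φ⁻¹
        rw [inv_smul_smul] at h5
        rw [h5]; exact h4
      have h4 := Set.ncard_le_ncard h3
      have h5 := Set.ncard_add_ncard_compl (FixedPoints.subgroup H N : Set N)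
      have h6 : (FixedPoints.subgroup H N : Set N).ncard = Nat.card (FixedPoints.subgroup H N) :=
        rfl
      omega
    rw [← (stabilizer H x).card_mul_index, index_stabilizer,
      Finset.prod_eq_prod_Ico_succ_bot (by omega : j < d), mul_comm]
    exact Nat.mul_le_mul h2 h1

theorem card_mulAut_le : Nat.card (MulAut N) ≤
    ∏ i ∈ Finset.range (Nat.log 2 (Nat.card N)), (Nat.card N - 2 ^ i) := by
  have := card_le_prod_aux (N := N) (Nat.log 2 (Nat.card N))
    (Nat.lt_pow_succ_log_self (by omega) _) (Nat.pow_log_le_self _ Nat.card_pos.ne') _ 0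
    (zero_add _) ⊤ Nat.card_pos
  rwa [Subgroup.card_top, ← Finset.range_eq_Ico] at this

theorem numeric (n l g : ℕ) (hn : 2 ≤ n) (hl : 2 ^ l ≤ g)
    (h3 : 3 ^ l * 2 ^ g.factorization 2 ≤ 3 ^ g.factorization 2 * g) (hg : g ∣ n.factorial)
    (hle : g ≤ n * ∏ i ∈ Finset.range (Nat.log 2 n), (n - 2 ^ i)) : 3 * l + 4 ≤ 4 * n := by
  by_contra hlt
  rcases Nat.lt_or_ge n 32 with h32 | h32
  · by_cases h89 : n = 8 ∨ n = 9
    · have h1 : g ≤ 2520 := by
        rcases h89 with rfl | rfl
        · exact hle.trans (by decide +kernel)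
        · exact hle.trans (by decide +kernel)
      have h2 : g ∣ Nat.factorial 9 := hg.trans (Nat.factorial_dvd_factorial (by omega))
      have h4 : g.factorization 2 ≤ 7 := by
        by_contra h
        have : 2 ^ 8 ∣ Nat.factorial 9 :=
          ((pow_dvd_pow 2 (by omega)).trans (Nat.ordProj_dvd g 2)).trans h2
        revert this
        decide +kernel
      have h5 : 3 ^ 10 ≤ 3 ^ l := Nat.pow_le_pow_right (by omega) (by omega)
      generalize g.factorization 2 = v at h3 h4
      generalize 3 ^ l = u at h3 h5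
      interval_cases v <;> omega
    · have h1 : 2 ^ ((4 * n - 1) / 3) ≤ n * ∏ i ∈ Finset.range (Nat.log 2 n), (n - 2 ^ i) :=
        (Nat.pow_le_pow_right (by omega) (by omega)).trans (hl.trans hle)
      revert h1 h89
      clear hle hg hlt
      revert n
      decide +kernel
  · have h1 := Nat.lt_pow_succ_log_self (b := 2) (by omega) n
    have h2 := Nat.pow_log_le_self 2 (by omega : n ≠ 0)
    have h5 : 5 ≤ Nat.log 2 n := Nat.le_log_of_pow_le (by omega) h32
    generalize Nat.log 2 n = d at h1 h2 h5 hle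
    have h4 : ∏ i ∈ Finset.range d, (n - 2 ^ i) ≤ n ^ d := by
      simpa using Finset.prod_le_pow_card (Finset.range d) (fun i => n - 2 ^ i) n
        fun i _ => Nat.sub_le _ _
    have h6 : 2 ^ l < 2 ^ ((d + 1) * (d + 1)) := by
      calc 2 ^ l ≤ n * n ^ d := hl.trans (hle.trans (Nat.mul_le_mul_left _ h4))
        _ = n ^ (d + 1) := by ring
        _ < (2 ^ (d + 1)) ^ (d + 1) := Nat.pow_lt_pow_left h1 (by omega)
        _ = _ := by rw [← pow_mul]
    have h7 := (Nat.pow_lt_pow_iff_right (by omega)).mp h6
    have h8 : ∀ e, 5 ≤ e → 3 * ((e + 1) * (e + 1)) + 1 ≤ 4 * 2 ^ e := by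
      intro e he
      induction e, he using Nat.le_induction with
      | base => norm_num
      | succ e he ih => rw [pow_succ]; nlinarith
    have := h8 d h5
    omega

end Cfsg.Agent.H3.AutBound
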