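import Cfsg.Agent.H3.Support
import Cfsg.Agent.H1.Basic

set_option autoImplicit false
set_option linter.style.haveILetI false
set_option linter.unusedSectionVars false

/-! Babai's lower bound for the minimal degree of a primitive group. -/

namespace Cfsg.Agent.H3.Babai

open MulAction Finset

variable {G Ω : Type*} [Group G] [MulAction G Ω] [Finite G] [Fintype Ω] [DecidableEq Ω]

variable (G) in
/-- `x` and `y` lie in one orbit of the stabiliser of `z`. -/
def Same (z x y : Ω) : Prop := ∃ h : G, h • z = z ∧ h • x = y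

theorem Same.symm {z x y : Ω} (h : Same G z x y) : Same G z y x := by
  obtain ⟨h, h1, h2⟩ := h
  exact ⟨h⁻¹, inv_smul_eq_iff.2 h1.symm, inv_smul_eq_iff.2 h2.symm⟩

theorem Same.trans {z x y w : Ω} (h : Same G z x y) (h' : Same G z y w) : Same G z x w := by
  obtain ⟨h, h1, h2⟩ := h
  obtain ⟨k, k1, k2⟩ := h'
  exact ⟨k * h, by rw [mul_smul, h1, k1], by rw [mul_smul, h2, k2]⟩

theorem Same.conj {z x y : Ω} (h : Same G z x y) (g : G) : Same G (g • z) (g • x) (g • y) := by
  obtain ⟨h, h1, h2⟩ := h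
  exact ⟨g * h * g⁻¹, by simp [mul_smul, h1], by simp [mul_smul, h2]⟩

variable (G) in
open Classical in
/-- The number of points distinguishing `x` and `y`. -/
noncomputable def dn (x y : Ω) : ℕ := (univ.filter fun z => ¬ Same G z x y).card

theorem dn_symm (x y : Ω) : dn G x y ≤ dn G y x := by
  classical
  exact card_le_card fun z hz => by
    simp only [mem_filter, mem_univ, true_and] at hz ⊢; exact fun e => hz e.symm

theorem dn_tri (x y w : Ω) : dn G x w ≤ dn G x y + dn G y w := by
  classical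
  refine le_trans (card_le_card fun z hz => ?_) (card_union_le _ _)
  simp only [mem_filter, mem_univ, true_and, mem_union] at hz ⊢
  by_contra hc
  push Not at hc
  exact hz (hc.1.trans hc.2)

theorem dn_conj (x y : Ω) (g : G) : dn G (g • x) (g • y) ≤ dn G x y := by
  classical
  refine card_le_card_of_injOn (fun z => g⁻¹ • z) (fun z hz => ?_) fun _ _ _ _ e =>
    smul_left_cancel _ e
  simp only [coe_filter, mem_univ, true_and, Set.mem_ofPred_eq] at hz ⊢
  exact fun e => hz (by simpa using e.conj g)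

theorem dn_self (x : Ω) : dn G x x = 0 := by
  classical
  rw [dn, card_eq_zero, filter_eq_empty_iff]
  exact fun z _ h => h ⟨1, one_smul _ _, one_smul _ _⟩

/-- Balls in a graph. -/
def Ball (r : Ω → Ω → Prop) (z : Ω) : ℕ → Ω → Prop
  | 0, x => x = z
  | j + 1, x => Ball r z j x ∨ ∃ y, Ball r z j y ∧ r y x

theorem Ball.conj {r : Ω → Ω → Prop} (hr : ∀ (g : G) x y, r x y → r (g • x) (g • y)) (g : G)
    {z : Ω} {j : ℕ} {x : Ω} (h : Ball r z j x) : Ball r (g • z) j (g • x) := by
  induction j generalizing x with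
  | zero => exact congrArg _ h
  | succ j ih =>
    rcases h with h | ⟨y, h1, h2⟩
    · exact Or.inl (ih h)
    · exact Or.inr ⟨g • y, ih h1, hr g _ _ h2⟩

theorem bound_or [IsPreprimitive G Ω] {x₀ y₀ : Ω} (hxy : x₀ ≠ y₀) {m : ℕ} (hm : dn G x₀ y₀ ≤ m) :
    Fintype.card Ω ≤ 3 * m * m + 1 ∨ ∀ x y : Ω, dn G x y ≤ 2 * m := by
  classical
  set r : Ω → Ω → Prop := fun x y => ∃ h : G, (h • x₀ = x ∧ h • y₀ = y) ∨ (h • x₀ = y ∧ h • y₀ = x)
    with hr
  have hs : ∀ x y, r x y → r y x := fun x y ⟨h, e⟩ => ⟨h, e.symm⟩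
  have hi : ∀ (g : G) x y, r x y → r (g • x) (g • y) := by
    rintro g x y ⟨h, e⟩
    exact ⟨g * h, by simpa only [mul_smul, smul_left_cancel_iff] using e⟩
  have hd : ∀ x y, r x y → dn G x y ≤ m := by
    rintro x y ⟨h, ⟨rfl, rfl⟩ | ⟨rfl, rfl⟩⟩
    · exact (dn_conj _ _ h).trans hm
    · exact (dn_symm _ _).trans ((dn_conj _ _ h).trans hm)
  have hb : ∀ z j x, Ball r z j x → dn G z x ≤ j * m := by
    intro z j
    induction j with
    | zero => intro x h; rw [show x = z from h, dn_self]; simp
    | succ j ih =>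
      rintro x (h | ⟨y, h1, h2⟩)
      · exact (ih x h).trans (by nlinarith)
      · have := dn_tri (G := G) z y x
        have := ih y h1
        have := hd y x h2
        nlinarith
  have hconn : ∀ z x, ∃ j, Ball r z j x := fun z x =>
    (H1.Basic.connected_of_invariant (G := G) r hi hxy ⟨1, Or.inl ⟨one_smul _ _, one_smul _ _⟩⟩
      {x | ∃ j, Ball r z j x} (fun x y h => ⟨fun ⟨j, hj⟩ => ⟨j + 1, Or.inr ⟨x, hj, h⟩⟩,
        fun ⟨j, hj⟩ => ⟨j + 1, Or.inr ⟨y, hj, hs _ _ h⟩⟩⟩) z x).1 ⟨0, rfl⟩
  by_cases h2 : ∀ x y, Ball r x 2 y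
  · exact Or.inr fun x y => hb x 2 y (h2 x y)
  left
  push Not at h2
  obtain ⟨x, y, hy⟩ := h2
  obtain ⟨w, hw3, hw2⟩ : ∃ w, Ball r x 3 w ∧ ¬ Ball r x 2 w := by
    by_contra hc
    push Not at hc
    obtain ⟨j, hj⟩ := hconn x y
    refine hy ?_
    clear hy
    induction j generalizing y with
    | zero => exact Or.inl (Or.inl hj)
    | succ j ih =>
      rcases hj with h | ⟨v, h1, h2⟩
      · exact ih y h
      · exact hc y (Or.inr ⟨v, ih v h1, h2⟩)
  set N := univ.filter fun z => r x z with hN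
  have h3 : N.card ≤ 3 * m := by
    refine le_trans (card_le_card fun z hz => ?_) (hb x 3 w hw3)
    simp only [hN, mem_filter, mem_univ, true_and] at hz ⊢
    rintro ⟨h, e1, e2⟩
    exact hw2 (Or.inr ⟨z, Or.inr ⟨x, rfl, hz⟩, hs _ _ (by simpa only [e1, e2] using hi h _ _ hz)⟩)
  have h4 : univ.erase x ⊆ N.biUnion fun v => univ.filter fun z => ¬ Same G z x v := by
    intro z hz
    simp only [hN, mem_biUnion, mem_filter, mem_univ, true_and]
    have hj := Nat.find_spec (hconn z x)
    have hmin := fun j => Nat.find_min (hconn z x) (m := j)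
    rcases e : Nat.find (hconn z x) with _ | j
    · rw [e] at hj
      exact absurd (show x = z from hj).symm (ne_of_mem_erase hz)
    rw [e] at hj hmin
    rcases hj with h | ⟨v, h1, h2⟩
    · exact absurd h (hmin j (by omega))
    · refine ⟨v, hs _ _ h2, fun hsame => hmin j (by omega) ?_⟩
      obtain ⟨h, e1, e2⟩ := hsame.symm
      simpa only [e1, e2] using h1.conj hi h
  have h5 := (card_le_card h4).trans (card_biUnion_le_card_mul _ _ m fun v hv =>
    hd x v (by simpa [hN] using hv))
  rw [card_erase_of_mem (mem_univ _), card_univ] at h5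
  have := Nat.mul_le_mul_right m h3
  omega

theorem two_trans_or [IsPreprimitive G Ω] (x : Ω) {m : ℕ} (hm : ∀ x y : Ω, dn G x y ≤ m) :
    Fintype.card Ω ≤ m * m + m + 1 ∨
      ∀ a b c d : Ω, a ≠ b → c ≠ d → ∃ g : G, g • a = c ∧ g • b = d := by
  classical
  obtain ⟨⟨z₀, x₀⟩, -, hmax⟩ := exists_max_image univ
    (fun p : Ω × Ω => (univ.filter fun y => Same G p.1 p.2 y).card) ⟨(x, x), mem_univ _⟩
  set ρ := (univ.filter fun y => Same G z₀ x₀ y).card with hρ
  have h1 : Fintype.card Ω ≤ m + ρ := by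
    have e1 : ∑ y, dn G x y = ∑ z, (univ.filter fun y => ¬ Same G z x y).card := by
      simp only [dn, card_filter]
      convert sum_comm
    have e2 : ∑ _z : Ω, Fintype.card Ω ≤
        ∑ z, ((univ.filter fun y => ¬ Same G z x y).card + ρ) := sum_le_sum fun z _ => by
      have := card_filter_add_card_filter_not (s := (univ : Finset Ω)) (fun y => Same G z x y)
      have := hmax (z, x) (mem_univ _)
      rw [← card_univ]
      dsimp only at this
      omega
    have e3 : ∑ y, dn G x y ≤ ∑ _y : Ω, m := sum_le_sum fun y _ => hm x y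
    rw [sum_add_distrib, ← e1] at e2
    simp only [sum_const, card_univ, smul_eq_mul] at e2 e3
    haveI : Nonempty Ω := ⟨x⟩
    exact Nat.le_of_mul_le_mul_left (by rw [mul_add]; omega) (Fintype.card_pos (α := Ω))
  by_cases hzx : z₀ = x₀
  · left
    have : ρ ≤ 1 := card_le_one.2 fun a ha b hb => by
      simp only [mem_filter, mem_univ, true_and] at ha hb
      obtain ⟨h, e1, e2⟩ := ha
      obtain ⟨k, e3, e4⟩ := hb
      rw [← e2, ← e4, ← hzx, e1, e3]
    omega
  set M : Ω → Ω → Prop := fun a b => ∃ h : G, h • z₀ = a ∧ h • x₀ = b with hM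
  have hMi : ∀ (g : G) a b, M (g • a) (g • b) → M a b := by
    rintro g a b ⟨h, e1, e2⟩
    exact ⟨g⁻¹ * h, by simp [mul_smul, e1], by simp [mul_smul, e2]⟩
  have hMne : ∀ a b, M a b → a ≠ b := by
    rintro a b ⟨h, rfl, rfl⟩ e
    exact hzx (smul_left_cancel h e)
  set H : Ω → Ω → Prop := fun a b => a ≠ b ∧ ¬ M a b with hH
  have hHi : ∀ (g : G) a b, H a b → H (g • a) (g • b) := fun g a b h =>
    ⟨fun e => h.1 (smul_left_cancel g e), fun e => h.2 (hMi g a b e)⟩
  by_cases hE : ∀ a b, ¬ H a b
  · right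
    intro a b c d h1 h2
    obtain ⟨h, rfl, rfl⟩ : M a b := by by_contra e; exact hE a b ⟨h1, e⟩
    obtain ⟨k, rfl, rfl⟩ : M c d := by by_contra e; exact hE c d ⟨h2, e⟩
    exact ⟨k * h⁻¹, by simp [mul_smul], by simp [mul_smul]⟩
  left
  push Not at hE
  obtain ⟨a₀, b₀, hab⟩ := hE
  set s := (univ.filter fun b => H z₀ b).card with hs
  have h2 : ∀ a, (univ.filter fun b => H a b).card ≤ s := by
    intro a
    obtain ⟨g, rfl⟩ := exists_smul_eq G a z₀
    exact card_le_card_of_injOn (fun b => g • b) (fun b hb => by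
      simp only [coe_filter, mem_univ, true_and, Set.mem_ofPred_eq] at hb ⊢
      exact hHi g _ _ hb) fun _ _ _ _ e => smul_left_cancel g e
  have h3 : s + ρ + 1 = Fintype.card Ω := by
    have e1 := card_filter_add_card_filter_not (s := univ.erase z₀) (fun b => M z₀ b)
    rw [card_erase_of_mem (mem_univ _), card_univ] at e1
    have e2 : (univ.erase z₀).filter (fun b => M z₀ b) = univ.filter fun y => Same G z₀ x₀ y := by
      ext b
      simp only [mem_filter, mem_erase, mem_univ, and_true, true_and]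
      exact ⟨fun h => h.2, fun h => ⟨(hMne _ _ h).symm, h⟩⟩
    have e3 : (univ.erase z₀).filter (fun b => ¬ M z₀ b) = univ.filter fun b => H z₀ b := by
      ext b
      simp only [mem_filter, mem_erase, mem_univ, and_true, true_and, hH, ne_comm]
    rw [e2, e3] at e1
    haveI : Nonempty Ω := ⟨x⟩
    have := Fintype.card_pos (α := Ω)
    omega
  obtain ⟨u, v, w, h4, h5, h6⟩ : ∃ u v w, H u v ∧ H v w ∧ M u w := by
    by_contra hc
    push Not at hc
    have tr : ∀ u v w, (u = v ∨ H u v) → (v = w ∨ H v w) → (u = w ∨ H u w) := by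
      rintro u v w (rfl | h1) (rfl | h2)
      exacts [Or.inl rfl, Or.inr h2, Or.inr h1,
        (eq_or_ne u w).imp_right fun e => ⟨e, hc u v w h1 h2⟩]
    have sy : ∀ u v, H u v → (v = u ∨ H v u) := by
      intro u v h
      obtain ⟨g, rfl⟩ := exists_smul_eq G u v
      have : ∀ j : ℕ, g • u = g ^ (j + 1) • u ∨ H (g • u) (g ^ (j + 1) • u) := by
        intro j
        induction j with
        | zero => simp
        | succ j ih =>
          refine tr _ _ _ ih (Or.inr ?_)
          rw [pow_succ g (j + 1), mul_smul]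
          exact hHi _ _ _ h
      have e := this (orderOf g - 1)
      rwa [Nat.sub_add_cancel (orderOf_pos g), pow_orderOf_eq_one, one_smul] at e
    have := (H1.Basic.connected_of_invariant (G := G) H hHi hab.1 hab {b | z₀ = b ∨ H z₀ b}
      (fun u v h => ⟨fun e => tr _ _ _ e (Or.inr h), fun e => tr _ _ _ e (sy _ _ h)⟩) z₀ x₀).1
      (Or.inl rfl)
    exact this.elim hzx fun e => e.2 ⟨1, one_smul _ _, one_smul _ _⟩
  have h7 : ρ ≤ s * s := by
    refine le_trans (card_le_card (t := (univ.filter fun b => H z₀ b).biUnion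
      fun a => univ.filter fun b => H a b) fun y hy => ?_)
      (card_biUnion_le_card_mul _ _ s fun a _ => h2 a)
    simp only [mem_filter, mem_univ, true_and, mem_biUnion] at hy ⊢
    obtain ⟨h, e1, e2⟩ := hy
    obtain ⟨k, rfl, rfl⟩ := h6
    refine ⟨(h * k⁻¹) • v, ?_, ?_⟩
    · simpa only [mul_smul, inv_smul_smul, e1] using hHi (h * k⁻¹) _ _ h4
    · simpa only [mul_smul, inv_smul_smul, e2] using hHi (h * k⁻¹) _ _ h5
  have h8 : s ≤ m := by omega
  have := Nat.mul_le_mul h8 h8
  omega

theorem two_trans_bound [FaithfulSMul G Ω] [IsPreprimitive G Ω]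
    (hA : ¬ alternatingGroup Ω ≤ (toPermHom G Ω).range)
    (h2 : ∀ a b c d : Ω, a ≠ b → c ≠ d → ∃ g : G, g • a = c ∧ g • b = d) {g : G} {a : Ω}
    (ha : g • a ≠ a) : Fintype.card Ω ≤ (univ.filter fun z : Ω => g • z ≠ z).card ^ 2 + 1 := by
  classical
  haveI := Fintype.ofFinite G
  set S := univ.filter fun z : Ω => g • z ≠ z with hS
  set A := univ.filter fun h : G => h • a ∈ S with hAd
  set l : Ω → ℕ := fun c => (A.filter fun h => h • c ∈ S).card with hl
  have hga : g • a ∈ univ.erase a := by simpa using ha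
  have h1 : ∀ c ∈ univ.erase a, ∀ d ∈ univ.erase a, l c ≤ l d := by
    intro c hc d hd
    obtain ⟨k, e1, rfl⟩ := h2 a d a c (ne_of_mem_erase hd).symm (ne_of_mem_erase hc).symm
    refine card_le_card_of_injOn (· * k) (fun h hh => ?_) fun _ _ _ _ e => by simpa using e
    simpa only [hAd, coe_filter, mem_filter, mem_univ, true_and, Set.mem_ofPred_eq, mul_smul, e1]
      using hh
  have h3 : A.card ≤ S.card * l (g • a) := by
    refine le_trans (card_le_card (t := (S.erase a).biUnion fun c => A.filter fun h => h • c ∈ S)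
      fun h hh => ?_) ((card_biUnion_le_card_mul _ _ _ fun c hc => h1 c
        (mem_erase.2 ⟨ne_of_mem_erase hc, mem_univ _⟩) _ hga).trans
        (Nat.mul_le_mul_right _ (card_le_card (erase_subset _ _))))
    by_contra hc
    simp only [mem_biUnion, mem_filter, not_exists, not_and, hh, true_imp_iff] at hc
    have := Support.commutator_of_inter (toPermHom G Ω g) (toPermHom G Ω (h⁻¹ * g * h)) a ha
      (fun e => by
        have e' : (h⁻¹ * g * h) • a = a := e
        rw [mul_smul, mul_smul, inv_smul_eq_iff] at e'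
        simp [hAd, hS, e'] at hh)
      (fun p h1 h2 => by
        by_contra hp
        refine hc p (mem_erase.2 ⟨hp, by simpa [hS] using h1⟩) ?_
        simp only [hS, mem_filter, mem_univ, true_and]
        intro e
        exact h2 (show (h⁻¹ * g * h) • p = p by rw [mul_smul, mul_smul, e, inv_smul_smul]))
    refine hA (Support.alt_le_of_support_le_three _ ?_ ?_ this.1 this.2)
    · exact IsPreprimitive.of_surjective (φ := (toPermHom G Ω).rangeRestrict)
        (f := ⟨id, fun _ _ => rfl⟩) Function.surjective_id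
    · simp only [← map_inv, ← map_mul]
      exact ⟨_, rfl⟩
  have h4 : ∑ c, l c = A.card * S.card := by
    simp only [hl, card_filter]
    rw [sum_comm, sum_congr rfl (g := fun _ => S.card), sum_const, smul_eq_mul]
    intro h _
    rw [← card_filter]
    exact card_bij (fun c _ => h • c) (fun c hc => (mem_filter.1 hc).2)
      (fun _ _ _ _ e => smul_left_cancel h e) fun c hc => ⟨h⁻¹ • c, by simpa using hc, by simp⟩
  have h5 : (Fintype.card Ω - 1) * l (g • a) ≤ ∑ c, l c := by
    rw [← card_univ, ← card_erase_of_mem (mem_univ a), ← smul_eq_mul, ← sum_const]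
    exact (sum_le_sum fun c hc => h1 _ hga c hc).trans (sum_le_sum_of_subset (subset_univ _))
  have h6 : 0 < l (g • a) := card_pos.2 ⟨1, by simp [hAd, hS, ha]⟩
  have h7 : (Fintype.card Ω - 1) * l (g • a) ≤ S.card ^ 2 * l (g • a) := by
    have := Nat.mul_le_mul_right S.card h3
    nlinarith
  have := Nat.le_of_mul_le_mul_right h7 h6
  omega

theorem card_le [FaithfulSMul G Ω] [IsPreprimitive G Ω]
    (hA : ¬ alternatingGroup Ω ≤ (toPermHom G Ω).range) {g : G} (hg : g ≠ 1) :
    Fintype.card Ω ≤ (2 * (univ.filter fun z : Ω => g • z ≠ z).card + 1) ^ 2 := by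
  classical
  obtain ⟨a, ha⟩ : ∃ a : Ω, g • a ≠ a := by
    by_contra hc
    push Not at hc
    exact hg (eq_of_smul_eq_smul (α := Ω) fun w => by rw [hc, one_smul])
  have hm : dn G a (g • a) ≤ (univ.filter fun z : Ω => g • z ≠ z).card :=
    card_le_card fun z hz => by
      simp only [mem_filter, mem_univ, true_and] at hz ⊢
      exact fun e => hz ⟨g, e, rfl⟩
  rcases bound_or ha.symm hm with h | h
  · nlinarith
  rcases two_trans_or a h with h | h
  · nlinarith
  · have := two_trans_bound hA h ha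
    nlinarith

end Cfsg.Agent.H3.Babai
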