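import Mathlib

set_option autoImplicit false
set_option linter.style.haveILetI false
set_option linter.unusedSectionVars false

/-! Independence of subgroups, the number of endomorphisms, and a growth estimate. -/

namespace Cfsg.Agent.H3.Der

open Finset Filter Topology

theorem indep {V ι : Type*} [AddCommGroup V] [Finite V] [Fintype ι] (W : ι → AddSubgroup V)
    (h : ∀ i j, i ≠ j → ∃ φ : V →+ V, (∀ l, ∀ v ∈ W l, φ v ∈ W l) ∧ (∀ v ∈ W j, φ v = 0) ∧
      ∀ v ∈ W i, φ v = 0 → v = 0) : ∏ i, Nat.card (W i) ≤ Nat.card V := by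
  classical
  have key : ∀ s : Finset ι, ∀ v : ι → V, (∀ l, v l ∈ W l) → (∀ l, l ∉ s → v l = 0) →
      ∑ l, v l = 0 → ∀ l, v l = 0 := by
    intro s
    induction s using Finset.induction_on with
    | empty => exact fun v _ h2 _ l => h2 l (by simp)
    | insert j s hj ih =>
      intro v h1 h2 h3
      have h4 : ∀ i, i ≠ j → v i = 0 := by
        intro i hij
        obtain ⟨φ, a1, a2, a3⟩ := h i j hij
        refine a3 _ (h1 i) (ih (fun l => φ (v l)) (fun l => a1 l _ (h1 l)) (fun l hl => ?_)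
          (by rw [← map_sum, h3, map_zero]) i)
        by_cases hlj : l = j
        · rw [hlj]; exact a2 _ (h1 j)
        · simp only [h2 l (by simp [hl, hlj]), map_zero]
      intro l
      by_cases hlj : l = j
      · rw [sum_eq_single j (fun b _ hb => h4 b hb) (by simp)] at h3
        rw [hlj, h3]
      · exact h4 l hlj
  rw [← Nat.card_pi]
  refine Nat.card_le_card_of_injective (fun v => ∑ l, (v l : V)) fun v w hvw => ?_
  have := key univ (fun l => (v l : V) - w l) (fun l => (W l).sub_mem (v l).2 (w l).2)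
    (fun l hl => absurd (mem_univ l) hl) (by rw [sum_sub_distrib]; exact sub_eq_zero.2 hvw)
  exact funext fun l => Subtype.ext (sub_eq_zero.1 (this l))

theorem indep_pow {V ι : Type*} [AddCommGroup V] [Finite V] [Fintype ι] (W : ι → AddSubgroup V)
    (h : ∀ i j, i ≠ j → ∃ φ : V →+ V, (∀ l, ∀ v ∈ W l, φ v ∈ W l) ∧ (∀ v ∈ W j, φ v = 0) ∧
      ∀ v ∈ W i, φ v = 0 → v = 0) {w : ℕ} (hw : ∀ i, w ≤ Nat.card (W i)) :
    w ^ Fintype.card ι ≤ Nat.card V := by
  refine le_trans ?_ (indep W h)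
  rw [← card_univ, ← prod_const]
  exact prod_le_prod' fun i _ => hw i

theorem card_end_le (V : Type*) [AddCommGroup V] [Finite V] :
    Nat.card (V →+ V) ≤ Nat.card V ^ Nat.log 2 (Nat.card V) := by
  classical
  haveI := Fintype.ofFinite V
  obtain ⟨s, hs, hmax⟩ := exists_max_image (univ.filter fun s : Finset V =>
    2 ^ s.card ≤ Nat.card (AddSubgroup.closure (s : Set V))) card ⟨∅, by simp⟩
  simp only [mem_filter, mem_univ, true_and] at hs hmax
  have htop : AddSubgroup.closure (s : Set V) = ⊤ := by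
    by_contra hne
    obtain ⟨v, hv⟩ : ∃ v, v ∉ AddSubgroup.closure (s : Set V) := by
      by_contra hc
      push Not at hc
      exact hne (eq_top_iff.2 fun x _ => hc x)
    have hvs : v ∉ s := fun e => hv (AddSubgroup.subset_closure e)
    have hle : AddSubgroup.closure (s : Set V) ≤ AddSubgroup.closure ((insert v s : Finset V) : Set V) :=
      AddSubgroup.closure_mono (by simp)
    obtain ⟨c, hc⟩ := AddSubgroup.card_dvd_of_le hle
    have hc1 : c ≠ 1 := fun e => hv (by
      rw [AddSubgroup.eq_of_le_of_card_ge hle (by rw [hc, e, mul_one])]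
      exact AddSubgroup.subset_closure (by simp))
    have hc0 : c ≠ 0 := fun e => by
      rw [e, mul_zero] at hc
      exact Nat.card_pos.ne' hc
    have := hmax (insert v s) (by
      rw [hc, card_insert_of_notMem hvs, pow_succ]
      exact Nat.mul_le_mul hs (by omega))
    rw [card_insert_of_notMem hvs] at this
    omega
  rw [htop, AddSubgroup.card_top] at hs
  calc Nat.card (V →+ V) ≤ Nat.card (s → V) :=
        Nat.card_le_card_of_injective (fun f x => f x) fun f g hfg =>
          AddMonoidHom.eq_of_eqOn_dense htop fun x hx => congrFun hfg ⟨x, hx⟩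
    _ = Nat.card V ^ s.card := by rw [Nat.card_fun]; simp
    _ ≤ _ := Nat.pow_le_pow_right Nat.card_pos (Nat.le_log_of_pow_le (by norm_num) hs)

theorem poly : ∃ C : ℕ, 2 ≤ C ∧ ∀ k n j w : ℕ, n < (k + 1) ^ 2 → 2 ^ j ≤ n ^ Nat.log 2 n →
    k ≤ j ^ 4 * w → w ^ 3 ≤ n → k < C := by
  have h := tendsto_pow_const_div_const_pow_of_one_lt 24 (r := 2) (by norm_num)
  obtain ⟨m₀, hm₀⟩ := eventually_atTop.1 (h.eventually (gt_mem_nhds (a := (1 : ℝ) / 2 ^ 28)
    (by positivity)))
  refine ⟨2 ^ (m₀ + 1), Nat.le_self_pow (by omega) 2, fun k n j w h1 h2 h3 h4 => ?_⟩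
  rcases Nat.eq_zero_or_pos k with rfl | hk
  · positivity
  set L := Nat.log 2 n with hL
  set M := Nat.log 2 (k + 1) with hM
  have a1 : k + 1 < 2 ^ (M + 1) := Nat.lt_pow_succ_log_self (by norm_num) _
  have a2 : 2 ^ M ≤ k + 1 := Nat.pow_log_le_self 2 (by omega)
  have a3 : n < 2 ^ (L + 1) := Nat.lt_pow_succ_log_self (by norm_num) _
  have a4 : j ≤ (L + 1) ^ 2 := by
    have : 2 ^ j ≤ 2 ^ ((L + 1) * L) := by
      rw [pow_mul]; exact h2.trans (Nat.pow_le_pow_left a3.le _)
    have := (Nat.pow_le_pow_iff_right (by norm_num)).1 this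
    nlinarith
  have a5 : L + 1 ≤ 2 * (M + 1) := by
    rcases Nat.eq_zero_or_pos n with hn | hn
    · rw [hL, hn]; simp; omega
    have : L < (M + 1) * 2 := by
      rw [hL]
      refine Nat.log_lt_of_lt_pow hn.ne' ?_
      rw [pow_mul]
      exact h1.trans (Nat.pow_lt_pow_left a1 (by norm_num))
    omega
  have a6 : j ^ 12 ≤ (2 * (M + 1)) ^ 24 :=
    calc j ^ 12 ≤ ((L + 1) ^ 2) ^ 12 := Nat.pow_le_pow_left a4 _
      _ = (L + 1) ^ 24 := by ring
      _ ≤ _ := Nat.pow_le_pow_left a5 _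
  have a7 : k * k ^ 2 ≤ (4 * j ^ 12) * k ^ 2 :=
    calc k * k ^ 2 = k ^ 3 := by ring
      _ ≤ (j ^ 4 * w) ^ 3 := Nat.pow_le_pow_left h3 _
      _ = j ^ 12 * w ^ 3 := by ring
      _ ≤ j ^ 12 * (2 * k) ^ 2 := Nat.mul_le_mul_left _
          (h4.trans (h1.le.trans (Nat.pow_le_pow_left (by omega) _)))
      _ = _ := by ring
  have a8 : k ≤ 4 * j ^ 12 := Nat.le_of_mul_le_mul_right a7 (by positivity)
  have a9 : 2 ^ (M + 1) ≤ 2 ^ 27 * (M + 1) ^ 24 * 2 := by
    have : (2 * (M + 1)) ^ 24 = 2 ^ 24 * (M + 1) ^ 24 := by ring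
    rw [pow_succ]
    omega
  by_contra hc
  have b1 : m₀ + 1 ≤ M := by
    rw [hM]; exact Nat.le_log_of_pow_le (by norm_num) (by omega)
  have b2 := hm₀ (M + 1) (by omega)
  rw [div_lt_div_iff₀ (by positivity) (by positivity), one_mul] at b2
  have b3 : (M + 1) ^ 24 * 2 ^ 28 < 2 ^ (M + 1) := by exact_mod_cast b2
  omega

end Cfsg.Agent.H3.Der
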