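import Mathlib
import Cfsg.Agent.H1.Basic

set_option autoImplicit false
set_option linter.style.haveILetI false
set_option linter.unusedSectionVars false

/-! Transitive groups with a normal subgroup containing all derangements: basic counting. -/

namespace Cfsg.Agent.H3.Der

open MulAction Finset

variable {G Ω : Type*} [Group G] [MulAction G Ω]

/-- `G` is transitive on `Ω` and the normal subgroup `D` contains all derangements. -/
structure Sit (Ω : Type*) [MulAction G Ω] (D : Subgroup G) : Prop where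
  normal : D.Normal
  trans : IsPretransitive G Ω
  fix : ∀ g, g ∉ D → ∃ ω : Ω, g • ω = ω

theorem card_inf_mul_relIndex (K H : Subgroup G) :
    Nat.card (K ⊓ H : Subgroup G) * K.relIndex H = Nat.card H := by
  rw [← Subgroup.inf_relIndex_right,
    ← Nat.card_congr (Subgroup.subgroupOfEquivOfLe (inf_le_right : K ⊓ H ≤ H)).toEquiv]
  exact Subgroup.card_mul_index _

theorem card_orbit (H : Subgroup G) (a : Ω) :
    Nat.card (orbit H a) = (stabilizer G a).relIndex H :=
  H1.Basic.card_orbit_eq_relIndex H a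

theorem card_stab_mul (H : Subgroup G) (a : Ω) :
    Nat.card (stabilizer G a ⊓ H : Subgroup G) * Nat.card (orbit H a) = Nat.card H := by
  rw [card_orbit, card_inf_mul_relIndex]

theorem card_filter_sub [Fintype G] (H : Subgroup G) (p : G → Prop) [DecidablePred p]
    (h : ∀ g, p g ↔ g ∈ H) : (univ.filter p).card = Nat.card H := by
  rw [← Fintype.card_subtype, ← Nat.card_eq_fintype_card]
  exact Nat.card_congr (Equiv.subtypeEquivRight h)

theorem mem_orbit_sub {H : Subgroup G} {a b : Ω} : b ∈ orbit H a ↔ ∃ h ∈ H, h • a = b := by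
  constructor
  · rintro ⟨h, rfl⟩; exact ⟨h, h.2, rfl⟩
  · rintro ⟨h, hh, rfl⟩; exact ⟨⟨h, hh⟩, rfl⟩

theorem orbit_eq_univ_of_card [Finite Ω] {H : Subgroup G} {a : Ω}
    (h : Nat.card Ω ≤ Nat.card (orbit H a)) (b : Ω) : ∃ h ∈ H, h • a = b := by
  rw [← mem_orbit_sub]
  have : orbit H a = Set.univ :=
    Set.eq_of_subset_of_ncard_le (Set.subset_univ _) (by
      rw [Set.ncard_univ, ← Nat.card_coe_set_eq]; exact h)
  rw [this]; trivial

theorem card_orbit_le [Finite Ω] (H : Subgroup G) (a : Ω) : Nat.card (orbit H a) ≤ Nat.card Ω :=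
  Nat.card_le_card_of_injective _ Subtype.val_injective

theorem card_orbit_pos [Finite Ω] (H : Subgroup G) (a : Ω) : 0 < Nat.card (orbit H a) := by
  haveI : Nonempty (orbit H a) := ⟨⟨a, mem_orbit_self a⟩⟩
  exact Nat.card_pos

theorem card_orbit_of_trans {H : Subgroup G} {a : Ω} (h : ∀ b, ∃ h ∈ H, h • a = b) :
    Nat.card (orbit H a) = Nat.card Ω :=
  Nat.card_congr (Equiv.subtypeUnivEquiv fun b => mem_orbit_sub.2 (h b))

theorem Sit.main [Finite G] [Finite Ω] [Nonempty Ω] {D : Subgroup G} (h : Sit Ω D) :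
    (∀ a b : Ω, ∃ d ∈ D, d • a = b) ∧
      ∀ g, g ∉ D → ∀ a b : Ω, g • a = a → g • b = b → a = b := by
  classical
  haveI := Fintype.ofFinite G
  haveI := Fintype.ofFinite Ω
  haveI := h.trans
  set f : G → ℕ := fun g => (univ.filter fun ω : Ω => g • ω = ω).card with hf
  have hn : 0 < Nat.card Ω := Nat.card_pos
  have key : ∀ H : Subgroup G, ∑ g ∈ univ.filter (· ∈ H), f g =
      ∑ ω : Ω, Nat.card (stabilizer G ω ⊓ H : Subgroup G) := by
    intro H
    simp only [hf, card_filter]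
    rw [sum_comm]
    refine sum_congr rfl fun ω _ => ?_
    rw [← card_filter, filter_filter]
    exact card_filter_sub _ _ fun g => by simp [and_comm]
  have h1 : ∑ g, f g = Nat.card G := by
    have := key ⊤
    simp only [Subgroup.mem_top, filter_true] at this
    rw [this]
    refine Nat.eq_of_mul_eq_mul_right hn ?_
    rw [sum_mul, sum_congr rfl (g := fun _ => Nat.card G)]
    · simp [mul_comm]
    · intro ω _
      have := card_stab_mul (⊤ : Subgroup G) ω
      rw [card_orbit_of_trans (fun b => by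
        obtain ⟨g, hg⟩ := exists_smul_eq G ω b; exact ⟨g, trivial, hg⟩)] at this
      rw [this]; simp
  have h2 : ∀ ω : Ω, Nat.card D ≤ Nat.card (stabilizer G ω ⊓ D : Subgroup G) * Nat.card Ω :=
    fun ω => by
      rw [← card_stab_mul D ω]; exact Nat.mul_le_mul_left _ (card_orbit_le D ω)
  have h3 : ∑ _ω : Ω, Nat.card D ≤
      ∑ ω : Ω, Nat.card (stabilizer G ω ⊓ D : Subgroup G) * Nat.card Ω :=
    sum_le_sum fun ω _ => h2 ω
  have h4 : ∀ g ∈ univ.filter (· ∉ D), 1 ≤ f g := by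
    intro g hg
    obtain ⟨ω, hω⟩ := h.fix g (by simpa using hg)
    exact card_pos.2 ⟨ω, by simpa using hω⟩
  have h5 : ∑ _g ∈ univ.filter (· ∉ D), 1 ≤ ∑ g ∈ univ.filter (· ∉ D), f g := sum_le_sum h4
  have h6 := sum_filter_add_sum_filter_not univ (· ∈ D) f
  have h7 := card_filter_add_card_filter_not (s := (univ : Finset G)) (· ∈ D)
  rw [card_filter_sub D _ (fun _ => Iff.rfl), card_univ, ← Nat.card_eq_fintype_card] at h7
  rw [key, h1] at h6
  have h8 : Nat.card D ≤ ∑ ω : Ω, Nat.card (stabilizer G ω ⊓ D : Subgroup G) := by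
    rw [← sum_mul, sum_const, card_univ, ← Nat.card_eq_fintype_card, smul_eq_mul, mul_comm] at h3
    exact Nat.le_of_mul_le_mul_right h3 hn
  have h5' := h5
  rw [sum_const, smul_eq_mul, mul_one] at h5'
  constructor
  · intro a b
    have e : ∑ _ω : Ω, Nat.card D =
        ∑ ω : Ω, Nat.card (stabilizer G ω ⊓ D : Subgroup G) * Nat.card Ω := by
      rw [← sum_mul, sum_const, card_univ, ← Nat.card_eq_fintype_card, smul_eq_mul, mul_comm]
      congr 1
      omega
    have e2 := (sum_eq_sum_iff_of_le fun ω _ => h2 ω).1 e a (mem_univ _)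
    rw [← card_stab_mul D a] at e2
    exact orbit_eq_univ_of_card (Nat.eq_of_mul_eq_mul_left Nat.card_pos e2).ge b
  · intro g hg a b ha hb
    have e : ∑ _g ∈ univ.filter (· ∉ D), 1 = ∑ g ∈ univ.filter (· ∉ D), f g := by
      rw [sum_const, smul_eq_mul, mul_one]; omega
    have e2 := (sum_eq_sum_iff_of_le h4).1 e g (by simpa using hg)
    exact card_le_one.1 e2.ge a (by simpa using ha) b (by simpa using hb)

section
variable [Finite G] [Finite Ω] {D : Subgroup G}

theorem Sit.dtrans (h : Sit Ω D) (a b : Ω) : ∃ d ∈ D, d • a = b :=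
  haveI : Nonempty Ω := ⟨a⟩
  h.main.1 a b

theorem Sit.uniq (h : Sit Ω D) {g : G} (hg : g ∉ D) {a b : Ω} (ha : g • a = a)
    (hb : g • b = b) : a = b :=
  haveI : Nonempty Ω := ⟨a⟩
  h.main.2 g hg a b ha hb

theorem Sit.mem_of_two (h : Sit Ω D) {g : G} {a b : Ω} (hab : a ≠ b) (ha : g • a = a)
    (hb : g • b = b) : g ∈ D := by
  by_contra hg
  exact hab (h.uniq hg ha hb)

theorem Sit.stab_sup (h : Sit Ω D) (a : Ω) : stabilizer G a ⊔ D = ⊤ := by
  rw [eq_top_iff]
  intro g _
  obtain ⟨d, hd, e⟩ := h.dtrans a (g • a)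
  have : g = d * (d⁻¹ * g) := by group
  rw [this]
  refine Subgroup.mul_mem _ (Subgroup.mem_sup_right hd) (Subgroup.mem_sup_left ?_)
  rw [mem_stabilizer_iff, mul_smul, ← e, inv_smul_smul]

omit [Finite G] in
theorem relIndex_of_sup [D.Normal] {M : Subgroup G} (hM : M ⊔ D = ⊤) :
    D.relIndex M = D.index := by
  rw [← Subgroup.relIndex_sup_right, hM, Subgroup.relIndex_top_right]

theorem Sit.half (h : Sit Ω D) [Fintype G] (M : Subgroup G) {m₀ : G} (hm : m₀ ∈ M) (hD : m₀ ∉ D)
    {a : Ω} (ha : m₀ • a = a) (A : Finset G)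
    (hA : ∀ m ∈ M, m ∉ D → (∃ ω ∈ orbit M a, m • ω = ω) → m ∈ A) : Nat.card M ≤ 2 * A.card := by
  classical
  haveI := Fintype.ofFinite Ω
  haveI := h.normal
  set O : Finset Ω := univ.filter (· ∈ orbit M a) with hO
  have hOc : O.card = Nat.card (orbit M a) := by
    rw [hO, ← Fintype.card_subtype, Nat.card_eq_fintype_card]
  set B : Ω → Finset G := fun ω => univ.filter fun m => m ∈ M ∧ m ∉ D ∧ m • ω = ω with hB
  have h1 : ∀ ω ∈ O, Nat.card (stabilizer G ω ⊓ M : Subgroup G) ≤ 2 * (B ω).card := by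
    intro ω hω
    obtain ⟨m, hmM, rfl⟩ := mem_orbit_sub.1 (by simpa [hO] using hω)
    have hx : m * m₀ * m⁻¹ ∉ D := fun e => hD (by simpa [mul_assoc] using h.normal.conj_mem _ e m⁻¹)
    rw [← card_filter_sub _ (fun g => g • m • a = m • a ∧ g ∈ M) (fun g => by simp),
      ← card_filter_add_card_filter_not (· ∈ D), two_mul]
    refine Nat.add_le_add ?_ (card_le_card fun g hg => by
      simp only [hB, mem_filter, mem_univ, true_and] at hg ⊢; tauto)
    refine card_le_card_of_injOn (fun g => g * (m * m₀ * m⁻¹)) ?_ fun x _ y _ e => by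
      simpa using e
    intro g hg
    simp only [hB, coe_filter, mem_filter, mem_univ, true_and, Set.mem_ofPred_eq] at hg ⊢
    refine ⟨M.mul_mem hg.1.2 (M.mul_mem (M.mul_mem hmM hm) (M.inv_mem hmM)), fun e => hx ?_, ?_⟩
    · simpa using D.mul_mem (D.inv_mem hg.2) e
    · simp only [mul_smul, inv_smul_smul, ha, hg.1.1]
  have h2 : ∑ ω ∈ O, (B ω).card ≤ A.card := by
    rw [← card_biUnion]
    · refine card_le_card fun m hm' => ?_
      simp only [hB, hO, mem_biUnion, mem_filter, mem_univ, true_and] at hm'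
      obtain ⟨ω, hω, h1, h2, h3⟩ := hm'
      exact hA m h1 h2 ⟨ω, hω, h3⟩
    · intro x _ y _ hxy
      rw [Function.onFun, disjoint_left]
      intro m h1 h2
      simp only [hB, mem_filter, mem_univ, true_and] at h1 h2
      exact hxy (h.uniq h1.2.1 h1.2.2 h2.2.2)
  have h3 : ∑ ω ∈ O, Nat.card (stabilizer G ω ⊓ M : Subgroup G) = Nat.card M := by
    refine Nat.eq_of_mul_eq_mul_right (card_orbit_pos M a) ?_
    rw [sum_mul, sum_congr rfl (g := fun _ => Nat.card M)]
    · rw [sum_const, hOc, smul_eq_mul, mul_comm]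
    · intro ω hω
      rw [← card_stab_mul M ω, (orbit_eq_iff (G := M) (a := ω) (b := a)).2 (by simpa [hO] using hω)]
  rw [← h3]
  calc _ ≤ ∑ ω ∈ O, 2 * (B ω).card := sum_le_sum h1
    _ = 2 * ∑ ω ∈ O, (B ω).card := by rw [mul_sum]
    _ ≤ _ := Nat.mul_le_mul_left _ h2

/-- All elements of `M` outside `D` have their fixed point in one `M`-orbit. -/
theorem Sit.fix_orbit (h : Sit Ω D) (M : Subgroup G) {m₀ : G} (hm : m₀ ∈ M) (hD : m₀ ∉ D)
    {a : Ω} (ha : m₀ • a = a) {m : G} (hmM : m ∈ M) (hmD : m ∉ D) :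
    ∃ ω ∈ orbit M a, m • ω = ω := by
  classical
  haveI := Fintype.ofFinite G
  obtain ⟨b, hb⟩ := h.fix m hmD
  by_contra hcon
  have hba : b ∉ orbit M a := fun e => hcon ⟨b, e, hb⟩
  set A : Ω → Finset G := fun c => univ.filter fun m => m ∈ M ∧ m ∉ D ∧ ∃ ω ∈ orbit M c, m • ω = ω
    with hA
  have h1 := h.half M hm hD ha (A a) fun x h1 h2 h3 => by simp only [hA, mem_filter]; simp [*]
  have h2 := h.half M hmM hmD hb (A b) fun x h1 h2 h3 => by simp only [hA, mem_filter]; simp [*]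
  have h3 : Disjoint (A a) (A b) := by
    rw [disjoint_left]
    intro x h1 h2
    simp only [hA, mem_filter, mem_univ, true_and] at h1 h2
    obtain ⟨-, hx, ω, hω, e⟩ := h1
    obtain ⟨-, -, ω', hω', e'⟩ := h2
    obtain rfl := h.uniq hx e e'
    apply hba
    rw [← (orbit_eq_iff (G := M)).2 hω, (orbit_eq_iff (G := M)).2 hω']
    exact mem_orbit_self b
  have h4 : A a ∪ A b ⊆ (univ.filter (· ∈ M)).erase 1 := by
    intro x hx
    simp only [hA, mem_union, mem_filter, mem_univ, true_and, mem_erase] at hx ⊢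
    rcases hx with hx | hx <;> exact ⟨fun e => hx.2.1 (e ▸ D.one_mem), hx.1⟩
  have h5 := card_le_card h4
  rw [card_union_of_disjoint h3, card_erase_of_mem (by simp),
    card_filter_sub M _ (fun _ => Iff.rfl)] at h5
  have : 0 < Nat.card M := Nat.card_pos
  omega

theorem Sit.sub (h : Sit Ω D) (M : Subgroup G) {m₀ : G} (hm : m₀ ∈ M) (hD : m₀ ∉ D)
    {a : Ω} (ha : m₀ • a = a) : Sit (orbit M a) (D.subgroupOf M) where
  normal := haveI := h.normal; inferInstance
  trans := inferInstance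
  fix := fun g hg => by
    obtain ⟨ω, hω, e⟩ := h.fix_orbit M hm hD ha g.2 hg
    exact ⟨⟨ω, hω⟩, Subtype.ext e⟩

/-- Orbit lengths of a point stabiliser. -/
theorem Sit.card_orbit_stab (h : Sit Ω D) {a b : Ω} (hab : a ≠ b) :
    Nat.card (orbit (stabilizer G a) b) =
      D.index * Nat.card (orbit (D ⊓ stabilizer G a : Subgroup G) b) := by
  haveI := h.normal
  rw [card_orbit, card_orbit, ← relIndex_of_sup (h.stab_sup a), mul_comm,
    ← Subgroup.inf_relIndex_right D, ← Subgroup.inf_relIndex_right (stabilizer G b),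
    ← Subgroup.inf_relIndex_right (stabilizer G b) (D ⊓ _)]
  have : stabilizer G b ⊓ (D ⊓ stabilizer G a) = stabilizer G b ⊓ stabilizer G a := by
    ext g
    simp only [Subgroup.mem_inf, mem_stabilizer_iff]
    exact ⟨fun e => ⟨e.1, e.2.2⟩, fun e => ⟨e.1, h.mem_of_two hab e.2 e.1, e.2⟩⟩
  rw [this, Subgroup.relIndex_mul_relIndex _ _ _ _ inf_le_right]
  rw [← this]; exact inf_le_right

omit [Finite G] in
theorem card_orbit_stab_le {a b : Ω} (hab : a ≠ b) :
    Nat.card (orbit (stabilizer G a) b) + 1 ≤ Nat.card Ω := by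
  have : orbit (stabilizer G a) b ⊂ Set.univ := by
    refine Set.ssubset_univ_iff.2 fun e => hab ?_
    obtain ⟨g, hg, e'⟩ := mem_orbit_sub.1 (e ▸ Set.mem_univ a : a ∈ orbit (stabilizer G a) b)
    rw [← mem_stabilizer_iff.1 (Subgroup.inv_mem _ hg), ← e', inv_smul_smul]
  have := Set.ncard_lt_ncard this
  rw [Set.ncard_univ, ← Nat.card_coe_set_eq] at this
  exact this

theorem Sit.index_lt (h : Sit Ω D) {a b : Ω} (hab : a ≠ b) : D.index + 1 ≤ Nat.card Ω := by
  have h1 := card_orbit_stab_le (G := G) hab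
  rw [h.card_orbit_stab hab] at h1
  have := Nat.le_mul_of_pos_right D.index (card_orbit_pos (D ⊓ stabilizer G a : Subgroup G) b)
  omega

theorem Sit.exists_notMem (h : Sit Ω D) (hD : D ≠ ⊤) {M : Subgroup G} (hM : M ⊔ D = ⊤) :
    ∃ m ∈ M, m ∉ D := by
  by_contra hc
  push Not at hc
  exact hD (by rw [← hM, sup_eq_right.2 hc])

theorem Sit.sub_index_lt (h : Sit Ω D) {M : Subgroup G} (hM : M ⊔ D = ⊤) {m₀ : G} (hm : m₀ ∈ M)
    (hD : m₀ ∉ D) {a : Ω} (ha : m₀ • a = a) {m : G} (hmM : m ∈ M) (hma : m • a ≠ a) :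
    D.index + 1 ≤ Nat.card (orbit M a) := by
  haveI := h.normal
  have := (h.sub M hm hD ha).index_lt (a := ⟨a, mem_orbit_self a⟩)
    (b := ⟨m • a, mem_orbit_sub.2 ⟨m, hmM, rfl⟩⟩) (fun e => hma (congrArg Subtype.val e).symm)
  rwa [← relIndex_of_sup hM]

theorem Sit.coatom (h : Sit Ω D) (hD : D ≠ ⊤) (hn : Nat.card Ω < (D.index + 1) ^ 2) {a b : Ω}
    (hab : a ≠ b) : IsCoatom (stabilizer G a) := by
  haveI := h.trans
  haveI := h.normal
  constructor
  · intro e
    obtain ⟨g, hg⟩ := exists_smul_eq G a b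
    exact hab ((mem_stabilizer_iff.1 (e.ge trivial)).symm.trans hg)
  · intro H hH
    by_contra hne
    have hq : Sit (G ⧸ H) D := ⟨h.normal, inferInstance, fun g hg => by
      obtain ⟨ω, hω⟩ := h.fix g hg
      obtain ⟨x, rfl⟩ := exists_smul_eq G a ω
      refine ⟨(x : G ⧸ H), ?_⟩
      rw [MulAction.Quotient.smul_mk, smul_eq_mul, eq_comm, QuotientGroup.eq]
      apply hH.le
      rw [mem_stabilizer_iff, mul_smul, mul_smul, hω, inv_smul_smul]⟩
    obtain ⟨x, hx⟩ : ∃ x, x ∉ H := by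
      by_contra hc
      push Not at hc
      exact hne (eq_top_iff.2 fun x _ => hc x)
    have h1 := hq.index_lt (a := ((1 : G) : G ⧸ H)) (b := (x : G ⧸ H))
      (fun e => hx (by simpa using QuotientGroup.eq.1 e))
    obtain ⟨m₀, hm, hmD⟩ := h.exists_notMem hD (h.stab_sup a)
    obtain ⟨m, hmH, hma⟩ := SetLike.exists_of_lt hH
    have h2 := h.sub_index_lt (M := H) (top_le_iff.1 ((h.stab_sup a).ge.trans
      (sup_le_sup_right hH.le D))) (hH.le hm) hmD hm hmH hma
    rw [card_orbit] at h2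
    rw [← index_stabilizer_of_transitive G a, ← Subgroup.relIndex_mul_index hH.le, sq] at hn
    exact absurd (Nat.mul_le_mul h2 h1) (not_le.2 hn)

/-- A normal subgroup moving a point is transitive. -/
theorem Sit.normal_trans (h : Sit Ω D) (hD : D ≠ ⊤) (hn : Nat.card Ω < (D.index + 1) ^ 2)
    (N : Subgroup G) [N.Normal] {x : G} (hx : x ∈ N) {a : Ω} (ha : x • a ≠ a) (b c : Ω) :
    ∃ y ∈ N, y • b = c := by
  haveI := h.trans
  have hc := h.coatom hD hn ha.symm
  have : stabilizer G a ⊔ N = ⊤ :=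
    hc.2 _ (lt_of_le_of_ne le_sup_left fun e => ha (e.ge (Subgroup.mem_sup_right hx)))
  have key : ∀ d, ∃ y ∈ N, y • a = d := by
    intro d
    obtain ⟨g, rfl⟩ := exists_smul_eq G a d
    have hg : g ∈ ((N ⊔ stabilizer G a : Subgroup G) : Set G) := by
      rw [sup_comm, this]; trivial
    rw [Subgroup.normal_mul] at hg
    obtain ⟨y, hy, s, hs, rfl⟩ := hg
    exact ⟨y, hy, by rw [mul_smul, mem_stabilizer_iff.1 hs]⟩
  obtain ⟨y, hy, rfl⟩ := key b
  obtain ⟨z, hz, rfl⟩ := key c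
  exact ⟨z * y⁻¹, N.mul_mem hz (N.inv_mem hy), by rw [mul_smul, inv_smul_smul]⟩

end

end Cfsg.Agent.H3.Der
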