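import Cfsg.Agent.H3.DerAff1
import Cfsg.Agent.H3.DerBasic
import Cfsg.Agent.H2.FreeAct

set_option autoImplicit false
set_option linter.style.haveILetI false
set_option linter.unusedSectionVars false

/-! Linear groups whose vector stabilisers lie in a subgroup of large index: first cases. -/

namespace Cfsg.Agent.H3.Der

open MulAction Finset

variable {H V : Type*} [Group H] [Finite H] [AddCommGroup V] [Finite V] [DistribMulAction H V]

structure Aff (V : Type*) [AddCommGroup V] [DistribMulAction H V] (R : Subgroup H) : Prop where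
  stab : ∀ v : V, v ≠ 0 → stabilizer H v ≤ R
  irr : ∀ u : V, u ≠ 0 → ∀ x : H, (∀ h, (h * x * h⁻¹) • u = u) → x = 1

def Good (n k : ℕ) : Prop :=
  (k + 1) ^ 2 ≤ n ∨ ∃ j w : ℕ, 2 ^ j ≤ n ^ Nat.log 2 n ∧ k ≤ j ^ 4 * w ∧ w ^ 3 ≤ n

variable (V) in
/-- The vectors fixed by a set of group elements. -/
def fixS (A : Set H) : AddSubgroup V where
  carrier := {v | ∀ a ∈ A, a • v = v}
  add_mem' := fun {x y} hx hy a ha => by rw [smul_add, hx a ha, hy a ha]
  zero_mem' := fun a _ => smul_zero a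
  neg_mem' := fun {x} hx a ha => by rw [smul_neg, hx a ha]

theorem mem_fixS {A : Set H} {v : V} : v ∈ fixS V A ↔ ∀ a ∈ A, a • v = v := Iff.rfl

theorem card_fixS_le (h : H) {A B : Set H} (hAB : ∀ a ∈ A, h * a * h⁻¹ ∈ B) :
    Nat.card (fixS V B) ≤ Nat.card (fixS V A) :=
  Nat.card_le_card_of_injective (fun v => ⟨h⁻¹ • (v : V), fun a ha => by
    have := v.2 _ (hAB a ha)
    rw [mul_smul, mul_smul, ← eq_inv_smul_iff] at this
    exact this⟩) fun v w e => Subtype.ext (smul_left_cancel h⁻¹ (congrArg Subtype.val e))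

/-- The map `v ↦ a • v - v`. -/
def dlt (V : Type*) [AddCommGroup V] [DistribMulAction H V] (a : H) : V →+ V :=
  DistribSMul.toAddMonoidHom V a - AddMonoidHom.id V

theorem dlt_apply (a : H) (v : V) : dlt V a v = a • v - v := rfl

theorem dlt_mem {A : Set H} {a : H} (ha : ∀ b ∈ A, b * a = a * b) (v : V) (hv : v ∈ fixS V A) :
    dlt V a v ∈ fixS V A := fun b hb => by
  rw [dlt_apply, smul_sub, ← mul_smul, ha b hb, mul_smul, hv b hb]

theorem card_mul_le_of_disjoint (W₁ W₂ : AddSubgroup V) (h : ∀ v ∈ W₁, v ∈ W₂ → v = 0) :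
    Nat.card W₁ * Nat.card W₂ ≤ Nat.card V := by
  rw [← Nat.card_prod]
  refine Nat.card_le_card_of_injective (fun p => (p.1 : V) + p.2) fun p q e => ?_
  have e1 : (p.1 : V) - q.1 = q.2 - p.2 := by
    rw [sub_eq_sub_iff_add_eq_add, add_comm (q.2 : V)]; exact e
  have e2 := h _ (W₁.sub_mem p.1.2 q.1.2) (e1 ▸ W₂.sub_mem q.2.2 p.2.2)
  rw [e2] at e1
  exact Prod.ext (Subtype.ext (sub_eq_zero.1 e2)) (Subtype.ext (sub_eq_zero.1 e1.symm).symm)

theorem two_le_card {W : AddSubgroup V} {u : V} (hu : u ∈ W) (h0 : u ≠ 0) : 2 ≤ Nat.card W :=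
  (AddSubgroup.one_lt_card_iff_ne_bot W).2 fun e => h0 (by rwa [e] at hu)

variable {R : Subgroup H}

theorem Aff.faith (h : Aff V R) {u : V} (hu : u ≠ 0) {x : H} (hx : ∀ v : V, x • v = v) : x = 1 :=
  h.irr u hu x fun g => by rw [mul_smul, mul_smul, hx, smul_inv_smul]

theorem Aff.ext (h : Aff V R) {u : V} (hu : u ≠ 0) {x y : H} (hx : ∀ v : V, x • v = y • v) :
    x = y :=
  inv_mul_eq_one.1 (h.faith hu fun v => by rw [mul_smul, ← hx, inv_smul_smul])

theorem Aff.orb (h : Aff V R) {u : V} (hu : u ≠ 0) {S : Subgroup H} (hS : S ≤ R) {Z : Type*}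
    (c : H → Z) (W : Z → AddSubgroup V) (T : Finset Z) {w : ℕ} (h1 : ∀ g, g • u ∈ W (c g))
    (h2 : ∀ g, Nat.card (W (c g)) ≤ w) (h3 : ∀ g, c g ∈ T) :
    R.index * Nat.card (orbit S u) ≤ T.card * (w - 1) := by
  classical
  haveI := Fintype.ofFinite V
  haveI := Fintype.ofFinite H
  have e1 : R.index * Nat.card (orbit R u) = Nat.card (orbit H u) := by
    rw [card_orbit, mul_comm, Subgroup.relIndex_mul_index (h.stab u hu), index_stabilizer,
      Nat.card_coe_set_eq]
  have e2 : Nat.card (orbit S u) ≤ Nat.card (orbit R u) :=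
    Nat.card_mono (Set.toFinite _) fun v hv => by
      obtain ⟨g, hg, e⟩ := mem_orbit_sub.1 hv
      exact mem_orbit_sub.2 ⟨g, hS hg, e⟩
  have e3 : univ.filter (· ∈ orbit H u) ⊆
      (univ.image c).biUnion fun z => (univ.filter (· ∈ W z)).erase 0 := by
    intro v hv
    obtain ⟨g, rfl⟩ : v ∈ orbit H u := by simpa using hv
    simp only [mem_biUnion, mem_image, mem_univ, true_and, mem_erase, mem_filter]
    exact ⟨c g, ⟨g, rfl⟩, fun e => hu ((smul_eq_zero_iff_eq g).1 e), h1 g⟩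
  have e4 := (card_le_card e3).trans (card_biUnion_le_card_mul _ _ (w - 1) (fun z hz => by
    obtain ⟨g, -, rfl⟩ := mem_image.1 hz
    rw [card_erase_of_mem (by simp), ← Fintype.card_subtype, ← Nat.card_eq_fintype_card]
    exact Nat.sub_le_sub_right (h2 g) 1))
  rw [← Fintype.card_subtype, ← Nat.card_eq_fintype_card, ← e1] at e4
  refine ((Nat.mul_le_mul_left _ e2).trans e4).trans (Nat.mul_le_mul_right _ (card_le_card ?_))
  intro z hz
  obtain ⟨g, -, rfl⟩ := mem_image.1 hz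
  exact h3 g

/-- The exact case: all stabilisers in a normal subgroup containing `-1` have order at most two. -/
theorem Aff.caseA (h : Aff V R) {E : Subgroup H} [hE : E.Normal] (hER : E ≤ R) {z : H} (hz : z ∈ E)
    (hz1 : ∀ v : V, z • v = -v) (hz2 : ∀ v : V, z • v = v → v = 0)
    (hst : ∀ u : V, u ≠ 0 → ∀ a ∈ E, ∀ b ∈ E, a • u = u → b • u = u → a ≠ 1 → b ≠ 1 → a = b)
    {x : H} (hx : x ∈ E) (hx1 : x ≠ 1) {u₀ : V} (hu₀ : u₀ ≠ 0) (hxu : x • u₀ = u₀) :
    (R.index + 1) ^ 2 ≤ Nat.card V := by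
  classical
  haveI := Fintype.ofFinite H
  have hzc : ∀ g, g * z = z * g := fun g => h.ext hu₀ fun v => by
    rw [mul_smul, mul_smul, hz1, hz1, smul_neg]
  have hzz : z * z = 1 := h.faith hu₀ fun v => by rw [mul_smul, hz1, hz1, neg_neg]
  set I : Finset H := univ.filter fun a => a ∈ E ∧ a * a = 1 ∧ a ≠ 1 ∧ a ≠ z with hI
  have mI : ∀ a, a ∈ I ↔ a ∈ E ∧ a * a = 1 ∧ a ≠ 1 ∧ a ≠ z := fun a => by simp [hI]
  have hxI : x ∈ I := by
    refine (mI x).2 ⟨hx, ?_, hx1, fun e => hu₀ (hz2 _ (e ▸ hxu))⟩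
    by_contra hne
    have := hst u₀ hu₀ _ (E.mul_mem hx hx) x hx (by rw [mul_smul, hxu, hxu]) hxu hne hx1
    exact hx1 (by simpa using this)
  have hzI : ∀ a ∈ I, z * a ∈ I := by
    intro a ha
    obtain ⟨a1, a2, a3, a4⟩ := (mI a).1 ha
    refine (mI _).2 ⟨E.mul_mem hz a1, ?_, fun e => a4 ?_, fun e => a3 (by simpa using e)⟩
    · rw [mul_assoc, ← mul_assoc a, hzc a, mul_assoc, a2, mul_one, hzz]
    · rw [← one_mul a, ← hzz, mul_assoc, e, mul_one]
  obtain ⟨a, ha, hw⟩ : ∃ a ∈ I, Nat.card (fixS V {a}) ^ 2 ≤ Nat.card V := by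
    have := card_mul_le_of_disjoint (fixS V {x}) (fixS V {z * x}) fun v h1 h2 => hz2 v (by
      have := h2 _ rfl
      rwa [mul_smul, h1 _ rfl] at this)
    rcases le_total (Nat.card (fixS V {x})) (Nat.card (fixS V {z * x})) with hle | hle
    · exact ⟨x, hxI, by rw [sq]; exact (Nat.mul_le_mul_left _ hle).trans this⟩
    · exact ⟨_, hzI x hxI, by rw [sq]; exact (Nat.mul_le_mul_right _ hle).trans this⟩
  obtain ⟨a1, a2, a3, a4⟩ := (mI a).1 ha
  obtain ⟨u, hu, hau⟩ : ∃ u : V, u ≠ 0 ∧ a • u = u := by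
    by_contra hc
    push Not at hc
    refine a4 (h.ext hu₀ fun v => ?_)
    rw [hz1, eq_neg_iff_add_eq_zero]
    by_contra hne
    exact hc _ hne (by rw [smul_add, ← mul_smul, a2, one_smul, add_comm])
  have h1 := h.orb hu hER (fun g => g * a * g⁻¹) (fun b => fixS V {b}) I
    (w := Nat.card (fixS V {a}))
    (fun g b hb => by rw [hb, mul_smul, inv_smul_smul, mul_smul, hau])
    (fun g => card_fixS_le g fun b hb => by rw [hb]; rfl)
    (fun g => (mI _).2 ⟨hE.conj_mem _ a1 g, by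
      rw [show g * a * g⁻¹ * (g * a * g⁻¹) = g * (a * a) * g⁻¹ by group, a2]; simp,
      by simpa using a3, fun e => a4 (by
        rw [mul_inv_eq_iff_eq_mul, ← hzc] at e; exact mul_left_cancel e)⟩)
  have h2 : 2 * I.card ≤ Nat.card E := by
    have hd : Disjoint I (I.image (a * ·)) := by
      rw [disjoint_right]
      intro c hc hcI
      obtain ⟨b, hb, rfl⟩ := mem_image.1 hc
      obtain ⟨b1, b2, b3, b4⟩ := (mI b).1 hb
      obtain ⟨-, c2, c3, c4⟩ := (mI _).1 hcI
      have hab : a * b = b * a := by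
        rw [← mul_inv_eq_one, mul_inv_rev, inv_eq_of_mul_eq_one_right a2,
          inv_eq_of_mul_eq_one_right b2, c2]
      by_cases hbu : b • u = u
      · exact c3 (by rw [hst u hu a a1 b b1 hau hbu a3 b3, b2])
      · obtain ⟨d1, -, d3, -⟩ := (mI _).1 (hzI b hb)
        have := hst (b • u - u) (sub_ne_zero.2 hbu) a a1 _ d1
          (by rw [smul_sub, ← mul_smul, hab, mul_smul, hau])
          (by rw [mul_smul, hz1, smul_sub, ← mul_smul, b2, one_smul, neg_sub]) a3 d3
        exact c4 (by rw [this, mul_assoc, b2, mul_one])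
    rw [two_mul, ← card_filter_sub E (· ∈ E) fun _ => Iff.rfl]
    nth_rewrite 2 [← card_image_of_injective I (mul_right_injective a)]
    rw [← card_union_of_disjoint hd]
    refine card_le_card fun c hc => ?_
    simp only [mem_union, mem_image, mem_filter, mem_univ, true_and] at hc ⊢
    rcases hc with hc | ⟨b, hb, rfl⟩
    · exact ((mI c).1 hc).1
    · exact E.mul_mem a1 ((mI b).1 hb).1
  have h3 : Nat.card (stabilizer H u ⊓ E : Subgroup H) ≤ 2 := by
    rw [← card_filter_sub _ (fun g => g • u = u ∧ g ∈ E) (fun g => by simp)]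
    refine le_trans (card_le_card (t := {1, a}) fun g hg => ?_) card_le_two
    simp only [mem_filter, mem_univ, true_and, mem_insert, mem_singleton] at hg ⊢
    by_cases hg1 : g = 1
    · exact Or.inl hg1
    · exact Or.inr (hst u hu g hg.2 a a1 hg.1 hau hg1 a3)
  have h4 := card_stab_mul E u
  have h5 := card_orbit_pos E u
  have h6 : I.card ≤ Nat.card (orbit E u) := by nlinarith
  have h7 : R.index ≤ Nat.card (fixS V {a}) - 1 :=
    Nat.le_of_mul_le_mul_left (by
      rw [mul_comm]; exact h1.trans (Nat.mul_le_mul_right _ h6)) h5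
  have h8 : 0 < Nat.card (fixS V {a}) := Nat.card_pos
  exact (Nat.pow_le_pow_left (by omega) 2).trans hw

/-- An abelian normal subgroup that does not act freely. -/
theorem Aff.caseAb (h : Aff V R) {C : Subgroup H} [hC : C.Normal] (hCR : C ≤ R)
    (hcomm : ∀ a ∈ C, ∀ b ∈ C, a * b = b * a) {x : H} (hx : x ∈ C) (hx1 : x ≠ 1) {u₀ : V}
    (hu₀ : u₀ ≠ 0) (hxu : x • u₀ = u₀) : Good (Nat.card V) R.index := by
  classical
  haveI := Fintype.ofFinite H
  haveI := Fintype.ofFinite V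
  obtain ⟨u, hu, hmax⟩ := exists_max_image (univ.erase (0 : V))
    (fun v => Nat.card (stabilizer H v ⊓ C : Subgroup H)) ⟨u₀, by simpa using hu₀⟩
  simp only [mem_erase, mem_univ, and_true] at hu hmax
  obtain ⟨y, ⟨hyu, hyC⟩, hy1⟩ : ∃ y ∈ stabilizer H u ⊓ C, y ≠ 1 := by
    rw [← Subgroup.nontrivial_iff_exists_ne_one, Subgroup.nontrivial_iff_ne_bot,
      ← Subgroup.one_lt_card_iff_ne_bot]
    refine lt_of_lt_of_le ((Subgroup.one_lt_card_iff_ne_bot _).2 fun e => hx1 ?_) (hmax u₀ hu₀)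
    exact Subgroup.mem_bot.1 (e ▸ ⟨hxu, hx⟩)
  set c : H → Subgroup H := fun g => stabilizer H (g • u) ⊓ C with hc
  have hconj : ∀ g g' : H, ∀ a ∈ c g, (g' * g⁻¹) * a * (g' * g⁻¹)⁻¹ ∈ c g' := by
    rintro g g' a ⟨h1, h2⟩
    refine ⟨?_, hC.conj_mem _ h2 _⟩
    have h1' : a • g • u = g • u := h1
    change ((g' * g⁻¹) * a * (g' * g⁻¹)⁻¹) • g' • u = g' • u
    simp only [mul_inv_rev, inv_inv, mul_smul, inv_smul_smul, h1']
  have hcard : ∀ g g', Nat.card (c g) ≤ Nat.card (c g') := fun g g' =>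
    Nat.card_le_card_of_injective (fun a => ⟨_, hconj g g' a a.2⟩) fun a b e =>
      Subtype.ext (by simpa using e)
  set T := univ.image c with hT
  set w := Nat.card (fixS V (c 1 : Set H)) with hw
  have h1 := h.orb hu hCR c (fun A => fixS V (A : Set H)) T (w := w) (fun g a ha => ha.1)
    (fun g => card_fixS_le _ (hconj 1 g)) (fun g => mem_image_of_mem _ (mem_univ _))
  have h2 : w ^ T.card ≤ Nat.card V := by
    rw [← Fintype.card_coe]
    refine indep_pow (fun A : T => fixS V (A.1 : Set H)) (fun i j hij => ?_) fun i => ?_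
    · obtain ⟨g, -, hg⟩ := mem_image.1 i.2
      obtain ⟨g', -, hg'⟩ := mem_image.1 j.2
      obtain ⟨a, ha, ha'⟩ : ∃ a ∈ c g', a ∉ c g := by
        by_contra hn
        push Not at hn
        exact hij (Subtype.ext (by
          rw [← hg, ← hg', Subgroup.eq_of_le_of_card_ge hn (hcard _ _)]))
      refine ⟨dlt V a, fun l => dlt_mem fun b hb => ?_, fun v hv => ?_, fun v hv e => ?_⟩
      · obtain ⟨g'', -, hg''⟩ := mem_image.1 l.2
        rw [← hg''] at hb
        exact hcomm _ hb.2 _ ha.2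
      · rw [dlt_apply, hv a (hg' ▸ ha), sub_self]
      · by_contra hv0
        have hle : c g ≤ stabilizer H v ⊓ C := fun b hb => ⟨hv b (hg ▸ hb), hb.2⟩
        have := Subgroup.eq_of_le_of_card_ge hle ((hmax v hv0).trans (by
          simpa [hc] using hcard 1 g))
        exact ha' (this ▸ ⟨sub_eq_zero.1 e, ha.2⟩)
    · obtain ⟨g, -, hg⟩ := mem_image.1 i.2
      rw [← hg]
      exact card_fixS_le _ (hconj g 1)
  have h3 : 2 ≤ T.card := by
    by_contra hlt
    refine hy1 (h.irr u hu y fun g => ?_)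
    have e := card_le_one.1 (show T.card ≤ 1 by omega) (c 1) (mem_image_of_mem _ (mem_univ _))
      (c g⁻¹) (mem_image_of_mem _ (mem_univ _))
    have : y ∈ c g⁻¹ := e ▸ ⟨by simpa using hyu, hyC⟩
    have h1' : y • g⁻¹ • u = g⁻¹ • u := this.1
    rw [mul_smul, mul_smul, h1', smul_inv_smul]
  have h4 : 2 ≤ Nat.card (orbit C u) := by
    by_contra hlt
    refine hy1 (h.irr u hu y fun g => ?_)
    haveI : Subsingleton (orbit C u) := Finite.card_le_one_iff_subsingleton.1 (by omega)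
    exact congrArg Subtype.val (Subsingleton.elim
      (⟨_, mem_orbit_sub.2 ⟨_, hC.conj_mem _ hyC g, rfl⟩⟩ : orbit C u) ⟨u, mem_orbit_self u⟩)
  have h5 : 2 ≤ w := two_le_card (u := u) (fun a ha => by simpa using ha.1) hu
  have h6 : R.index * 2 ≤ T.card * (w - 1) := (Nat.mul_le_mul_left _ h4).trans h1
  rcases h3.eq_or_lt with h3 | h3
  · left
    rw [← h3] at h2 h6
    exact (Nat.pow_le_pow_left (by omega) 2).trans h2
  · right
    have h7 : 2 ^ T.card ≤ Nat.card V := (Nat.pow_le_pow_left h5 _).trans h2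
    have h8 : 1 ≤ Nat.log 2 (Nat.card V) := Nat.le_log_of_pow_le (by norm_num)
      ((Nat.pow_le_pow_right (by norm_num) (by omega)).trans h7)
    refine ⟨T.card, w, h7.trans (Nat.le_self_pow (by omega) _), ?_,
      (Nat.pow_le_pow_right (by omega) h3).trans h2⟩
    have : T.card * (w - 1) ≤ T.card ^ 4 * w :=
      Nat.mul_le_mul (Nat.le_self_pow (by norm_num) _) (by omega)
    omega

theorem card_orbit_of_free {C : Subgroup H}
    (hfree : ∀ a ∈ C, a ≠ 1 → ∀ v : V, a • v = v → v = 0) {u : V} (hu : u ≠ 0) :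
    Nat.card (orbit C u) = Nat.card C := by
  have : stabilizer H u ⊓ C = ⊥ := by
    rw [eq_bot_iff]
    intro a ha
    by_contra hne
    exact hu (hfree a ha.2 hne u ha.1)
  rw [← card_stab_mul C u, this, Subgroup.card_bot, one_mul]

/-- An element central modulo a freely acting normal subgroup. -/
theorem Aff.caseCy (h : Aff V R) {C : Subgroup H} (hCR : C ≤ R)
    (hfree : ∀ a ∈ C, a ≠ 1 → ∀ v : V, a • v = v → v = 0) {y : H} (hy1 : y ≠ 1)
    (hy : ∀ g, g * y * g⁻¹ * y⁻¹ ∈ C) {u : V} (hu : u ≠ 0) (hyu : y • u = u) :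
    (R.index + 1) ^ 2 ≤ Nat.card V := by
  classical
  haveI := Fintype.ofFinite H
  have h1 := h.orb hu hCR (fun g => g * y * g⁻¹) (fun b => fixS V {b})
    ((univ.filter (· ∈ C)).image (· * y)) (w := Nat.card (fixS V {y}))
    (fun g b hb => by rw [hb, mul_smul, inv_smul_smul, mul_smul, hyu])
    (fun g => card_fixS_le g fun b hb => by rw [hb]; rfl)
    (fun g => mem_image.2 ⟨_, by simpa using hy g, by simp⟩)
  rw [card_orbit_of_free hfree hu, card_image_of_injective _ (mul_left_injective y),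
    card_filter_sub C _ (fun _ => Iff.rfl), mul_comm] at h1
  have h2 := Nat.le_of_mul_le_mul_left h1 Nat.card_pos
  obtain ⟨g, hg⟩ : ∃ g, g * y * g⁻¹ ≠ y := by
    by_contra hc
    push Not at hc
    exact hy1 (h.irr u hu y fun g => by rw [hc, hyu])
  have h3 := card_mul_le_of_disjoint (fixS V {y}) (fixS V {g * y * g⁻¹}) fun v h1 h2 =>
    hfree _ (hy g) (fun e => hg (mul_inv_eq_one.1 e)) v (by
      rw [mul_smul, inv_smul_eq_iff.2 (h1 _ rfl).symm, h2 _ rfl])
  have h4 : Nat.card (fixS V {y}) ≤ Nat.card (fixS V {g * y * g⁻¹}) :=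
    card_fixS_le g⁻¹ fun b hb => by rw [hb]; simp [mul_assoc]
  have h8 : 0 < Nat.card (fixS V {y}) := Nat.card_pos
  calc _ ≤ Nat.card (fixS V {y}) ^ 2 := Nat.pow_le_pow_left (by omega) 2
    _ ≤ _ := by rw [sq]; exact (Nat.mul_le_mul_left _ h4).trans h3

end Cfsg.Agent.H3.Der
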