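import Cfsg.Agent.H3.DerAff2

set_option autoImplicit false
set_option linter.style.haveILetI false
set_option linter.unusedSectionVars false

/-! Linear groups whose vector stabilisers lie in a subgroup of large index: class two. -/

namespace Cfsg.Agent.H3.Der

open MulAction Finset

variable {H V : Type*} [Group H] [Finite H] [AddCommGroup V] [Finite V] [DistribMulAction H V]

/-- `E` has class two with centre `C` acting freely. -/
structure Cl2 (V : Type*) [AddCommGroup V] [DistribMulAction H V] (C E : Subgroup H) : Prop where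
  free : ∀ a ∈ C, a ≠ 1 → ∀ v : V, a • v = v → v = 0
  le : C ≤ E
  cen : ∀ c ∈ C, ∀ g ∈ E, c * g = g * c
  zen : ∀ g ∈ E, (∀ l ∈ E, l * g = g * l) → g ∈ C
  com : ∀ g ∈ E, ∀ l ∈ E, l * g * l⁻¹ * g⁻¹ ∈ C

variable {C E R : Subgroup H}

theorem Cl2.smul_inj (h : Cl2 V C E) {a b : H} (ha : a⁻¹ * b ∈ C) (hab : a ≠ b) {v : V}
    (e : a • v = b • v) : v = 0 :=
  h.free _ ha (fun e => hab (inv_mul_eq_one.1 e)) v (by rw [mul_smul, ← e, inv_smul_smul])

theorem Cl2.invol (h : Cl2 V C E) {z : H} (hz : z ∈ C) (hz1 : z ≠ 1) (hzz : z * z = 1) (v : V) :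
    z • v = -v :=
  eq_neg_of_add_eq_zero_left (h.free z hz hz1 _ (by
    rw [smul_add, ← mul_smul, hzz, one_smul, add_comm]))

theorem Cl2.li (h : Cl2 V C E) {u : V} (hu : u ≠ 0) :
    2 ^ C.relIndex E ≤ Nat.card V ^ Nat.log 2 (Nat.card V) := by
  classical
  haveI := Fintype.ofFinite (E ⧸ C.subgroupOf E)
  haveI : Finite (AddMonoid.End V) := DFunLike.finite _
  refine le_trans ?_ (card_end_le V)
  set ρ := DistribMulAction.toAddMonoidEnd H V with hρ
  have hρa : ∀ g v, ρ g v = g • v := fun _ _ => rfl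
  let zz : H → (E ⧸ C.subgroupOf E) → H := fun l q => l * (q.out : H) * l⁻¹ * (q.out : H)⁻¹
  have hzz : ∀ l ∈ E, ∀ q, zz l q ∈ C := fun l hl q => h.com _ q.out.2 l hl
  let W : (E ⧸ C.subgroupOf E) → AddSubgroup (AddMonoid.End V) := fun q =>
    { carrier := {f | ∀ l ∈ E, ρ l * f * ρ l⁻¹ = ρ (zz l q) * f}
      add_mem' := fun {f g} hf hg l hl => by rw [mul_add, add_mul, hf l hl, hg l hl, mul_add]
      zero_mem' := fun l _ => by simp
      neg_mem' := fun {f} hf l hl => by rw [mul_neg, neg_mul, hf l hl, mul_neg] }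
  have hW : ∀ q f, f ∈ W q ↔ ∀ l ∈ E, ρ l * f * ρ l⁻¹ = ρ (zz l q) * f := fun _ _ => Iff.rfl
  rw [Subgroup.relIndex, Subgroup.index, Nat.card_eq_fintype_card]
  refine indep_pow W (fun i j hij => ?_) fun i => two_le_card (u := ρ i.out) (fun l hl => ?_) ?_
  · obtain ⟨l, hl, hne⟩ : ∃ l ∈ E, zz l i ≠ zz l j := by
      by_contra hc
      push Not at hc
      apply hij
      rw [← i.out_eq', ← j.out_eq', QuotientGroup.eq, Subgroup.mem_subgroupOf]
      refine h.zen _ (i.out⁻¹ * j.out).2 fun l hl => ?_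
      have e := hc l hl
      have e1 := h.cen _ (hzz l hl i) _ (E.inv_mem i.out.2)
      simp only [zz] at e e1
      push_cast
      calc l * ((i.out : H)⁻¹ * j.out) = l * (i.out : H)⁻¹ * l⁻¹ *
            (l * j.out * l⁻¹ * (j.out : H)⁻¹) * j.out * l := by group
        _ = _ := by rw [← e]; group
    let φ : AddMonoid.End V →+ AddMonoid.End V :=
      (AddMonoidHom.mulRight (ρ l⁻¹)).comp (AddMonoidHom.mulLeft (ρ l)) -
        AddMonoidHom.mulLeft (ρ (zz l j))
    have hφ : ∀ q, ∀ f ∈ W q, φ f = (ρ (zz l q) - ρ (zz l j)) * f := fun q f hf => by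
      rw [sub_mul, ← hf l hl]; rfl
    refine ⟨φ, fun q f hf => ?_, fun f hf => by rw [hφ j f hf, sub_self, zero_mul],
      fun f hf e => ?_⟩
    · rw [hφ q f hf, hW]
      intro l' hl'
      have key : ∀ a ∈ E, ρ a * (ρ (zz l q) - ρ (zz l j)) = (ρ (zz l q) - ρ (zz l j)) * ρ a := by
        intro a ha
        rw [mul_sub, sub_mul, ← map_mul, ← map_mul, ← map_mul, ← map_mul,
          h.cen _ (hzz l hl q) a ha, h.cen _ (hzz l hl j) a ha]
      rw [← mul_assoc, key _ hl', ← mul_assoc, key _ (h.le (hzz l' hl' q)), mul_assoc, mul_assoc,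
        mul_assoc, ← hf l' hl', mul_assoc]
    · rw [hφ i f hf] at e
      refine AddMonoidHom.ext fun v => ?_
      have e1 : zz l i • f v - zz l j • f v = 0 := DFunLike.congr_fun e v
      exact h.smul_inj (C.mul_mem (C.inv_mem (hzz l hl i)) (hzz l hl j)) hne (sub_eq_zero.1 e1)
  · rw [← map_mul, ← map_mul, ← map_mul]
    simp [zz]
  · intro e
    have e1 : (i.out : H) • u = 0 := DFunLike.congr_fun e u
    exact hu ((smul_eq_zero_iff_eq _).1 e1)

theorem Cl2.card_pow_le (h : Cl2 V C E) [Fintype H] [IsCyclic C] {r : ℕ} (hr : 0 < r)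
    [DecidablePred fun g => g ∈ E ∧ g ^ r = 1] :
    (univ.filter fun g => g ∈ E ∧ g ^ r = 1).card ≤ r * C.relIndex E := by
  classical
  haveI := Fintype.ofFinite (E ⧸ C.subgroupOf E)
  rw [Subgroup.relIndex, Subgroup.index, Nat.card_eq_fintype_card, ← card_univ]
  refine card_le_mul_card_image_of_maps_to
    (f := fun g => if hg : g ∈ E then ((⟨g, hg⟩ : E) : E ⧸ C.subgroupOf E) else ((1 : E) : _))
    (fun _ _ => mem_univ _) r fun q _ => ?_
  refine le_trans ?_ (IsCyclic.card_pow_eq_one_le (α := C) hr)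
  rcases (filter (fun a => (if hg : a ∈ E then ((⟨a, hg⟩ : E) : E ⧸ C.subgroupOf E)
    else ((1 : E) : _)) = q) (univ.filter fun g => g ∈ E ∧ g ^ r = 1)).eq_empty_or_nonempty with
    he | ⟨g, hg⟩
  · rw [he]; simp
  simp only [mem_filter, mem_univ, true_and] at hg
  have key : ∀ a ∈ filter (fun a => (if hg : a ∈ E then ((⟨a, hg⟩ : E) : E ⧸ C.subgroupOf E)
    else ((1 : E) : _)) = q) (univ.filter fun g => g ∈ E ∧ g ^ r = 1), g⁻¹ * a ∈ C ∧ a ^ r = 1 := by
    intro a ha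
    simp only [mem_filter, mem_univ, true_and] at ha
    have := hg.2.trans ha.2.symm
    rw [dif_pos hg.1.1, dif_pos ha.1.1, QuotientGroup.eq, Subgroup.mem_subgroupOf] at this
    exact ⟨this, ha.1.2⟩
  refine card_le_card_of_injOn (fun a => if ha : g⁻¹ * a ∈ C then ⟨g⁻¹ * a, ha⟩ else 1)
    (fun a ha => ?_) fun a ha b hb e => ?_
  · obtain ⟨h1, h2⟩ := key a ha
    simp only [dif_pos h1, coe_filter, mem_univ, true_and, Set.mem_ofPred_eq]
    refine Subtype.ext ?_
    have hc : Commute g (g⁻¹ * a) := (h.cen _ h1 g hg.1.1).symm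
    have := hc.mul_pow r
    rw [mul_inv_cancel_left, h2, hg.1.2, one_mul] at this
    exact this.symm
  · simp only [dif_pos (key a ha).1, dif_pos (key b hb).1] at e
    exact mul_left_cancel (congrArg Subtype.val e)

theorem Cl2.three (h : Cl2 V C E) {u : V} (hu : u ≠ 0) {x x' : H} (hx : x ∈ E) (hx' : x' ∈ E)
    (hxu : x • u = u) (hxu' : x' • u = u) (hx1 : x ≠ 1) (hx1' : x' ≠ 1) (hxx : x ≠ x') :
    Nat.card (fixS V {x, x'}) ^ 3 ≤ Nat.card V := by
  classical
  have hC : ∀ a ∈ C, a • u = u → a = 1 := fun a ha e => by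
    by_contra hne; exact hu (h.free a ha hne u e)
  have hcomm : x * x' = x' * x := by
    have := hC _ (h.com x' hx' x hx) (by
      rw [mul_smul, mul_smul, mul_smul, inv_smul_eq_iff.2 hxu'.symm, inv_smul_eq_iff.2 hxu.symm,
        hxu', hxu])
    rw [mul_inv_eq_one, mul_inv_eq_iff_eq_mul] at this
    exact this
  let P : H → H × H := fun l => (l * x * l⁻¹, l * x' * l⁻¹)
  have hnc : ∀ a ∈ E, a • u = u → a ≠ 1 → ∃ l ∈ E, l * a * l⁻¹ ≠ a := by
    intro a ha e h1
    by_contra hc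
    push Not at hc
    exact h1 (hC a (h.zen a ha fun l hl => mul_inv_eq_iff_eq_mul.1 (hc l hl)) e)
  obtain ⟨l₁, hl₁, l₂, hl₂, h01, h02, h12⟩ : ∃ l₁ ∈ E, ∃ l₂ ∈ E, P 1 ≠ P l₁ ∧ P 1 ≠ P l₂ ∧
      P l₁ ≠ P l₂ := by
    by_contra hc
    push Not at hc
    obtain ⟨l, hl, hlx⟩ := hnc x hx hxu hx1
    have hP : P 1 ≠ P l := fun e => hlx (by simpa [P] using (congrArg Prod.fst e).symm)
    have hall : ∀ l' ∈ E, P 1 = P l' ∨ P l = P l' := fun l' hl' => by
      by_cases e : P 1 = P l'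
      · exact Or.inl e
      · exact Or.inr (hc l hl l' hl' hP e)
    obtain ⟨l', hl', hlx'⟩ := hnc x' hx' hxu' hx1'
    have hlx'' : l * x' * l⁻¹ ≠ x' := by
      rcases hall l' hl' with e | e
      · exact absurd (by simpa [P] using (congrArg Prod.snd e).symm) hlx'
      · rwa [show l * x' * l⁻¹ = l' * x' * l'⁻¹ from congrArg Prod.snd e]
    have hsq : ∀ a ∈ E, l * l * a * (l * l)⁻¹ = a →
        (l * a * l⁻¹ * a⁻¹) * (l * a * l⁻¹ * a⁻¹) = 1 := by
      intro a ha e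
      have e1 := h.cen _ (h.com a ha l hl) l hl
      calc _ = (l * a * l⁻¹ * a⁻¹ * l) * a * l⁻¹ * a⁻¹ := by group
        _ = l * l * a * (l * l)⁻¹ * (l * a⁻¹ * a * l⁻¹) * a⁻¹ := by rw [e1]; group
        _ = 1 := by rw [e]; group
    have hll : P 1 = P (l * l) := by
      refine (hall _ (E.mul_mem hl hl)).resolve_right fun e => hlx ?_
      have e1 : l * x * l⁻¹ = l * l * x * (l * l)⁻¹ := congrArg Prod.fst e
      calc l * x * l⁻¹ = l⁻¹ * (l * l * x * (l * l)⁻¹) * l := by group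
        _ = x := by rw [← e1]; group
    have hz : l * x * l⁻¹ * x⁻¹ = l * x' * l⁻¹ * x'⁻¹ := by
      by_contra hne
      have c1 := h.com x hx l hl
      have c2 := h.com x' hx' l hl
      refine hu (h.smul_inj (C.mul_mem (C.inv_mem c1) c2) hne ?_)
      rw [h.invol c1 (fun e => hlx (mul_inv_eq_one.1 e))
          (hsq x hx (by simpa [P] using (congrArg Prod.fst hll).symm)),
        h.invol c2 (fun e => hlx'' (mul_inv_eq_one.1 e))
          (hsq x' hx' (by simpa [P] using (congrArg Prod.snd hll).symm))]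
    have hm := E.mul_mem (E.inv_mem hx') hx
    obtain ⟨l'', hl'', hne⟩ := hnc _ hm (by rw [mul_smul, hxu, inv_smul_eq_iff, hxu'])
      (fun e => hxx (inv_mul_eq_one.1 e).symm)
    apply hne
    have e0 : l'' * (x'⁻¹ * x) * l''⁻¹ = (P l'').2⁻¹ * (P l'').1 := by simp only [P]; group
    rw [e0]
    rcases hall l'' hl'' with e | e
    · rw [← e]; simp [P]
    · rw [← e]
      calc (l * x' * l⁻¹)⁻¹ * (l * x * l⁻¹) = (l * x' * l⁻¹)⁻¹ * (l * x * l⁻¹ * x⁻¹) * x := by group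
        _ = _ := by rw [hz]; group
  let L : Fin 3 → H := ![1, l₁, l₂]
  have hL : ∀ i, L i ∈ E := fun i => by fin_cases i <;> simp [L, hl₁, hl₂]
  have hLP : ∀ i j, i ≠ j → P (L i) ≠ P (L j) := fun i j hij => by
    fin_cases i <;> fin_cases j <;> first | exact absurd rfl hij | assumption | (symm; assumption)
  have hcc : ∀ a ∈ E, ∀ b ∈ E, a * b = b * a → ∀ l ∈ E, ∀ l' ∈ E,
      (l * a * l⁻¹) * (l' * b * l'⁻¹) = (l' * b * l'⁻¹) * (l * a * l⁻¹) := by
    intro a ha b hb hab l hl l' hl'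
    obtain ⟨c, hc, e⟩ : ∃ c ∈ C, l * a * l⁻¹ = c * a := ⟨_, h.com a ha l hl, by group⟩
    obtain ⟨c', hc', e'⟩ : ∃ c ∈ C, l' * b * l'⁻¹ = c * b := ⟨_, h.com b hb l' hl', by group⟩
    rw [e, e']
    calc c * a * (c' * b) = c * (a * c') * b := by group
      _ = (c * c') * (a * b) := by rw [← h.cen c' hc' a ha]; group
      _ = c' * (c * b) * a := by rw [h.cen c hc c' (h.le hc'), hab]; group
      _ = _ := by rw [h.cen c hc b hb]; group
  have hdiff : ∀ a ∈ E, ∀ l ∈ E, ∀ l' ∈ E, (l * a * l⁻¹)⁻¹ * (l' * a * l'⁻¹) ∈ C := by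
    intro a ha l hl l' hl'
    obtain ⟨c, hc, e⟩ : ∃ c ∈ C, l * a * l⁻¹ = c * a := ⟨_, h.com a ha l hl, by group⟩
    obtain ⟨c', hc', e'⟩ : ∃ c ∈ C, l' * a * l'⁻¹ = c * a := ⟨_, h.com a ha l' hl', by group⟩
    rw [e, e', h.cen c hc a ha, h.cen c' hc' a ha]
    simpa using C.mul_mem (C.inv_mem hc) hc'
  have := indep_pow (fun i => fixS V {(P (L i)).1, (P (L i)).2}) (fun i j hij => ?_)
    (w := Nat.card (fixS V {x, x'})) fun i => card_fixS_le (L i)⁻¹ fun a ha => by
      rcases ha with rfl | rfl <;> simp [P, mul_assoc]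
  · simpa using this
  by_cases e : (P (L i)).1 = (P (L j)).1
  · have e' : (P (L j)).2 ≠ (P (L i)).2 := fun e' => hLP i j hij (Prod.ext e e'.symm)
    refine ⟨dlt V (P (L j)).2, fun l => dlt_mem ?_, fun v hv => ?_, fun v hv e => ?_⟩
    · rintro b (rfl | rfl)
      · exact hcc x hx x' hx' hcomm _ (hL l) _ (hL j)
      · exact hcc x' hx' x' hx' rfl _ (hL l) _ (hL j)
    · rw [dlt_apply, hv _ (Or.inr rfl), sub_self]
    · exact h.smul_inj (hdiff x' hx' _ (hL j) _ (hL i)) e'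
        ((sub_eq_zero.1 e).trans (hv _ (Or.inr rfl)).symm)
  · refine ⟨dlt V (P (L j)).1, fun l => dlt_mem ?_, fun v hv => ?_, fun v hv e' => ?_⟩
    · rintro b (rfl | rfl)
      · exact hcc x hx x hx rfl _ (hL l) _ (hL j)
      · exact hcc x' hx' x hx hcomm.symm _ (hL l) _ (hL j)
    · rw [dlt_apply, hv _ (Or.inl rfl), sub_self]
    · exact h.smul_inj (hdiff x hx _ (hL j) _ (hL i)) (Ne.symm e)
        ((sub_eq_zero.1 e').trans (hv _ (Or.inl rfl)).symm)

/-- The class-two subgroup does not act freely. -/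
theorem Aff.caseE (hA : Aff V R) (h : Cl2 V C E) [hE : E.Normal] (hER : E ≤ R) [IsCyclic C] {r : ℕ}
    [hr : Fact r.Prime] (hp : IsPGroup r E) (hpow : ∀ g ∈ E, g ^ r ∈ C) {x : H} (hx : x ∈ E)
    (hx1 : x ≠ 1) {u : V} (hu : u ≠ 0) (hxu : x • u = u) : Good (Nat.card V) R.index := by
  classical
  haveI := Fintype.ofFinite H
  have hxC : x ∉ C := fun e => hu (h.free x e hx1 u hxu)
  by_cases hst : ∀ u : V, u ≠ 0 → ∀ a ∈ E, ∀ b ∈ E, a • u = u → b • u = u → a ≠ 1 → b ≠ 1 → a = b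
  · left
    have hxx : x * x = 1 := by
      by_contra hne
      have := hst u hu _ (E.mul_mem hx hx) x hx (by rw [mul_smul, hxu, hxu]) hxu hne hx1
      exact hx1 (by simpa using this)
    obtain ⟨l, hl, hlx⟩ : ∃ l ∈ E, l * x ≠ x * l := by
      by_contra hc
      push Not at hc
      exact hxC (h.zen x hx hc)
    have hz := h.com x hx l hl
    have hz1 : l * x * l⁻¹ * x⁻¹ ≠ 1 := fun e =>
      hlx (mul_inv_eq_iff_eq_mul.1 (mul_inv_eq_one.1 e))
    refine hA.caseA hER (h.le hz) (h.invol hz hz1 ?_) (h.free _ hz hz1) hst hx hx1 hu hxu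
    have e1 := h.cen _ hz x hx
    calc _ = l * x * l⁻¹ * x⁻¹ * (l * x * l⁻¹ * x⁻¹) * (x * x) := by rw [hxx, mul_one]
      _ = l * x * l⁻¹ * x⁻¹ * (l * x * l⁻¹ * x⁻¹ * x) * x := by group
      _ = l * (x * x) * l⁻¹ := by rw [e1]; group
      _ = 1 := by rw [hxx]; group
  push Not at hst
  obtain ⟨v, hv, a, ha, b, hb, hav, hbv, ha1, hb1, hab⟩ := hst
  right
  have hone : ∀ g ∈ E, g • v = v → g ^ r = 1 := fun g hg e => by
    by_contra hne
    exact hv (h.free _ (hpow g hg) hne v (mem_stabilizer_iff.1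
      (Subgroup.pow_mem _ (mem_stabilizer_iff.2 e) r)))
  set P := univ.filter fun g => g ∈ E ∧ g ^ r = 1 with hP
  have hPm : ∀ g ∈ E, g • v = v → ∀ l, l * g * l⁻¹ ∈ P := fun g hg e l => by
    simp only [hP, mem_filter, mem_univ, true_and]
    exact ⟨hE.conj_mem _ hg l, by rw [conj_pow, hone g hg e]; simp⟩
  have h1 := hA.orb hv hER (fun g => (g * a * g⁻¹, g * b * g⁻¹)) (fun p => fixS V {p.1, p.2})
    (P ×ˢ P) (w := Nat.card (fixS V {a, b}))
    (fun g c hc => by
      rcases hc with rfl | rfl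
      · rw [mul_smul, inv_smul_smul, mul_smul, hav]
      · rw [mul_smul, inv_smul_smul, mul_smul, hbv])
    (fun g => card_fixS_le g fun c hc => by rcases hc with rfl | rfl <;> simp)
    (fun g => mem_product.2 ⟨hPm a ha hav g, hPm b hb hbv g⟩)
  have h2 : P.card ≤ r * C.relIndex E := h.card_pow_le hr.out.pos
  have h3 : r ≤ C.relIndex E := by
    obtain ⟨m, hm⟩ := hp.index (C.subgroupOf E)
    have hm0 : m ≠ 0 := by
      rintro rfl
      exact hxC (Subgroup.relIndex_eq_one.1 hm hx)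
    rw [Subgroup.relIndex, hm]
    exact Nat.le_self_pow hm0 r
  refine ⟨C.relIndex E, _, h.li hu, ?_, h.three hv ha hb hav hbv ha1 hb1 hab⟩
  have h4 : P.card ≤ C.relIndex E ^ 2 := by rw [sq]; exact h2.trans (Nat.mul_le_mul_right _ h3)
  rw [card_product] at h1
  calc R.index ≤ R.index * Nat.card (orbit E v) := Nat.le_mul_of_pos_right _ (card_orbit_pos _ _)
    _ ≤ _ := h1
    _ ≤ C.relIndex E ^ 2 * C.relIndex E ^ 2 * Nat.card (fixS V {a, b}) :=
      Nat.mul_le_mul (Nat.mul_le_mul h4 h4) (Nat.sub_le _ _)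
    _ = _ := by ring

end Cfsg.Agent.H3.Der
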