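import Cfsg.Agent.H3.DerAff3

set_option autoImplicit false
set_option linter.style.haveILetI false
set_option linter.unusedSectionVars false

/-! Linear groups whose vector stabilisers lie in a subgroup of large index: conclusion. -/

namespace Cfsg.Agent.H3.Der

open MulAction Finset

variable {H V : Type*} [Group H] [Finite H] [AddCommGroup V] [Finite V] [DistribMulAction H V]
variable {C E R : Subgroup H}

theorem Aff.quat (hA : Aff V R) (h : Cl2 V C E) [IsCyclic C] (hp : IsPGroup 2 E)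
    (hpow : ∀ g ∈ E, g ^ 2 ∈ C) (hfree : ∀ a ∈ E, a ≠ 1 → ∀ v : V, a • v = v → v = 0)
    {g : H} (hg : g ∈ E) (hgC : g ∉ C) {u : V} (hu : u ≠ 0) {x : H}
    (hx : ∀ l ∈ E, x * l * x⁻¹ * l⁻¹ ∈ C) : ∃ e ∈ E, ∀ l ∈ E, l * (x * e) = (x * e) * l := by
  have hinv : ∀ a ∈ E, a ≠ 1 → a * a = 1 → ∀ v : V, a • v = -v := fun a ha h1 h2 v =>
    eq_neg_of_add_eq_zero_left (hfree a ha h1 _ (by
      rw [smul_add, ← mul_smul, h2, one_smul, add_comm]))
  have hcsq : ∀ a ∈ E, ∀ l ∈ E, (l * a * l⁻¹ * a⁻¹) * (l * a * l⁻¹ * a⁻¹) = 1 := by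
    intro a ha l hl
    have e1 := h.cen _ (h.com a ha l hl) l hl
    have e2 := h.cen _ (hpow l hl) a ha
    calc _ = (l * a * l⁻¹ * a⁻¹ * l) * a * l⁻¹ * a⁻¹ := by group
      _ = (l ^ 2 * a) * (l ^ 2)⁻¹ * a⁻¹ := by rw [e1, sq]; group
      _ = 1 := by rw [e2]; group
  obtain ⟨k, hk, hgk⟩ : ∃ l ∈ E, l * g ≠ g * l := by
    by_contra hc
    push Not at hc
    exact hgC (h.zen g hg hc)
  obtain ⟨z, hz⟩ : ∃ z, z = k * g * k⁻¹ * g⁻¹ := ⟨_, rfl⟩
  have hzC : z ∈ C := hz ▸ h.com g hg k hk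
  have hz1 : z ≠ 1 := fun e => hgk (mul_inv_eq_iff_eq_mul.1 (mul_inv_eq_one.1 (hz ▸ e)))
  have hzz : z * z = 1 := hz ▸ hcsq g hg k hk
  have hzu : ∀ a ∈ E, a * a = 1 → a = 1 ∨ a = z := fun a ha h2 => by
    by_cases h1 : a = 1
    · exact Or.inl h1
    · exact Or.inr (hA.ext hu fun v => by
        rw [hinv a ha h1 h2, hinv z (h.le hzC) hz1 hzz])
  have hzc : ∀ a, a * z = z * a := fun a => hA.ext hu fun v => by
    rw [mul_smul, mul_smul, hinv z (h.le hzC) hz1 hzz, hinv z (h.le hzC) hz1 hzz, smul_neg]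
  have hns : ∀ a ∈ E, a ∉ C → ∀ c ∈ C, a * a ≠ c * c := by
    intro a ha haC c hc e
    have e1 := h.cen c hc a ha
    have : a * c⁻¹ * (a * c⁻¹) = 1 := by
      calc _ = a * c⁻¹ * (a * c) * c⁻¹ * c⁻¹ := by group
        _ = (a * a) * c⁻¹ * c⁻¹ := by rw [← e1]; group
        _ = 1 := by rw [e]; group
    apply haC
    rcases hzu _ (E.mul_mem ha (E.inv_mem (h.le hc))) this with e2 | e2
    · rw [mul_inv_eq_one.1 e2]; exact hc
    · rw [mul_inv_eq_iff_eq_mul.1 e2]; exact C.mul_mem hzC hc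
  obtain ⟨c₀, hc₀⟩ := IsCyclic.exists_generator (α := C)
  have hodd : ∀ a ∈ E, a ∉ C → ∃ c ∈ C, a * a = c * c * c₀ := by
    intro a ha haC
    obtain ⟨n, hn⟩ := hc₀ ⟨a ^ 2, hpow a ha⟩
    have hn' : (c₀ : H) ^ n = a * a := by rw [← sq]; exact congrArg Subtype.val hn
    rcases Int.even_or_odd' n with ⟨m, rfl | rfl⟩
    · exact absurd (by rw [← hn', two_mul, zpow_add]) (hns a ha haC _ (C.zpow_mem c₀.2 m))
    · exact ⟨_, C.zpow_mem c₀.2 m, by rw [← hn', two_mul, zpow_add, zpow_add, zpow_one]⟩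
  have hnc : ∀ a ∈ E, ∀ b ∈ E, a ∉ C → b ∉ C → a * b ∉ C →
      a * b ≠ b * a ∧ ∀ c ∈ C, z ≠ c * c := by
    intro a ha b hb haC hbC hab
    obtain ⟨c, hc, e⟩ := hodd a ha haC
    obtain ⟨c', hc', e'⟩ := hodd b hb hbC
    have hs : c * c' * c₀ ∈ C := C.mul_mem (C.mul_mem hc hc') c₀.2
    have e1 : a * a * (b * b) = (c * c' * c₀) * (c * c' * c₀) := by
      have p1 : Commute c c' := h.cen c hc c' (h.le hc')
      have p2 : Commute c c₀ := h.cen c hc c₀ (h.le c₀.2)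
      have p3 : Commute c' c₀ := h.cen c' hc' c₀ (h.le c₀.2)
      rw [e, e', ← sq, ← sq, ← sq, (p2.mul_left p3).mul_pow, p1.mul_pow, sq (c₀ : H)]
      simp only [mul_assoc]
      rw [← mul_assoc (c₀ : H), ← (p3.pow_left 2).eq, mul_assoc]
    have hne : a * b ≠ b * a := fun e2 => hns _ (E.mul_mem ha hb) hab _ hs (by
      rw [← e1, mul_assoc, ← mul_assoc b, ← e2]; group)
    refine ⟨hne, fun d hd e2 => hns _ (E.mul_mem ha hb) hab _ (C.mul_mem hs hd) ?_⟩
    have e3 : b * a * b⁻¹ * a⁻¹ = z := (hzu _ (h.le (h.com a ha b hb)) (hcsq a ha b hb)).resolve_left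
      fun e => hne (mul_inv_eq_iff_eq_mul.1 (mul_inv_eq_one.1 e)).symm
    calc a * b * (a * b) = a * (b * a * b⁻¹ * a⁻¹) * (a * (b * b)) := by group
      _ = a * a * (b * b) * z := by rw [e3, hzc, mul_assoc, ← hzc]; group
      _ = c * c' * c₀ * (c * c' * c₀ * d) * d := by rw [e1, e2]; group
      _ = _ := by
        conv_lhs => rw [h.cen _ hs d (h.le hd)]
        group
  have hkC : k ∉ C := fun e => hgk (h.cen k e g hg)
  have hgkC : g * k ∉ C := fun e => hgk (by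
    have := h.cen _ e g hg
    rw [mul_assoc] at this
    exact mul_left_cancel this)
  have hC2 : ∀ c ∈ C, c = 1 ∨ c = z := by
    intro c hc
    refine hzu c (h.le hc) ?_
    obtain ⟨m, hm⟩ := hp ⟨c, h.le hc⟩
    have hm' : c ^ 2 ^ m = 1 := congrArg Subtype.val hm
    clear hm
    induction m with
    | zero => rw [pow_zero, pow_one] at hm'; rw [hm', mul_one]
    | succ m ih =>
      rcases hzu _ (E.pow_mem (h.le hc) (2 ^ m)) (by rw [← sq, ← pow_mul, ← pow_succ, hm'])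
        with e | e
      · exact ih e
      · cases m with
        | zero => rw [← sq]; simpa using hm'
        | succ m =>
          exact absurd (by rw [← e, ← sq, ← pow_mul, ← pow_succ])
            ((hnc g hg k hk hgC hkC hgkC).2 _ (C.pow_mem hc (2 ^ m)))
  have e1 : k * g = z * g * k := by rw [hz]; group
  have e2 : g * k = z * k * g := by rw [mul_assoc, e1, ← mul_assoc, ← mul_assoc, hzz, one_mul]
  have sel : ∀ y, (∀ l ∈ E, y * l * y⁻¹ * l⁻¹ ∈ C) → ∃ e, (e = 1 ∨ e = g ∨ e = k ∨ e = g * k) ∧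
      g * (y * e) = (y * e) * g ∧ k * (y * e) = (y * e) * k := by
    intro y hy
    have a1 : y * g = g * y ∨ y * g = z * g * y := (hC2 _ (hy g hg)).imp
      (fun e => mul_inv_eq_iff_eq_mul.1 (mul_inv_eq_one.1 e))
      (fun e => mul_inv_eq_iff_eq_mul.1 (mul_inv_eq_iff_eq_mul.1 e))
    have a2 : y * k = k * y ∨ y * k = z * k * y := (hC2 _ (hy k hk)).imp
      (fun e => mul_inv_eq_iff_eq_mul.1 (mul_inv_eq_one.1 e))
      (fun e => mul_inv_eq_iff_eq_mul.1 (mul_inv_eq_iff_eq_mul.1 e))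
    have zz : ∀ a b : H, a * (z * b) = z * (a * b) := fun a b => by
      rw [← mul_assoc, hzc, mul_assoc]
    have z2 : ∀ b : H, z * (z * b) = b := fun b => by rw [← mul_assoc, hzz, one_mul]
    have f1 : ∀ b, k * (g * b) = z * (g * (k * b)) := fun b => by
      rw [← mul_assoc, e1]; simp only [mul_assoc]
    have f1' : k * g = z * (g * k) := by rw [e1, mul_assoc]
    rcases a1 with a1 | a1 <;> rcases a2 with a2 | a2
    · exact ⟨1, by simp, by simp [a1], by simp [a2]⟩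
    · refine ⟨g, by simp, by rw [← mul_assoc, ← a1], ?_⟩
      calc k * (y * g) = z * ((z * k * y) * g) := by simp only [mul_assoc, z2]
        _ = _ := by rw [← a2]; simp only [mul_assoc, f1', zz y, z2]
    · refine ⟨k, by simp, ?_, by rw [← mul_assoc, ← a2]⟩
      calc g * (y * k) = z * ((z * g * y) * k) := by simp only [mul_assoc, z2]
        _ = _ := by rw [← a1]; simp only [mul_assoc, f1', zz y]
    · refine ⟨g * k, by simp, ?_, ?_⟩
      · calc g * (y * (g * k)) = z * ((z * g * y) * g * k) := by simp only [mul_assoc, z2]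
          _ = _ := by rw [← a1]; simp only [mul_assoc, f1', zz g, zz y]
      · calc k * (y * (g * k)) = z * ((z * k * y) * g * k) := by simp only [mul_assoc, z2]
          _ = _ := by rw [← a2]; simp only [mul_assoc, f1, zz y, z2]
  obtain ⟨e, he, b1, b2⟩ := sel x hx
  have hmem : ∀ e, (e = 1 ∨ e = g ∨ e = k ∨ e = g * k) → e ∈ E := by
    rintro e (rfl | rfl | rfl | rfl)
    exacts [E.one_mem, hg, hk, E.mul_mem hg hk]
  refine ⟨e, hmem e he, fun l hl => ?_⟩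
  obtain ⟨e', he', c1, c2⟩ := sel l fun a ha => h.com a ha l hl
  have hle := E.mul_mem hl (hmem e' he')
  have hlC : l * e' ∈ C := by
    by_contra hn
    have d1 : l * e' * g ∈ C := by
      by_contra hn'
      exact (hnc _ hle g hg hn hgC hn').1 c1.symm
    have d2 : l * e' * k ∈ C := by
      by_contra hn'
      exact (hnc _ hle k hk hn hkC hn').1 c2.symm
    have d3 := h.cen _ (C.mul_mem (C.inv_mem d1) d2) g hg
    apply hgk
    calc k * g = g * ((l * e' * g)⁻¹ * (l * e' * k) * g) := by group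
      _ = _ := by rw [d3]; group
  have p1 : Commute (l * e') (x * e) := by
    rcases hC2 _ hlC with e | e <;> rw [e]
    · exact Commute.one_left _
    · exact (hzc _).symm
  have p2 : Commute e' (x * e) := by
    rcases he' with rfl | rfl | rfl | rfl
    exacts [Commute.one_left _, b1, b2, Commute.mul_left b1 b2]
  have := p1.mul_left p2.inv_left
  rwa [mul_inv_cancel_right] at this

theorem Aff.main (hA : Aff V R) {X : Subgroup H} [hX : X.Normal] (hXR : X ≤ R) {r : ℕ}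
    [hr : Fact r.Prime] (hp : IsPGroup r X) {y : H} (hy : y ∈ X) (hy1 : y ≠ 1) {u : V} (hu : u ≠ 0)
    (hyu : y • u = u) : Good (Nat.card V) R.index := by
  classical
  haveI : Nontrivial V := ⟨u, 0, hu⟩
  obtain ⟨C, ⟨hCX, hC, hcomm⟩, hmax⟩ := (Set.toFinite {C : Subgroup H | C ≤ X ∧ C.Normal ∧
    ∀ a ∈ C, ∀ b ∈ C, a * b = b * a}).exists_maximal ⟨⊥, bot_le, inferInstance, by simp⟩
  by_cases hfree : ∀ a ∈ C, a ≠ 1 → ∀ v : V, a • v = v → v = 0
  swap
  · push Not at hfree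
    obtain ⟨a, ha, ha1, v, hav, hv⟩ := hfree
    exact hA.caseAb (hCX.trans hXR) hcomm ha ha1 hv hav
  have hfree' : ∀ {K : Subgroup H}, (∀ a ∈ K, a ≠ 1 → ∀ v : V, a • v = v → v = 0) →
      ∀ g : K, g ≠ 1 → ∀ v : V, g • v = v → v = 0 :=
    fun hK g hg v e => hK g g.2 (fun e => hg (Subtype.ext e)) v e
  haveI : IsCyclic C := by
    by_cases h2 : r = 2
    · subst h2
      exact H2.PGroup.isCyclic_two (hp.to_le hCX) (H2.FreeAct.invol_unique (hfree' hfree))
        fun a b _ _ => Subtype.ext (hcomm a a.2 b b.2)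
    · exact H2.FreeAct.isCyclic_of_free h2 (hp.to_le hCX) (hfree' hfree)
  by_cases hB : ∀ b ∈ X, (∀ c ∈ C, c * b = b * c) → b ∈ C
  · left
    refine hA.caseCy (hCX.trans hXR) hfree hy1 (fun g => hB _
      (X.mul_mem (hX.conj_mem _ hy g) (X.inv_mem hy)) ?_) hu hyu
    obtain ⟨c₀, hc₀⟩ := IsCyclic.exists_generator (α := C)
    have key : ∀ a b : H, a * (b * c₀ * b⁻¹) * a⁻¹ = b * (a * c₀ * a⁻¹) * b⁻¹ := by
      intro a b
      obtain ⟨m, hm⟩ := hc₀ ⟨_, hC.conj_mem _ c₀.2 a⟩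
      obtain ⟨n, hn⟩ := hc₀ ⟨_, hC.conj_mem _ c₀.2 b⟩
      have hm' : (c₀ : H) ^ m = a * c₀ * a⁻¹ := congrArg Subtype.val hm
      have hn' : (c₀ : H) ^ n = b * c₀ * b⁻¹ := congrArg Subtype.val hn
      conv_lhs => rw [← hn', ← conj_zpow, ← hm']
      conv_rhs => rw [← hm', ← conj_zpow, ← hn']
      rw [← zpow_mul, ← zpow_mul, mul_comm]
    have key2 : ∀ a b : H, ∀ c ∈ C, a * (b * c * b⁻¹) * a⁻¹ = b * (a * c * a⁻¹) * b⁻¹ := by
      intro a b c hc
      obtain ⟨m, hm⟩ := hc₀ ⟨c, hc⟩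
      have hm' : (c₀ : H) ^ m = c := congrArg Subtype.val hm
      rw [← hm', ← conj_zpow, ← conj_zpow, key, conj_zpow, conj_zpow]
    intro c hc
    have := key2 g y _ (hC.conj_mem _ (hC.conj_mem _ hc y⁻¹) g⁻¹)
    calc c * (g * y * g⁻¹ * y⁻¹) =
        (y * (g * (g⁻¹ * (y⁻¹ * c * y⁻¹⁻¹) * g⁻¹⁻¹) * g⁻¹) * y⁻¹) * (g * y * g⁻¹ * y⁻¹) := by group
      _ = _ := by rw [← this]; group
  set π := QuotientGroup.mk' C with hπ
  have hπ1 : ∀ g, π g = 1 ↔ g ∈ C := fun g => QuotientGroup.eq_one_iff g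
  have NZ : ∀ F : Subgroup H, F.Normal → F ≤ X → ¬ F ≤ C →
      ∃ g ∈ F, g ∉ C ∧ π g ^ r = 1 ∧ ∀ x ∈ X, Commute (π g) (π x) := by
    intro F hF hFX hFC
    haveI : (F.map π).Normal := hF.map _ (QuotientGroup.mk'_surjective C)
    obtain ⟨x, hx, hxc, hxo⟩ := H2.PGroup.exists_center_mem_normal (hp.map π)
      ((F.map π).subgroupOf (X.map π)) (fun e => hFC fun g hg => by
        have : (⟨π g, g, hFX hg, rfl⟩ : X.map π) ∈ (F.map π).subgroupOf (X.map π) := ⟨g, hg, rfl⟩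
        rw [e] at this
        exact (hπ1 g).1 (congrArg Subtype.val this))
    obtain ⟨g, hg, e⟩ := hx
    have e' : π g = x := e
    refine ⟨g, hg, fun hgC => hr.out.one_lt.ne' ?_, ?_, fun a ha => ?_⟩
    · rw [← hxo, orderOf_eq_one_iff]
      exact Subtype.ext (e'.symm.trans ((hπ1 g).2 hgC))
    · rw [e', ← hxo]
      exact congrArg Subtype.val (pow_orderOf_eq_one x)
    · rw [e']
      exact (congrArg Subtype.val (Subgroup.mem_center_iff.1 hxc ⟨π a, a, ha, rfl⟩)).symm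
  let E : Subgroup H :=
    { carrier := {g | g ∈ X ∧ (∀ c ∈ C, c * g = g * c) ∧ π g ^ r = 1 ∧
        ∀ x ∈ X, Commute (π g) (π x)}
      mul_mem' := fun {a b} ha hb => ⟨X.mul_mem ha.1 hb.1, fun c hc => by
          rw [← mul_assoc, ha.2.1 c hc, mul_assoc, hb.2.1 c hc, mul_assoc],
        by rw [map_mul, (ha.2.2.2 b hb.1).mul_pow, ha.2.2.1, hb.2.2.1, mul_one],
        fun x hx => by rw [map_mul]; exact (ha.2.2.2 x hx).mul_left (hb.2.2.2 x hx)⟩
      one_mem' := ⟨X.one_mem, by simp, by simp, by simp⟩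
      inv_mem' := fun {a} ha => ⟨X.inv_mem ha.1, fun c hc => (Commute.inv_right (ha.2.1 c hc)).eq,
        by rw [map_inv, inv_pow, ha.2.2.1, inv_one],
        fun x hx => by rw [map_inv]; exact (ha.2.2.2 x hx).inv_left⟩ }
  have hE : ∀ g, g ∈ E ↔ g ∈ X ∧ (∀ c ∈ C, c * g = g * c) ∧ π g ^ r = 1 ∧
      ∀ x ∈ X, Commute (π g) (π x) := fun _ => Iff.rfl
  haveI hEn : E.Normal := ⟨fun a ha g => ⟨hX.conj_mem _ ha.1 g, fun c hc => by
      have := ha.2.1 _ (hC.conj_mem c hc g⁻¹)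
      calc c * (g * a * g⁻¹) = g * (g⁻¹ * c * g⁻¹⁻¹ * a) * g⁻¹ := by group
        _ = _ := by rw [this]; group,
    by rw [map_mul, map_mul, map_inv, conj_pow, ha.2.2.1]; simp,
    fun x hx => by
      have := (ha.2.2.2 _ (hX.conj_mem x hx g⁻¹)).conj (π g)
      simpa [mul_assoc] using this⟩⟩
  have hEX : E ≤ X := fun g hg => hg.1
  have hCE : C ≤ E := fun c hc => ⟨hCX hc, fun d hd => hcomm d hd c hc,
    by rw [(hπ1 c).2 hc, one_pow], fun x _ => by rw [(hπ1 c).2 hc]; exact Commute.one_left _⟩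
  have hXE : ∀ x ∈ X, ∀ l ∈ E, x * l * x⁻¹ * l⁻¹ ∈ C := fun x hx l hl => by
    rw [← hπ1, map_mul, map_mul, map_mul, map_inv, map_inv, ← (hl.2.2.2 x hx).eq]; simp
  have h2 : Cl2 V C E := ⟨hfree, hCE, fun c hc g hg => hg.2.1 c hc, fun g hg hc =>
    hmax (y := E ⊓ Subgroup.centralizer E) ⟨inf_le_left.trans hEX, inferInstance,
      fun a ha b hb => hb.2 a ha.1⟩
      (fun c hc => ⟨hCE hc, fun l hl => (hl.2.1 c hc).symm⟩) ⟨hg, hc⟩,
    fun g hg l hl => hXE l hl.1 g hg⟩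
  have hpow : ∀ g ∈ E, g ^ r ∈ C := fun g hg => by rw [← hπ1, map_pow]; exact hg.2.2.1
  by_cases hfE : ∀ a ∈ E, a ≠ 1 → ∀ v : V, a • v = v → v = 0
  swap
  · push Not at hfE
    obtain ⟨a, ha, ha1, v, hav, hv⟩ := hfE
    exact hA.caseE h2 (hEX.trans hXR) (hp.to_le hEX) hpow ha ha1 hv hav
  exfalso
  obtain ⟨g, hg, hgC, hg'⟩ := NZ (X ⊓ Subgroup.centralizer C) inferInstance inf_le_left
    (fun e => hB fun b hb hc => e ⟨hb, hc⟩)
  have hgE : g ∈ E := ⟨hg.1, hg.2, hg'⟩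
  by_cases hr2 : r = 2
  · subst hr2
    obtain ⟨e, he, hc⟩ := hA.quat h2 (hp.to_le hEX) hpow hfE hgE hgC hu (hXE y hy)
    have hF : X ⊓ Subgroup.centralizer E ≤ C := by
      by_contra hn
      obtain ⟨f, hf, hfC, hf'⟩ := NZ _ inferInstance inf_le_left hn
      exact hfC (h2.zen f ⟨hf.1, fun c hc => hf.2 c (hCE hc), hf'⟩ hf.2)
    have : y * e ∈ E := hCE (hF ⟨X.mul_mem hy (hEX he), hc⟩)
    exact hu (hfE y (by simpa using E.mul_mem this (E.inv_mem he)) hy1 u hyu)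
  · haveI := H2.FreeAct.isCyclic_of_free hr2 (hp.to_le hEX) (hfree' hfE)
    exact hgC (h2.zen g hgE fun l hl =>
      congrArg Subtype.val (IsCyclic.commGroup.mul_comm (⟨l, hl⟩ : E) ⟨g, hgE⟩))

end Cfsg.Agent.H3.Der
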