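import Cfsg.Agent.H3.DerBasic
import Cfsg.Agent.H4.CAChar
import Cfsg.Agent.H1.PermChar

set_option autoImplicit false
set_option linter.style.haveILetI false
set_option linter.unusedSectionVars false

/-! A transitive group with a regular CA-subgroup and rank at least three: the rank is large. -/

namespace Cfsg.Agent.H3.Der

open MulAction Finset

theorem core_count {ι X : Type*} [Fintype ι] [Fintype X] [DecidableEq X] (o : X)
    (m : X → ι → ℕ) (w : ι → ℕ) (orb : X → Finset X) (e : ℕ)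
    (h1 : ∀ μ, ∑ i, w i * m μ i = 1) (h2 : ∀ i, ∃ μ, m μ i ≠ 0) {i₀ : ι} (h3 : w i₀ ≠ 0)
    (h3' : ∀ μ, m μ i₀ = if μ = o then 1 else 0) (h4 : ∀ μ, μ ≠ o → (orb μ).card = e)
    (h5 : ∀ μ ν, μ ≠ o → ν ≠ o → ∑ i, ((m μ i : ℤ) - m ν i) ^ 2 = if ν ∈ orb μ then 0 else 2)
    (hr : 3 ≤ ∑ i, w i * w i) : Fintype.card X - 1 ≤ (∑ i, w i * w i - 1) * e := by
  classical
  have k1 : ∀ μ, ∃ i, w i = 1 ∧ m μ i = 1 ∧ ∀ j, j ≠ i → w j * m μ j = 0 := by
    intro μ
    obtain ⟨i, -, hi⟩ := exists_ne_zero_of_sum_ne_zero (s := univ) (f := fun i => w i * m μ i)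
      (by rw [h1]; norm_num)
    have := h1 μ
    rw [← add_sum_erase _ _ (mem_univ i)] at this
    have e1 : w i * m μ i = 1 := by omega
    have e2 : ∑ x ∈ univ.erase i, w x * m μ x = 0 := by omega
    exact ⟨i, Nat.eq_one_of_mul_eq_one_right e1, Nat.eq_one_of_mul_eq_one_left e1,
      fun j hj => sum_eq_zero_iff.1 e2 j (by simp [hj])⟩
  choose τ hτ1 hτ2 hτ3 using k1
  have k2 : ∀ i μ, w i ≠ 0 → m μ i ≠ 0 → i = τ μ := by
    intro i μ hi hm
    by_contra hne
    exact mul_ne_zero hi hm (hτ3 μ i hne)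
  set S := univ.filter (fun i => w i ≠ 0) with hS
  have k3 : ∑ i, w i * w i = S.card := by
    rw [hS, card_filter]
    refine sum_congr rfl fun i _ => ?_
    split_ifs with hi
    · obtain ⟨μ, hμ⟩ := h2 i
      rw [k2 i μ hi hμ, hτ1]
    · rw [not_not.1 hi]
  have k4 : τ o = i₀ := (k2 i₀ o h3 (by rw [h3']; simp)).symm
  have k5 : ∀ μ, μ ≠ o → τ μ ≠ i₀ := by
    intro μ hμ e
    have := hτ2 μ
    rw [e, h3', if_neg hμ] at this
    exact zero_ne_one this
  rw [k3] at hr ⊢
  have hi₀ : i₀ ∈ S := by simpa [hS] using h3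
  rw [← card_erase_of_mem hi₀, ← card_univ, ← card_erase_of_mem (mem_univ o), mul_comm]
  refine card_le_mul_card_image_of_maps_to (f := τ) (fun μ hμ => ?_) e fun i hi => ?_
  · simp only [hS, mem_erase, mem_filter, mem_univ, true_and, and_true] at hμ ⊢
    exact ⟨k5 μ hμ, by rw [hτ1]; norm_num⟩
  rcases (((univ.erase o).filter fun μ => τ μ = i)).eq_empty_or_nonempty with he | ⟨μ, hμ⟩
  · rw [he]; simp
  simp only [mem_filter, mem_erase, mem_univ, and_true] at hμ
  rw [← h4 μ hμ.1]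
  refine card_le_card fun μ' hμ' => ?_
  simp only [mem_filter, mem_erase, mem_univ, and_true] at hμ'
  obtain ⟨j, hj⟩ : ((S.erase i₀).erase i).Nonempty := by
    rw [← card_pos, card_erase_of_mem hi, card_erase_of_mem hi₀]; omega
  simp only [hS, mem_erase, mem_filter, mem_univ, true_and] at hj hi
  obtain ⟨ν, hν⟩ := h2 j
  have hjν := k2 j ν hj.2.2 hν
  have hνo : ν ≠ o := fun e => hj.2.1 (by rw [hjν, e, k4])
  have key : ∀ l, l ≠ o → τ l = i → ∀ x, (m l x : ℤ) =
      m ν x + (if x = i then 1 else 0) - if x = j then 1 else 0 := by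
    intro l hl hli x
    have a1 : m l i = 1 := by rw [← hli, hτ2]
    have a2 : m ν j = 1 := by rw [hjν, hτ2]
    have a3 : m ν i = 0 := by
      by_contra hc
      exact hj.1 (hjν.trans (k2 i ν hi.2 hc).symm)
    have a4 : m l j = 0 := by
      by_contra hc
      exact hj.1 ((k2 j l hj.2.2 hc).trans hli)
    by_cases hxi : x = i
    · subst hxi; simp [a1, a3, Ne.symm hj.1]
    by_cases hxj : x = j
    · subst hxj; simp [a2, a4, hj.1]
    have b1 := h5 l ν hl hνo
    have b2 : ∑ t ∈ ({i, j, x} : Finset ι), ((m l t : ℤ) - m ν t) ^ 2 ≤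
        ∑ t, ((m l t : ℤ) - m ν t) ^ 2 :=
      sum_le_sum_of_subset_of_nonneg (subset_univ _) fun _ _ _ => sq_nonneg _
    rw [sum_insert (by simp [Ne.symm hj.1, Ne.symm hxi]), sum_pair (Ne.symm hxj), a1, a2, a3, a4,
      b1] at b2
    have b3 : ((m l x : ℤ) - m ν x) ^ 2 ≤ 0 := by
      split_ifs at b2 <;> simp at b2 <;> linarith
    have b4 := pow_eq_zero_iff two_ne_zero |>.1 (le_antisymm b3 (sq_nonneg _))
    simp only [if_neg hxi, if_neg hxj]
    linarith
  by_contra hc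
  have := h5 μ μ' hμ.1 hμ'.1
  rw [if_neg hc, sum_eq_zero fun x _ => by rw [key μ hμ.1 hμ.2, key μ' hμ'.1 hμ'.2]; simp] at this
  norm_num at this

open H4.Irr H4.CABasic H4.CAChar H4.AbChar in
theorem char_lemma {Γ Ω : Type*} [Group Γ] [Finite Γ] [MulAction Γ Ω] [Finite Ω]
    [IsPretransitive Γ Ω] {A : Subgroup Γ} (hA : IsCA A) (hcard : Nat.card A = Nat.card Ω)
    (hreg : ∀ x ∈ A, x ≠ 1 → ∀ ω : Ω, x • ω ≠ ω) (a : Ω)
    (h3 : 3 ≤ Nat.card (orbitRel.Quotient (stabilizer Γ a) Ω)) :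
    Nat.card Ω - 1 ≤ (Nat.card (orbitRel.Quotient (stabilizer Γ a) Ω) - 1) *
      A.relIndex (Subgroup.normalizer (A : Set Γ)) := by
  classical
  haveI := Fintype.ofFinite Γ
  haveI := Fintype.ofFinite Ω
  haveI := finite_chars hA.comm'
  haveI := Fintype.ofFinite (A →* ℂˣ)
  obtain ⟨N, d, ρ, hρ⟩ := exists_irrSys Γ
  set π := (permRep ℂ Γ Ω).character with hπ
  have hπ' : ∀ g, π g = (Nat.card (fixedBy Ω g) : ℂ) := fun g => by
    rw [hπ, H1.PermChar.character_permRep]
  have hcl : ∀ g x, π (x * g * x⁻¹) = π g := fun g x => (permRep ℂ Γ Ω).char_conj g x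
  choose w hw using fun i => ip_char_nat (permRep ℂ Γ Ω) (ρ i)
  have hip : ∀ φ : Γ → ℂ, (∀ g, φ g⁻¹ = (starRingEnd ℂ) (φ g)) → ip π φ = classInner π φ := by
    intro φ hφ
    simp only [ip, classInner, hφ]
  have hr : (Nat.card (orbitRel.Quotient (stabilizer Γ a) Ω)) = ∑ i, w i * w i := by
    have := hρ.parseval π hcl π
    rw [hip π (fun g => by rw [hπ', hπ', fixedBy_inv, map_natCast]), hπ,
      H1.PermChar.classInner_self a] at this
    simp only [hw] at this
    exact_mod_cast this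
  obtain ⟨i₀, hi₀⟩ := exists_trivial hρ
  have hw₀ : w i₀ ≠ 0 := by
    have := hw i₀
    rw [hi₀, hip _ (fun g => by simp), hπ, H1.PermChar.classInner_one_of_transitive a] at this
    intro e
    rw [e] at this
    simp at this
  rw [hr] at h3 ⊢
  rw [← hcard, ← card_chars hA.comm', Nat.card_eq_fintype_card]
  refine core_count 1 (mult ρ) w orb _ (fun μ => ?_) (fun i => ?_) hw₀
    (fun μ => by convert mult_trivial hi₀ μ) (fun μ hμ => card_orb hA hμ)
    (fun μ ν hμ hν => by convert sum_sq_sub hρ hA hμ hν) h3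
  · have e1 : ((∑ i, w i * mult ρ μ i : ℕ) : ℂ) =
        (Nat.card A : ℂ)⁻¹ * ∑ k : A, (μ k : ℂ) * π ((k⁻¹ : A) : Γ) := by
      push_cast
      simp only [← mult_spec, ← hw, ← hρ.expand π hcl, ip.eq_def (G := A), mul_sum]
      rw [sum_comm]
      refine sum_congr (by convert rfl) fun k _ => sum_congr rfl fun i _ => ?_
      simp only [InvMemClass.coe_inv]
      ring
    rw [sum_eq_single (1 : A)] at e1
    · have : π 1 = Nat.card A := by
        rw [hπ', hcard, fixedBy_one_eq_univ, Nat.card_univ]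
      simp only [map_one, Units.val_one, inv_one, OneMemClass.coe_one, one_mul, this,
        inv_mul_cancel₀ (card_ne_zero A)] at e1
      exact_mod_cast e1
    · intro k _ hk
      have : fixedBy Ω ((k⁻¹ : A) : Γ) = ∅ :=
        Set.eq_empty_of_forall_notMem fun ω hω =>
          hreg _ (k⁻¹).2 (fun e => hk (inv_eq_one.1 (Subtype.ext e))) ω hω
      rw [hπ', this]; simp
    · simp
  · have := deg_eq_sum hρ hA i
    have h0 := hρ.pos i
    obtain ⟨μ, -, hμ⟩ := exists_ne_zero_of_sum_ne_zero (s := univ) (f := fun μ : A →* ℂˣ => mult ρ μ i)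
      (by rw [← this]; omega)
    exact ⟨μ, hμ⟩

/-- Orbit counting: a fixed point and all other orbits of length at least `e`. -/
theorem orbits_eq {H Ω : Type*} [Group H] [MulAction H Ω] [Finite Ω] (a : Ω) {e : ℕ}
    (hge : ∀ b, b ≠ a → e ≤ Nat.card (orbit H b)) (ha : ∀ h : H, h • a = a)
    (hle : Nat.card Ω - 1 ≤ (Nat.card (orbitRel.Quotient H Ω) - 1) * e) (b : Ω) (hb : b ≠ a) :
    Nat.card (orbit H b) = e := by
  classical
  haveI := Fintype.ofFinite (orbitRel.Quotient H Ω)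
  have h1 : Nat.card Ω = ∑ q : orbitRel.Quotient H Ω, Nat.card (orbit H q.out) := by
    rw [Nat.card_congr (selfEquivSigmaOrbits H Ω), Nat.card_sigma]
  set q₀ : orbitRel.Quotient H Ω := Quotient.mk'' a with hq₀
  have hout : ∀ c : Ω, orbit H (Quotient.mk'' c : orbitRel.Quotient H Ω).out = orbit H c :=
    fun c => orbit_eq_iff.2 (orbitRel_apply.1 (Quotient.mk_out' (s₁ := orbitRel H Ω) c))
  have h2 : ∀ q ∈ univ.erase q₀, e ≤ Nat.card (orbit H q.out) := by
    intro q hq
    refine hge _ fun e => ne_of_mem_erase hq ?_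
    rw [hq₀, ← e]
    exact (Quotient.out_eq' q).symm
  have h3 : 0 < Nat.card (orbit H q₀.out) := by
    haveI : Nonempty (orbit H q₀.out) := ⟨⟨_, mem_orbit_self _⟩⟩
    exact Nat.card_pos
  rw [← add_sum_erase _ _ (mem_univ q₀)] at h1
  have h4 : ∑ _q ∈ univ.erase q₀, e = (Nat.card (orbitRel.Quotient H Ω) - 1) * e := by
    rw [sum_const, card_erase_of_mem (mem_univ _), card_univ, Nat.card_eq_fintype_card, smul_eq_mul]
  have h5 := sum_le_sum h2
  have h6 := (sum_eq_sum_iff_of_le h2).1 (by omega) (Quotient.mk'' b) (by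
    simp only [mem_erase, mem_univ, and_true, hq₀]
    intro e
    obtain ⟨h, hh⟩ := orbitRel_apply.1 (Quotient.exact' e)
    exact hb (hh.symm.trans (ha h)))
  rw [hout] at h6
  exact h6.symm

end Cfsg.Agent.H3.Der
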