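import Cfsg.Agent.H3.DerBasic

set_option autoImplicit false
set_option linter.style.haveILetI false
set_option linter.unusedSectionVars false

/-! The counting argument when all suborbits of `D` have the same length. -/

namespace Cfsg.Agent.H3.Der

open MulAction Finset

variable {G Ω : Type*} [Group G] [MulAction G Ω] [Finite G] [Finite Ω] {D : Subgroup G}

theorem count_arith {n k e c f : ℕ} (h1 : (n - 1) * (e - 1) + k * e * (n - f) ≤ (n - 1) * (e - 1) * c)
    (h2 : k * e * c ≤ (n - 1) * (e - 1)) (h3 : f ≤ c) (h4 : k * e + 1 ≤ n) (h5 : n < (k + 1) ^ 2)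
    (he : 0 < e) (hk : 0 < k) (hf : f ≤ n) : False := by
  obtain ⟨n, rfl⟩ : ∃ m, n = m + 1 := ⟨n - 1, by omega⟩
  obtain ⟨e, rfl⟩ : ∃ m, e = m + 1 := ⟨e - 1, by omega⟩
  simp only [Nat.add_sub_cancel] at h1 h2
  obtain ⟨u, hu⟩ := Nat.exists_eq_add_of_le hf
  rw [hu, Nat.add_sub_cancel_left] at h1
  have a1 : k * (e + 1) * (n + 1) ≤ n * e * c := by
    have := Nat.mul_le_mul_left (k * (e + 1)) h3
    rw [hu]; nlinarith
  have a2 : k * (e + 1) < e * c := by
    by_contra hc
    have := Nat.mul_le_mul_left n (not_lt.1 hc)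
    have h0 : 0 < k * (e + 1) := by positivity
    nlinarith
  have a3 : e ≤ k := by
    by_contra hc
    have := Nat.mul_le_mul_left k (not_le.1 hc)
    nlinarith
  have a4 : (k * (e + 1)) * (k * (e + 1)) < e * (n * e) := by
    have h0 : 0 < k * (e + 1) := by positivity
    calc _ < (k * (e + 1)) * (e * c) := Nat.mul_lt_mul_of_pos_left a2 h0
      _ = e * (k * (e + 1) * c) := by ring
      _ ≤ _ := Nat.mul_le_mul_left _ h2
  have a5 : e * (k + 1) ≤ k * (e + 1) := by nlinarith
  have a6 := Nat.mul_le_mul a5 a5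
  have a7 : e * e * n ≤ e * e * (k + 1) ^ 2 := Nat.mul_le_mul_left _ (by omega)
  nlinarith

theorem Sit.count (h : Sit Ω D) {e : ℕ}
    (he : ∀ a b : Ω, a ≠ b → Nat.card (orbit (D ⊓ stabilizer G a : Subgroup G) b) = e)
    (hn : Nat.card Ω < (D.index + 1) ^ 2) {y : G} {a a' d₀ : Ω} (haa : a ≠ a') (ha : y • a = a)
    (ha' : y • a' = a') (hd : y • d₀ ≠ d₀) : False := by
  classical
  haveI := Fintype.ofFinite Ω
  have hy : y ∈ D := h.mem_of_two haa ha ha'
  set rel : Ω → Ω → Ω → Prop := fun c d d' => d ≠ d' ∧ ∃ x ∈ D, x • c = c ∧ x • d = d' with hrel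
  have hinv : ∀ (g : G) c d d', rel c d d' → rel (g • c) (g • d) (g • d') := by
    rintro g c d d' ⟨h1, x, hx, h2, h3⟩
    exact ⟨fun e => h1 (smul_left_cancel g e), g * x * g⁻¹, h.normal.conj_mem _ hx g,
      by rw [mul_smul, inv_smul_smul, mul_smul, h2], by rw [mul_smul, inv_smul_smul, mul_smul, h3]⟩
  have h1 : ∀ c d, (univ.filter fun d' => rel c d d').card = if c = d then 0 else e - 1 := by
    intro c d
    split_ifs with hcd
    · subst hcd
      rw [card_eq_zero, filter_eq_empty_iff]
      rintro d' - ⟨h1, x, -, h2, h3⟩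
      exact h1 (h2.symm.trans h3)
    · rw [← he c d hcd, Nat.card_eq_fintype_card, Fintype.card_subtype,
        ← card_erase_of_mem (a := d) (by simp [mem_orbit_self])]
      congr 1
      ext d'
      simp only [hrel, mem_filter, mem_univ, true_and, mem_erase, mem_orbit_sub, Subgroup.mem_inf,
        mem_stabilizer_iff, and_assoc, ne_comm]
  have hs : ∀ d : Ω, ∑ c, (if c = d then 0 else e - 1) = (Nat.card Ω - 1) * (e - 1) := by
    intro d
    rw [← sum_erase_add _ _ (mem_univ d), if_pos rfl, add_zero,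
      sum_congr rfl (g := fun _ => e - 1) (fun x hx => if_neg (ne_of_mem_erase hx)), sum_const,
      card_erase_of_mem (mem_univ _), card_univ, Nat.card_eq_fintype_card, smul_eq_mul]
  set E : Ω → Finset (Ω × Ω) := fun c => univ.filter fun p => rel c p.1 p.2 with hE
  set cc : Ω × Ω → ℕ := fun p => (univ.filter fun c => rel c p.1 p.2).card with hcc
  have h2 : (E a).card = (Nat.card Ω - 1) * (e - 1) := by
    rw [← hs a]
    simp only [hE, card_filter]
    rw [Fintype.sum_prod_type]
    refine sum_congr rfl fun d _ => ?_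
    rw [← card_filter, h1]
    simp only [eq_comm]
  have h3 : ∀ d, ∑ d', cc (d, d') = (Nat.card Ω - 1) * (e - 1) := by
    intro d
    rw [← hs d]
    simp only [hcc, card_filter]
    rw [sum_comm]
    refine sum_congr rfl fun c _ => ?_
    rw [← card_filter, h1]
  have hO : ∀ d d' : Ω, d ≠ d' →
      (univ.filter (· ∈ orbit (stabilizer G d) d')).card = D.index * e := by
    intro d d' hdd
    rw [← he d d' hdd, ← h.card_orbit_stab hdd, Nat.card_eq_fintype_card, Fintype.card_subtype]
  have h4 : ∀ p, D.index * e * cc p ≤ (Nat.card Ω - 1) * (e - 1) := by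
    rintro ⟨d, d'⟩
    by_cases hdd : d = d'
    · subst hdd
      have : cc (d, d) = 0 := by
        simp only [hcc, card_eq_zero, filter_eq_empty_iff]
        exact fun _ _ hh => hh.1 rfl
      rw [this]; simp
    rw [← h3 d, ← hO d d' hdd, ← smul_eq_mul, ← sum_const]
    refine le_trans (sum_le_sum fun x hx => ?_) (sum_le_sum_of_subset (subset_univ _))
    obtain ⟨g, hg, rfl⟩ := mem_orbit_sub.1 (by simpa using hx)
    refine card_le_card_of_injOn (fun c => g • c) (fun c hc => ?_) fun _ _ _ _ e =>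
      smul_left_cancel g e
    have := hinv g c d d' (by simpa using hc)
    rw [mem_stabilizer_iff.1 hg] at this
    simpa using this
  obtain ⟨p₀, -, hp₀⟩ := exists_max_image univ cc ⟨(a, a), mem_univ _⟩
  set f := (univ.filter fun c : Ω => y • c = c).card with hf
  have h6 : f ≤ cc p₀ := by
    refine le_trans (card_le_card fun c hc => ?_) (hp₀ (d₀, y • d₀) (mem_univ _))
    simp only [mem_filter, mem_univ, true_and] at hc ⊢
    exact ⟨hd.symm, y, hy, hc, rfl⟩
  have h7 : ∑ c, (E a ∩ E c).card ≤ (Nat.card Ω - 1) * (e - 1) * cc p₀ := by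
    have : ∀ c, (E a ∩ E c).card = ∑ p ∈ E a, if rel c p.1 p.2 then 1 else 0 := by
      intro c
      rw [← card_filter]
      congr 1
      ext p
      simp [hE]
    simp only [this]
    rw [sum_comm, ← h2, ← smul_eq_mul, ← sum_const]
    refine sum_le_sum fun p _ => ?_
    rw [← card_filter]
    exact hp₀ p (mem_univ _)
  have hfn := card_filter_add_card_filter_not (s := (univ : Finset Ω)) (fun c => y • c = c)
  rw [card_univ, ← Nat.card_eq_fintype_card, ← hf] at hfn
  have h8 : ∀ c ∈ univ.filter (· ∈ orbit (stabilizer G a) a'),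
      Nat.card Ω - f ≤ (E a ∩ E c).card := by
    intro c hc
    obtain ⟨g, hg, rfl⟩ := mem_orbit_sub.1 (by simpa using hc)
    rw [← hfn, Nat.add_sub_cancel_left]
    refine card_le_card_of_injOn (fun d => (g • d, g • y • d)) (fun d hd => ?_) fun _ _ _ _ e =>
      smul_left_cancel g (congrArg Prod.fst e)
    have hd' : d ≠ y • d := fun e => (by simpa using hd : ¬ y • d = d) e.symm
    have e1 := hinv g a d (y • d) ⟨hd', y, hy, ha, rfl⟩
    have e2 := hinv g a' d (y • d) ⟨hd', y, hy, ha', rfl⟩
    rw [mem_stabilizer_iff.1 hg] at e1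
    simp only [hE, coe_inter, coe_filter, mem_univ, true_and, Set.mem_inter_iff, Set.mem_ofPred_eq]
    exact ⟨e1, e2⟩
  have hna : a ∉ univ.filter (· ∈ orbit (stabilizer G a) a') := by
    intro hc
    obtain ⟨g, hg, e'⟩ := mem_orbit_sub.1 (by simpa using hc)
    exact haa (by rw [← mem_stabilizer_iff.1 (Subgroup.inv_mem _ hg), ← e', inv_smul_smul])
  have h9 : (Nat.card Ω - 1) * (e - 1) + D.index * e * (Nat.card Ω - f) ≤ ∑ c, (E a ∩ E c).card := by
    refine le_trans ?_ (sum_le_sum_of_subset (subset_univ (insert a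
      (univ.filter (· ∈ orbit (stabilizer G a) a')))))
    rw [sum_insert hna, inter_self, h2, ← hO a a' haa, ← smul_eq_mul _ (Nat.card Ω - f),
      ← sum_const]
    exact Nat.add_le_add_left (sum_le_sum h8) _
  have h10 := card_orbit_stab_le (G := G) haa
  rw [h.card_orbit_stab haa, he a a' haa] at h10
  refine count_arith (h9.trans h7) (h4 p₀) h6 h10 hn ?_ (Nat.pos_of_ne_zero Subgroup.index_ne_zero_of_finite)
    (by omega)
  rw [← he a a' haa]
  exact card_orbit_pos _ _

end Cfsg.Agent.H3.Der
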