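import Cfsg.Agent.H3.DerCount
import Cfsg.Agent.H3.DerChar
import Cfsg.Agent.H3.RelSyl

set_option autoImplicit false
set_option linter.style.haveILetI false
set_option linter.unusedSectionVars false

/-! The inductive step when the minimal normal subgroup is not a `t`-group. -/

namespace Cfsg.Agent.H3.Der

open MulAction RelSyl

variable {G Ω : Type*} [Group G] [MulAction G Ω] [Finite G] [Finite Ω] {D : Subgroup G}

theorem Sit.sub_trans (h : Sit Ω D) (hn : Nat.card Ω < (D.index + 1) ^ 2) {M : Subgroup G}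
    (hM : M ⊔ D = ⊤) {m₀ : G} (hm : m₀ ∈ M) (hD : m₀ ∉ D) {a : Ω} (ha : m₀ • a = a)
    {P : Subgroup G} (hP : M ≤ Subgroup.normalizer (P : Set G)) {x : G} (hx : x ∈ P) (hxM : x ∈ M)
    (hxa : x • a ≠ a) {c : Ω} (hc : c ∈ orbit M a) : ∃ y ∈ P, y • a = c := by
  haveI := h.normal
  haveI := Subgroup.normal_subgroupOf_of_le_normalizer hP
  obtain ⟨y, hy, e⟩ := (h.sub M hm hD ha).normal_trans
    (fun e => hD (Subgroup.subgroupOf_eq_top.1 e hm))
    (lt_of_le_of_lt (card_orbit_le M a) (by rwa [← relIndex_of_sup hM] at hn))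
    (P.subgroupOf M) (x := ⟨x, hxM⟩) hx (a := ⟨a, mem_orbit_self a⟩)
    (fun e => hxa (congrArg Subtype.val e)) ⟨a, mem_orbit_self a⟩ ⟨c, hc⟩
  exact ⟨y, hy, congrArg Subtype.val e⟩

theorem sup_top_of_le {A B N : Subgroup G} (hA : A ⊔ D = ⊤) (hND : N ≤ D) (h : A ≤ B ⊔ N) :
    B ⊔ D = ⊤ :=
  top_le_iff.1 (hA.ge.trans (sup_le (h.trans (sup_le_sup_left hND _)) le_sup_right))

theorem Sit.tpart (h : Sit Ω D) (hD : D ≠ ⊤) (hn : Nat.card Ω < (D.index + 1) ^ 2)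
    {N : Subgroup G} [hN : N.Normal] (hND : N ≤ D) (htr : ∀ b c : Ω, ∃ y ∈ N, y • b = c)
    (a : Ω) {t : ℕ} [ht : Fact t.Prime] (hdvd : t ∣ Nat.card Ω) :
    ∃ j, t ^ j ∣ Nat.card Ω ∧ D.index + 1 ≤ t ^ j := by
  have hrel : ∀ b : Ω, (stabilizer G b ⊓ N).relIndex N = Nat.card Ω := fun b => by
    rw [Subgroup.inf_relIndex_right, ← card_orbit, card_orbit_of_trans (htr b)]
  obtain ⟨Q, hQ, -⟩ := exists_isSyl (t := t) (K := stabilizer G a ⊓ N) bot_le IsPGroup.of_bot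
  have h1 := hQ.frattini_sup (H := stabilizer G a) inf_le_left fun g hg x hx =>
    ⟨Subgroup.mul_mem _ (Subgroup.mul_mem _ hg hx.1) (Subgroup.inv_mem _ hg), hN.conj_mem _ hx.2 g⟩
  have h2 := sup_top_of_le (h.stab_sup a) (inf_le_right.trans hND) h1
  obtain ⟨m₀, ⟨hm1, hm2⟩, hmD⟩ := h.exists_notMem hD h2
  set M := Subgroup.normalizer (Q : Set G) with hM
  have hMD : M ⊔ D = ⊤ := sup_top_of_le h2 le_rfl (inf_le_right.trans le_sup_left)
  have hQM : Q ≤ N ⊓ M := le_inf (hQ.le.trans inf_le_right) Subgroup.le_normalizer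
  obtain ⟨P, hP, hQP⟩ := exists_isSyl hQM hQ.pg
  have hPQ : ¬ P ≤ Q := by
    intro hle
    obtain ⟨S, hS, hQS⟩ := exists_isSyl (hQ.le.trans inf_le_right) hQ.pg
    have hSQ : ¬ S ≤ Q := fun e => hS.not_dvd (by
      rw [le_antisymm e hQS, ← Subgroup.relIndex_mul_relIndex _ _ _ hQ.le inf_le_right, hrel]
      exact hdvd.mul_left _)
    obtain ⟨x, hx1, hx2, hx3⟩ := exists_mem_normalizer hS.pg hQS hSQ
    exact hx2 (hle (hP.max (S ⊓ M) (inf_le_inf_right _ hS.le) hS.pg.to_inf_left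
      (le_inf (hle.trans hQS) (hP.le.trans inf_le_right)) ⟨hx1, hx3⟩))
  have h3 := hP.frattini_sup (H := M) inf_le_right fun g hg x hx =>
    ⟨hN.conj_mem _ hx.1 g, Subgroup.mul_mem _ (Subgroup.mul_mem _ hg hx.2) (Subgroup.inv_mem _ hg)⟩
  have h4 := sup_top_of_le hMD (inf_le_left.trans hND) h3
  obtain ⟨l, ⟨hl1, hl2⟩, hlD⟩ := h.exists_notMem hD h4
  obtain ⟨b, hb, hlb⟩ := h.fix_orbit M hm2 hmD hm1 hl1 hlD
  obtain ⟨m, hmM, rfl⟩ := mem_orbit_sub.1 hb
  have hQb : IsSyl t (stabilizer G (m • a) ⊓ N) Q := hQ.conj m (fun x => by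
    simp only [Subgroup.mem_inf, mem_stabilizer_iff, mul_smul, inv_smul_smul, smul_left_cancel_iff]
    exact and_congr_right fun _ => ⟨fun e => hN.conj_mem _ e m, fun e => by
      simpa [mul_assoc] using hN.conj_mem _ e m⁻¹⟩) hmM
  have hPb : stabilizer G (m • a) ⊓ P = Q := le_antisymm
    (hQb.max _ (inf_le_inf_left _ (hP.le.trans inf_le_left)) hP.pg.to_inf_right
      (le_inf (hQb.le.trans inf_le_left) hQP)) (le_inf (hQb.le.trans inf_le_left) hQP)
  obtain ⟨x, hx, hxQ⟩ := SetLike.not_le_iff_exists.1 hPQ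
  have hxb : x • m • a ≠ m • a := fun e => hxQ (hPb ▸ ⟨e, hx⟩)
  have h5 : Subgroup.normalizer (P : Set G) ⊔ D = ⊤ :=
    sup_top_of_le h4 le_rfl (inf_le_right.trans le_sup_left)
  have h6 := h.sub_index_lt h5 hl2 hlD hlb (Subgroup.le_normalizer hx) hxb
  have h7 : Nat.card (orbit (Subgroup.normalizer (P : Set G)) (m • a)) ≤
      Nat.card (orbit P (m • a)) := Nat.card_mono (Set.toFinite _) fun c hc =>
    mem_orbit_sub.2 (h.sub_trans hn h5 hl2 hlD hlb le_rfl hx (Subgroup.le_normalizer hx) hxb hc)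
  rw [card_orbit P, ← Subgroup.inf_relIndex_right, hPb] at h7
  obtain ⟨j, hj⟩ := hP.pg.index (Q.subgroupOf P)
  have hj' : Q.relIndex P = t ^ j := hj
  refine ⟨j, ?_, by omega⟩
  have h8 : t ^ j ∣ Q.relIndex (stabilizer G (m • a) ⊓ N) * Nat.card Ω := by
    rw [← hj', ← hrel (m • a), Subgroup.relIndex_mul_relIndex _ _ _ hQb.le inf_le_right,
      ← Subgroup.relIndex_mul_relIndex _ _ _ hQP (hP.le.trans inf_le_left)]
    exact dvd_mul_right _ _
  exact (Nat.Coprime.pow_left _ ((Nat.Prime.coprime_iff_not_dvd ht.out).2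
    hQb.not_dvd)).dvd_of_dvd_mul_left h8

theorem Sit.primePow (h : Sit Ω D) (hD : D ≠ ⊤) (hn : Nat.card Ω < (D.index + 1) ^ 2)
    {N : Subgroup G} [hN : N.Normal] (hND : N ≤ D) (htr : ∀ b c : Ω, ∃ y ∈ N, y • b = c)
    {a a' : Ω} (haa : a ≠ a') : ∃ t j : ℕ, t.Prime ∧ Nat.card Ω = t ^ j := by
  have h1 : 1 < Nat.card Ω := Finite.one_lt_card_iff_nontrivial.2 ⟨a, a', haa⟩
  have ht := Nat.minFac_prime h1.ne'
  refine ⟨_, _, ht, Nat.eq_prime_pow_of_unique_prime_dvd (by omega) fun {s} hs hd => ?_⟩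
  by_contra hne
  haveI := Fact.mk ht
  haveI := Fact.mk hs
  obtain ⟨i, a1, a2⟩ := h.tpart hD hn hND htr a (Nat.minFac_dvd _)
  obtain ⟨j, b1, b2⟩ := h.tpart hD hn hND htr a hd
  have := Nat.le_of_dvd (by omega) (Nat.Coprime.mul_dvd_of_dvd_of_dvd
    (Nat.Coprime.pow _ _ ((Nat.coprime_primes hs ht).2 hne)) b1 a1)
  have := Nat.mul_le_mul b2 a2
  rw [sq] at hn
  omega

/-- An abelian transitive subgroup of a faithful action is self-centralising and regular. -/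
theorem eq_one_of_comm [FaithfulSMul G Ω] {P : Subgroup G} {a : Ω} (htr : ∀ c, ∃ y ∈ P, y • a = c)
    {g : G} (hg : ∀ y ∈ P, y * g = g * y) (ha : g • a = a) : g = 1 :=
  eq_of_smul_eq_smul (α := Ω) fun c => by
    obtain ⟨y, hy, rfl⟩ := htr c
    rw [← mul_smul, ← hg y hy, mul_smul, ha, one_smul]

theorem mem_of_comm [FaithfulSMul G Ω] {P : Subgroup G} {a : Ω} (htr : ∀ c, ∃ y ∈ P, y • a = c)
    (hc : ∀ x ∈ P, ∀ y ∈ P, x * y = y * x) {g : G} (hg : ∀ y ∈ P, y * g = g * y) : g ∈ P := by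
  obtain ⟨z, hz, e⟩ := htr (g • a)
  have := eq_one_of_comm htr (g := z⁻¹ * g) (fun y hy => by
    rw [← mul_assoc, hc y hy _ (P.inv_mem hz), mul_assoc, hg y hy, mul_assoc])
    (by rw [mul_smul, ← e, inv_smul_smul])
  rw [← inv_mul_eq_one.1 this]; exact hz

theorem card_eq_of_comm [FaithfulSMul G Ω] {P : Subgroup G} {a : Ω}
    (htr : ∀ c, ∃ y ∈ P, y • a = c) (hc : ∀ x ∈ P, ∀ y ∈ P, x * y = y * x) :
    Nat.card P = Nat.card Ω := by
  have : stabilizer G a ⊓ P = ⊥ :=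
    eq_bot_iff.2 fun g hg => eq_one_of_comm htr (fun y hy => hc y hy g hg.2) hg.1
  rw [← card_stab_mul P a, this, Subgroup.card_bot, one_mul, card_orbit_of_trans htr]

theorem relIndex_normal_dvd (S K : Subgroup G) [K.Normal] : S.relIndex K ∣ S.index := by
  have h1 := Subgroup.relIndex_mul_relIndex (S ⊓ K) K (S ⊔ K) inf_le_right le_sup_right
  have h2 := Subgroup.relIndex_mul_relIndex (S ⊓ K) S (S ⊔ K) inf_le_left le_sup_left
  rw [Subgroup.inf_relIndex_right, Subgroup.relIndex_sup_right, ← h2,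
    Subgroup.inf_relIndex_left, mul_comm] at h1
  rw [Nat.eq_of_mul_eq_mul_left (Nat.pos_of_ne_zero Subgroup.index_ne_zero_of_finite) h1]
  exact Subgroup.relIndex_dvd_index_of_le le_sup_left

/-- A regular abelian `t`-subgroup with Frobenius normaliser is a CA-subgroup. -/
theorem cent_le [FaithfulSMul G Ω] {t j : ℕ} [ht : Fact t.Prime] (hn : Nat.card Ω = t ^ j)
    {P : Subgroup G} (hp : IsPGroup t P) (htr : ∀ a c : Ω, ∃ y ∈ P, y • a = c)
    (hc : ∀ x ∈ P, ∀ y ∈ P, x * y = y * x)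
    (hF : ∀ y ∈ Subgroup.normalizer (P : Set G), ∀ b b' : Ω, b ≠ b' → y • b = b → y • b' = b' →
      y = 1) (a : Ω) {x : G} (hx : x ∈ P) (hx1 : x ≠ 1) {g : G} (hg : g * x = x * g) : g ∈ P := by
  set C := Subgroup.centralizer ({x} : Set G) with hC
  have hPC : P ≤ C := fun y hy => Subgroup.mem_centralizer_singleton_iff.2 (hc y hy x hx)
  have hNC : ∀ g ∈ C, g ∈ Subgroup.normalizer (P : Set G) → g ∈ P := by
    intro g hg hgN
    obtain ⟨z, hz, e⟩ := htr a (g • a)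
    have e1 : (z⁻¹ * g) • a = a := by rw [mul_smul, ← e, inv_smul_smul]
    have := hF (z⁻¹ * g) (Subgroup.mul_mem _ (Subgroup.le_normalizer (P.inv_mem hz)) hgN) a (x • a)
      (fun e => hx1 (eq_one_of_comm (htr a) (fun y hy => hc y hy x hx) e.symm)) e1 (by
        rw [← mul_smul, Subgroup.mem_centralizer_singleton_iff.1
          (C.mul_mem (hPC (P.inv_mem hz)) hg), mul_smul, e1])
    rw [← inv_mul_eq_one.1 this]; exact hz
  have hS : IsSyl t C P := ⟨hPC, hp, fun S h1 h2 h3 => by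
    by_contra hne
    obtain ⟨y, a1, a2, a3⟩ := exists_mem_normalizer h2 h3 hne
    exact a2 (hNC y (h1 a1) a3)⟩
  have hB : Subgroup.normalizer ((hS.toSylow : Subgroup C) : Set C) ≤
      Subgroup.centralizer ((hS.toSylow : Subgroup C) : Set C) := by
    intro y hy
    have : y ∈ Subgroup.normalizer ((P.subgroupOf C : Subgroup C) : Set C) := hy
    rw [← Subgroup.subgroupOf_normalizer_eq hPC] at this
    exact fun z hz => Subtype.ext (hc z hz y (hNC y y.2 this))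
  set K := (MonoidHom.transferSylow hS.toSylow hB).ker with hK
  have hKc := MonoidHom.ker_transferSylow_isComplement' hS.toSylow hB
  have hKn := MonoidHom.not_dvd_card_ker_transferSylow hS.toSylow hB
  haveI : IsPretransitive C Ω := ⟨fun b c => by
    obtain ⟨y, hy, e⟩ := htr b c
    exact ⟨⟨y, hPC hy⟩, e⟩⟩
  have hK1 : ∀ k ∈ K, k = 1 := by
    intro k hk
    refine Subtype.ext (eq_of_smul_eq_smul (α := Ω) fun b => ?_)
    have d1 : (stabilizer C b).relIndex K ∣ Nat.card K := Subgroup.relIndex_dvd_card _ _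
    have d2 : (stabilizer C b).relIndex K ∣ t ^ j := by
      rw [← hn, ← index_stabilizer_of_transitive C b]
      exact relIndex_normal_dvd _ _
    have d3 := Nat.eq_one_of_dvd_coprimes (Nat.Coprime.pow_left j
      ((Nat.Prime.coprime_iff_not_dvd ht.out).2 hKn)) d2 d1
    rw [OneMemClass.coe_one, one_smul]
    exact Subgroup.relIndex_eq_one.1 d3 hk
  obtain ⟨⟨k, p⟩, e, -⟩ := hKc.existsUnique ⟨g, Subgroup.mem_centralizer_singleton_iff.2 hg⟩
  have e' : (k : C) * p = ⟨g, _⟩ := e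
  rw [hK1 k k.2, one_mul] at e'
  have := p.2
  rw [e'] at this
  exact this

/-- The induction hypothesis: proper supplements act as Frobenius groups on their orbit. -/
def IH (Ω : Type*) [MulAction G Ω] (D : Subgroup G) : Prop :=
  ∀ M : Subgroup G, M ≠ ⊤ → M ⊔ D = ⊤ → ∀ m₀ ∈ M, m₀ ∉ D → ∀ a : Ω, m₀ • a = a →
    ∀ y ∈ M, ∀ b ∈ orbit M a, ∀ b' ∈ orbit M a, b ≠ b' → y • b = b → y • b' = b' →
      ∀ d ∈ orbit M a, y • d = d

open H4.CABasic in
theorem Sit.suborbit [FaithfulSMul G Ω] (h : Sit Ω D) (hk : 2 ≤ D.index) {P : Subgroup G}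
    (hPD : P ≤ D) (htr : ∀ a c : Ω, ∃ y ∈ P, y • a = c) (hc : ∀ x ∈ P, ∀ y ∈ P, x * y = y * x)
    (hF : ∀ y ∈ Subgroup.normalizer (P : Set G), ∀ b b' : Ω, b ≠ b' → y • b = b → y • b' = b' →
      y = 1) (hCA : ∀ x ∈ P, x ≠ 1 → ∀ g, g * x = x * g → g ∈ P) {a b : Ω} (hab : a ≠ b) :
    Nat.card (orbit (D ⊓ stabilizer G a : Subgroup G) b) =
      P.relIndex (D ⊓ Subgroup.normalizer (P : Set G)) := by
  haveI : IsPretransitive D Ω := ⟨fun b c => by
    obtain ⟨y, hy, e⟩ := htr b c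
    exact ⟨⟨y, hPD hy⟩, e⟩⟩
  have hreg : ∀ x ∈ P, x ≠ 1 → ∀ ω : Ω, x • ω ≠ ω := fun x hx h1 ω e =>
    h1 (eq_one_of_comm (htr ω) (fun y hy => hc y hy x hx) e)
  have hA : IsCA (P.subgroupOf D) := by
    refine ⟨fun e => ?_, fun x hx hx1 g => ⟨fun e => hCA x hx (fun e => hx1 (Subtype.ext e)) g
      (congrArg Subtype.val e), fun hg => Subtype.ext (hc g hg x hx)⟩⟩
    obtain ⟨y, hy, e'⟩ := htr a b
    have : (⟨y, hPD hy⟩ : D) ∈ P.subgroupOf D := hy
    rw [e] at this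
    rw [show y = 1 from congrArg Subtype.val this, one_smul] at e'
    exact hab e'
  have horb : ∀ c : Ω, orbit (stabilizer D a) c = orbit (D ⊓ stabilizer G a : Subgroup G) c := by
    intro c
    ext d
    rw [mem_orbit_sub, mem_orbit_sub]
    exact ⟨fun ⟨x, hx, e⟩ => ⟨x, ⟨x.2, hx⟩, e⟩, fun ⟨x, hx, e⟩ => ⟨⟨x, hx.1⟩, hx.2, e⟩⟩
  have hcP := card_eq_of_comm (htr a) hc
  set M := D ⊓ Subgroup.normalizer (P : Set G) with hM
  have hPM : P ≤ M := le_inf hPD Subgroup.le_normalizer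
  have he : (P.subgroupOf D).relIndex (Subgroup.normalizer ((P.subgroupOf D : Subgroup D) : Set D)) =
      P.relIndex M := by
    rw [← Subgroup.subgroupOf_normalizer_eq hPD, 
      ← Subgroup.inf_subgroupOf_left (Subgroup.normalizer (P : Set G)),
      Subgroup.relIndex_subgroupOf inf_le_left]
  have hR : Nat.card (stabilizer G a ⊓ M : Subgroup G) = P.relIndex M := by
    have e1 := card_stab_mul M a
    have e2 := card_inf_mul_relIndex P M
    rw [card_orbit_of_trans fun c => (htr a c).imp fun y hy => ⟨hPM hy.1, hy.2⟩] at e1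
    rw [inf_eq_left.2 hPM, hcP, ← e1, mul_comm] at e2
    haveI : Nonempty Ω := ⟨a⟩
    exact (Nat.eq_of_mul_eq_mul_right Nat.card_pos e2).symm
  have hge : ∀ c, c ≠ a → P.relIndex M ≤ Nat.card (orbit (stabilizer D a) c) := by
    intro c hca
    have e1 := card_stab_mul (stabilizer G a ⊓ M) c
    have : stabilizer G c ⊓ (stabilizer G a ⊓ M) = ⊥ :=
      eq_bot_iff.2 fun g hg => hF g hg.2.2.2 c a hca hg.1 hg.2.1
    rw [this, Subgroup.card_bot, one_mul, hR] at e1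
    rw [← e1, horb]
    exact Nat.card_mono (Set.toFinite _) fun d hd => by
      obtain ⟨x, hx, e⟩ := mem_orbit_sub.1 hd
      exact mem_orbit_sub.2 ⟨x, ⟨hx.2.1, hx.1⟩, e⟩
  have hfa : ∀ c : Ω, c ∈ orbit (stabilizer D a) a → c = a := by
    rintro c ⟨x, rfl⟩
    exact x.2
  have h3 : 3 ≤ Nat.card (orbitRel.Quotient (stabilizer D a) Ω) := by
    obtain ⟨c, hc1, hc2⟩ : ∃ c ∈ orbit (stabilizer G a) b,
        c ∉ orbit (D ⊓ stabilizer G a : Subgroup G) b := by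
      by_contra hcon
      push Not at hcon
      have e1 := Nat.card_mono (Set.toFinite _) (fun c hc => hcon c hc :
        orbit (stabilizer G a) b ⊆ orbit (D ⊓ stabilizer G a : Subgroup G) b)
      rw [h.card_orbit_stab hab] at e1
      have := card_orbit_pos (D ⊓ stabilizer G a : Subgroup G) b
      nlinarith
    have hca : c ≠ a := fun e => by
      obtain ⟨g, hg, e'⟩ := mem_orbit_sub.1 hc1
      exact hab (by rw [← mem_stabilizer_iff.1 (Subgroup.inv_mem _ hg), ← e, ← e', inv_smul_smul])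
    haveI := Fintype.ofFinite (orbitRel.Quotient (stabilizer D a) Ω)
    rw [Nat.card_eq_fintype_card]
    refine Fintype.two_lt_card_iff.2 ⟨Quotient.mk'' a, Quotient.mk'' b, Quotient.mk'' c,
      fun e => hab (hfa b (orbitRel_apply.1 (Quotient.exact' e.symm))).symm,
      fun e => hca (hfa c (orbitRel_apply.1 (Quotient.exact' e.symm))),
      fun e => hc2 (horb b ▸ orbitRel_apply.1 (Quotient.exact' e.symm))⟩
  have h4 := char_lemma hA (by
      rw [← hcP]; exact Nat.card_congr (Subgroup.subgroupOfEquivOfLe hPD).toEquiv)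
    (fun x hx h1 => hreg x hx fun e => h1 (Subtype.ext e)) a h3
  rw [he] at h4
  rw [← horb]
  exact orbits_eq a hge (fun x => x.2) h4 b hab.symm

theorem Sit.nonaffine [FaithfulSMul G Ω] (h : Sit Ω D) (hk : 2 ≤ D.index)
    (hn : Nat.card Ω < (D.index + 1) ^ 2) (hIH : IH Ω D) {N : Subgroup G} [hN : N.Normal]
    (hND : N ≤ D) (htr : ∀ b c : Ω, ∃ y ∈ N, y • b = c)
    (hmin : ∀ K : Subgroup G, K.Normal → K ≠ ⊥ → K ≤ N → N ≤ K)
    (hnc : ¬ ∀ x ∈ N, ∀ y ∈ N, x * y = y * x) {y : G} {a a' d₀ : Ω} (haa : a ≠ a')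
    (ha : y • a = a) (ha' : y • a' = a') (hd : y • d₀ ≠ d₀) : False := by
  have hD : D ≠ ⊤ := fun e => by rw [e, Subgroup.index_top] at hk; omega
  obtain ⟨t, j, ht, hj⟩ := h.primePow hD hn hND htr haa
  haveI := Fact.mk ht
  obtain ⟨P, hP, -⟩ := exists_isSyl (t := t) (K := N) bot_le IsPGroup.of_bot
  haveI : IsPretransitive N Ω := ⟨fun b c => by
    obtain ⟨y, hy, e⟩ := htr b c
    exact ⟨⟨y, hy⟩, e⟩⟩
  have hPt : ∀ b c : Ω, ∃ y ∈ P, y • b = c := fun b c => by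
    obtain ⟨x, e⟩ := (H1.Basic.sylow_isPretransitive hj hP.toSylow).exists_smul_eq b c
    exact ⟨x.1, x.2, e⟩
  have hZ : ∃ z ∈ P, z ≠ 1 ∧ ∀ x ∈ P, x * z = z * x := by
    obtain ⟨x, hx, e⟩ := hPt a a'
    haveI : Nontrivial P := ⟨⟨x, hx⟩, 1, fun e' => haa (by
      rw [show x = 1 from congrArg Subtype.val e', one_smul] at e; exact e)⟩
    haveI := hP.pg.center_nontrivial
    obtain ⟨z, hz⟩ := exists_ne (1 : Subgroup.center P)
    exact ⟨z.1, z.1.2, fun e => hz (Subtype.ext (Subtype.ext e)), fun x hx =>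
      congrArg Subtype.val (Subgroup.mem_center_iff.1 z.2 ⟨x, hx⟩)⟩
  obtain ⟨z, hzP, hz1, hz⟩ := hZ
  set M := Subgroup.normalizer (P : Set G) with hM
  have hMD : M ⊔ D = ⊤ := sup_top_of_le (A := ⊤) (top_sup_eq _) hND
    ((hP.frattini_sup le_top fun g _ x hx => hN.conj_mem x hx g).trans
      (sup_le_sup_right inf_le_right _))
  have hMt : M ≠ ⊤ := by
    intro e
    haveI : P.Normal := Subgroup.normalizer_eq_top_iff.1 e
    have := hmin (P ⊓ Subgroup.centralizer P) inferInstance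
      (fun e => hz1 (Subgroup.mem_bot.1 (e ▸ ⟨hzP, hz⟩))) (inf_le_left.trans hP.le)
    exact hnc fun x hx y hy => (this hy).2 x (this hx).1
  obtain ⟨m₀, hm, hmD⟩ := h.exists_notMem hD hMD
  obtain ⟨b, hb⟩ := h.fix m₀ hmD
  have hO : ∀ c, c ∈ orbit M b := fun c =>
    mem_orbit_sub.2 ((hPt b c).imp fun y hy => ⟨Subgroup.le_normalizer hy.1, hy.2⟩)
  have hF : ∀ y ∈ M, ∀ c c' : Ω, c ≠ c' → y • c = c → y • c' = c' → y = 1 :=
    fun y hy c c' h1 h2 h3 => eq_of_smul_eq_smul (α := Ω) fun d => by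
      rw [hIH M hMt hMD m₀ hm hmD b hb y hy c (hO c) c' (hO c') h1 h2 h3 d (hO d), one_smul]
  have hZt : ∀ c, ∃ y ∈ P ⊓ Subgroup.centralizer P, y • b = c := fun c =>
    h.sub_trans hn hMD hm hmD hb (P := P ⊓ Subgroup.centralizer P)
      (fun g hg => Subgroup.mem_normalizer_fintype fun x hx => ⟨(hg x).1 hx.1, fun w hw => by
        have := hx.2 _ ((Subgroup.inv_mem _ hg w).1 hw)
        calc w * (g * x * g⁻¹) = g * (g⁻¹ * w * g⁻¹⁻¹ * x) * g⁻¹ := by group
          _ = _ := by rw [this]; group⟩)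
      ⟨hzP, hz⟩ (Subgroup.le_normalizer hzP) (fun e => hz1 (eq_one_of_comm (hPt b) hz e)) (hO c)
  have hc : ∀ x ∈ P, ∀ y ∈ P, x * y = y * x := fun x hx y hy =>
    (mem_of_comm hZt (fun u hu v hv => hv.2 u hu.1) (g := y) fun w hw => (hw.2 y hy).symm).2 x hx
  exact h.count (fun c c' hcc => h.suborbit hk (hP.le.trans hND) hPt hc hF
    (fun x hx h1 g hg => cent_le hj hP.pg hPt hc hF a hx h1 hg) hcc) hn haa ha ha' hd

end Cfsg.Agent.H3.Der
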