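import Cfsg.Agent.H3.DerMain1
import Cfsg.Agent.H3.DerAff4

set_option autoImplicit false
set_option linter.style.haveILetI false
set_option linter.unusedSectionVars false

/-! The affine step and the induction. -/

namespace Cfsg.Agent.H3.Der

open MulAction RelSyl

section
variable {G Ω : Type*} [Group G] [MulAction G Ω] [Finite G] [Finite Ω] {D : Subgroup G}

theorem Sit.affine [FaithfulSMul G Ω] (h : Sit Ω D) (hD : D ≠ ⊤) (hIH : IH Ω D)
    {N : Subgroup G} [hN : N.Normal] (htr : ∀ b c : Ω, ∃ y ∈ N, y • b = c)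
    (hmin : ∀ K : Subgroup G, K.Normal → K ≠ ⊥ → K ≤ N → N ≤ K)
    (hc : ∀ x ∈ N, ∀ y ∈ N, x * y = y * x) {r : ℕ} [hr : Fact r.Prime] {y : G}
    (hyr : orderOf y = r) {a a' : Ω} (haa : a ≠ a') (ha : y • a = a) (ha' : y • a' = a') :
    Good (Nat.card Ω) D.index := by
  haveI := h.normal
  have hy1 : y ≠ 1 := fun e => hr.out.one_lt.ne' (by rw [← hyr, e, orderOf_one])
  have hreg : ∀ x ∈ N, x • a = a → x = 1 := fun x hx e =>
    eq_one_of_comm (htr a) (fun y hy => hc y hy x hx) e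
  have hyD : y ∈ D := h.mem_of_two haa ha ha'
  obtain ⟨X, hX, hyX⟩ := exists_isSyl (t := r) (K := D ⊓ stabilizer G a)
    (S := Subgroup.zpowers y) (Subgroup.zpowers_le_of_mem ⟨hyD, ha⟩)
    (IsPGroup.of_card (n := 1) (by rw [Nat.card_zpowers, hyr, pow_one]))
  have hyX' : y ∈ X := hyX (Subgroup.mem_zpowers y)
  have h1 := hX.frattini_sup (H := stabilizer G a) inf_le_right fun g hg x hx =>
    ⟨h.normal.conj_mem _ hx.1 g,
      Subgroup.mul_mem _ (Subgroup.mul_mem _ hg hx.2) (Subgroup.inv_mem _ hg)⟩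
  have h2 := sup_top_of_le (h.stab_sup a) inf_le_left h1
  obtain ⟨m₀, hm, hmD⟩ := h.exists_notMem hD h2
  set L := stabilizer G a ⊓ Subgroup.normalizer (X : Set G) with hL
  have hO : ∀ c, c ∈ orbit (N ⊔ L : Subgroup G) a := fun c =>
    mem_orbit_sub.2 ((htr a c).imp fun y hy => ⟨Subgroup.mem_sup_left hy.1, hy.2⟩)
  have hM : N ⊔ L = ⊤ := by
    by_contra hne
    refine hy1 (eq_of_smul_eq_smul (α := Ω) fun d => ?_)
    rw [hIH _ hne (sup_top_of_le h2 le_rfl (le_sup_right.trans le_sup_left)) m₀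
      (Subgroup.mem_sup_right hm) hmD a hm.1 y
      (Subgroup.mem_sup_right ⟨ha, Subgroup.le_normalizer hyX'⟩) a (hO a) a' (hO a') haa ha ha'
      d (hO d), one_smul]
  have hXn : stabilizer G a ≤ Subgroup.normalizer (X : Set G) := by
    intro g hg
    have : g ∈ ((N ⊔ L : Subgroup G) : Set G) := by rw [hM]; trivial
    rw [Subgroup.normal_mul] at this
    obtain ⟨n, hn, l, hl, rfl⟩ := this
    have e : n • a = a := by
      have : (n * l) • a = a := hg
      rwa [mul_smul, mem_stabilizer_iff.1 hl.1] at this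
    simp only [hreg n hn e, one_mul]
    exact hl.2
  haveI := Subgroup.normal_subgroupOf_of_le_normalizer hXn
  letI : CommGroup N := { (inferInstance : Group N) with
    mul_comm := fun x y => Subtype.ext (hc x x.2 y y.2) }
  letI : DistribMulAction (stabilizer G a) (Additive N) :=
    { smul := fun g v => Additive.ofMul ⟨g * (v.toMul : G) * (g : G)⁻¹, hN.conj_mem _ v.toMul.2 _⟩
      one_smul := fun v => Subtype.ext (by
        change ((1 : stabilizer G a) : G) * (v.toMul : G) * ((1 : stabilizer G a) : G)⁻¹ = v.toMul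
        simp)
      mul_smul := fun g g' v => Subtype.ext (by
        change ((g * g' : stabilizer G a) : G) * (v.toMul : G) * ((g * g' : stabilizer G a) : G)⁻¹ =
          g * (g' * (v.toMul : G) * (g' : G)⁻¹) * (g : G)⁻¹
        push_cast; group)
      smul_zero := fun g => Subtype.ext (by
        change (g : G) * 1 * (g : G)⁻¹ = 1
        simp)
      smul_add := fun g v w => Subtype.ext (by
        change (g : G) * ((v.toMul : G) * w.toMul) * (g : G)⁻¹ =
          g * (v.toMul : G) * (g : G)⁻¹ * (g * (w.toMul : G) * (g : G)⁻¹)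
        group) }
  have hs : ∀ (g : stabilizer G a) (v : Additive N), g • v = v ↔
      (g : G) * (v.toMul : G) = v.toMul * g := fun g v =>
    ⟨fun e => mul_inv_eq_iff_eq_mul.1 (congrArg (fun w : Additive N => (w.toMul : G)) e),
      fun e => Subtype.ext (mul_inv_eq_iff_eq_mul.2 e)⟩
  have hA : Aff (Additive N) (D.subgroupOf (stabilizer G a)) := by
    refine ⟨fun v hv g hg => ?_, fun u hu x hx => ?_⟩
    · refine h.mem_of_two (a := a) (b := (v.toMul : G) • a)
        (fun e => hv (Subtype.ext (hreg _ v.toMul.2 e.symm))) g.2 ?_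
      rw [Subgroup.coe_subtype, ← mul_smul, (hs g v).1 hg, mul_smul, mem_stabilizer_iff.1 g.2]
    · let T : Subgroup G := N ⊓ Subgroup.centralizer
        {w | ∃ g ∈ stabilizer G a, w = g * x * g⁻¹}
      have hT : T.Normal := ⟨fun n hn g => ⟨hN.conj_mem _ hn.1 g, by
        rintro _ ⟨l, hl, rfl⟩
        obtain ⟨n', hn', e⟩ := htr a (g • a)
        have hl' : n'⁻¹ * g ∈ stabilizer G a := by
          rw [mem_stabilizer_iff, mul_smul, ← e, inv_smul_smul]
        have e1 := hn.2 _ ⟨_, Subgroup.mul_mem _ (Subgroup.inv_mem _ hl') hl, rfl⟩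
        have e2 := hc n' hn' _ (hN.conj_mem _ hn.1 (n'⁻¹ * g))
        have e3 : g * n * g⁻¹ = n'⁻¹ * g * n * (n'⁻¹ * g)⁻¹ := by
          calc g * n * g⁻¹ = n' * (n'⁻¹ * g * n * (n'⁻¹ * g)⁻¹) * n'⁻¹ := by group
            _ = _ := by rw [e2]; group
        rw [e3]
        calc _ = (n'⁻¹ * g) * ((n'⁻¹ * g)⁻¹ * l * x * ((n'⁻¹ * g)⁻¹ * l)⁻¹ * n) * (n'⁻¹ * g)⁻¹ := by
              group
          _ = _ := by rw [e1]; group⟩⟩
      have hTu : (u.toMul : G) ∈ T := ⟨u.toMul.2, by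
        rintro _ ⟨l, hl, rfl⟩
        exact (hs _ u).1 (hx ⟨l, hl⟩)⟩
      have := hmin T hT (fun e => hu (Subtype.ext (Subgroup.mem_bot.1 (e ▸ hTu)))) inf_le_left
      exact Subtype.ext (eq_one_of_comm (htr a) (fun n hn =>
        ((this hn).2 _ ⟨1, Subgroup.one_mem _, by simp⟩).symm) x.2)
  obtain ⟨n, hn, hna⟩ := htr a a'
  have := hA.main (X := X.subgroupOf (stabilizer G a))
    (Subgroup.subgroupOf_mono _ (hX.le.trans inf_le_left)) hX.pg.comap_subtype
    (y := ⟨y, ha⟩) hyX' (fun e => hy1 (congrArg Subtype.val e)) (u := Additive.ofMul ⟨n, hn⟩)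
    (fun e => haa (by rw [← hna, show n = 1 from congrArg Subtype.val e, one_smul]))
    ((hs _ _).2 (by
      have := hreg (n⁻¹ * (y * n * y⁻¹)) (N.mul_mem (N.inv_mem hn) (hN.conj_mem n hn y)) (by
        rw [mul_smul, mul_smul, mul_smul, inv_smul_eq_iff.2 ha.symm, hna, ha', ← hna, inv_smul_smul])
      exact mul_inv_eq_iff_eq_mul.1 (inv_mul_eq_one.1 this).symm))
  rwa [show Nat.card (Additive N) = Nat.card Ω from card_eq_of_comm (htr a) hc,
    show (D.subgroupOf (stabilizer G a)).index = D.index from relIndex_of_sup (h.stab_sup a)] at this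

theorem Sit.step [FaithfulSMul G Ω] (h : Sit Ω D) (hk : 2 ≤ D.index)
    (hn : Nat.card Ω < (D.index + 1) ^ 2) (hIH : IH Ω D) (hG : ¬ Good (Nat.card Ω) D.index)
    {y : G} {a a' : Ω} (haa : a ≠ a') (ha : y • a = a) (ha' : y • a' = a') (d : Ω) : y • d = d := by
  by_contra hd
  have hD : D ≠ ⊤ := fun e => by rw [e, Subgroup.index_top] at hk; omega
  obtain ⟨N, ⟨hN, hN1, hND⟩, hmin⟩ := (Set.toFinite {N : Subgroup G | N.Normal ∧ N ≠ ⊥ ∧ N ≤ D}
    ).exists_minimal ⟨D, h.normal, fun e => by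
      obtain ⟨x, hx, e'⟩ := h.dtrans a a'
      rw [e] at hx
      rw [Subgroup.mem_bot.1 hx, one_smul] at e'
      exact haa e', le_rfl⟩
  have hmin' : ∀ K : Subgroup G, K.Normal → K ≠ ⊥ → K ≤ N → N ≤ K :=
    fun K h1 h2 h3 => hmin ⟨h1, h2, h3.trans hND⟩ h3
  obtain ⟨x, hx, b, hb⟩ : ∃ x ∈ N, ∃ b : Ω, x • b ≠ b := by
    by_contra hc
    push Not at hc
    exact hN1 (eq_bot_iff.2 fun x hx => eq_of_smul_eq_smul (α := Ω) fun b => by
      rw [hc x hx b, one_smul])
  have htr := h.normal_trans hD hn N hx hb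
  by_cases hc : ∀ x ∈ N, ∀ y ∈ N, x * y = y * x
  · have hy1 : orderOf y ≠ 1 := fun e => hd (by rw [orderOf_eq_one_iff.1 e, one_smul])
    obtain ⟨r, hr, hry⟩ := Nat.exists_prime_and_dvd hy1
    haveI := Fact.mk hr
    exact hG (h.affine hD hIH htr hmin' hc (orderOf_pow_orderOf_div (orderOf_pos y).ne' hry) haa
      (Subgroup.pow_mem (stabilizer G a) ha _) (Subgroup.pow_mem (stabilizer G a') ha' _))
  · exact h.nonaffine hk hn hIH hND htr hmin' hc haa ha ha' hd

end

universe u v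

theorem frob {C : ℕ} (hC2 : 2 ≤ C) (hC : ∀ k n j w : ℕ, n < (k + 1) ^ 2 →
    2 ^ j ≤ n ^ Nat.log 2 n → k ≤ j ^ 4 * w → w ^ 3 ≤ n → k < C) (m : ℕ) :
    ∀ (G : Type u) (Ω : Type v) [Group G] [Finite G] [MulAction G Ω] [Finite Ω] (D : Subgroup G),
      Nat.card G = m → Sit Ω D → C ≤ D.index → Nat.card Ω < (D.index + 1) ^ 2 →
      ∀ (y : G) (a a' : Ω), a ≠ a' → y • a = a → y • a' = a' → ∀ d : Ω, y • d = d := by
  induction m using Nat.strong_induction_on with
  | _ m ih =>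
  intro G Ω _ _ _ _ D hm h hk hn y a a' haa ha ha' d
  haveI := h.normal
  haveI := h.trans
  by_cases hK : (toPermHom G Ω).ker = ⊥
  · haveI : FaithfulSMul G Ω := ⟨fun {x y} e => (MonoidHom.ker_eq_bot_iff _).1 hK (Equiv.ext e)⟩
    refine h.step (hC2.trans hk) hn ?_ ?_ haa ha ha' d
    · intro M hM hMD m₀ hm₀ hmD a ha y hy b hb b' hb' hbb h1 h2 d hd
      have hlt : Nat.card M < m := by
        rw [← hm]
        exact lt_of_le_of_ne (Subgroup.card_le_card_group M) fun e =>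
          hM (Subgroup.eq_top_of_card_eq M e)
      have e : (D.subgroupOf M).index = D.index := relIndex_of_sup hMD
      exact congrArg Subtype.val (ih _ hlt M (orbit M a) (D.subgroupOf M) rfl
        (h.sub M hm₀ hmD ha) (by rwa [e]) (by rw [e]; exact (card_orbit_le M a).trans_lt hn)
        ⟨y, hy⟩ ⟨b, hb⟩ ⟨b', hb'⟩ (fun e => hbb (congrArg Subtype.val e)) (Subtype.ext h1)
        (Subtype.ext h2) ⟨d, hd⟩)
    · rintro (e | ⟨j, w, h1, h2, h3⟩)
      · omega
      · have := hC _ _ j w hn h1 h2 h3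
        omega
  · set K := (toPermHom G Ω).ker with hKd
    letI : MulAction (G ⧸ K) Ω := MulAction.compHom Ω (QuotientGroup.kerLift (toPermHom G Ω))
    have hs : ∀ (g : G) (ω : Ω), (g : G ⧸ K) • ω = g • ω := fun _ _ => rfl
    have hKD : K ≤ D := fun g hg =>
      h.mem_of_two haa (Equiv.congr_fun hg a) (Equiv.congr_fun hg a')
    have e : (D.map (QuotientGroup.mk' K)).index = D.index :=
      D.index_map_eq (QuotientGroup.mk'_surjective K) (by rwa [QuotientGroup.ker_mk'])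
    have hlt : Nat.card (G ⧸ K) < m := by
      rw [← hm, Subgroup.card_eq_card_quotient_mul_card_subgroup K]
      exact lt_mul_of_one_lt_right Nat.card_pos ((Subgroup.one_lt_card_iff_ne_bot K).2 hK)
    refine ih _ hlt (G ⧸ K) Ω (D.map (QuotientGroup.mk' K)) rfl
      ⟨h.normal.map _ (QuotientGroup.mk'_surjective K), ⟨fun b c => ?_⟩, fun g hg => ?_⟩
      (by rwa [e]) (by rwa [e]) (y : G ⧸ K) a a' haa ha ha' d
    · obtain ⟨g, hg⟩ := exists_smul_eq G b c
      exact ⟨(g : G ⧸ K), hg⟩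
    · obtain ⟨g, rfl⟩ := QuotientGroup.mk_surjective g
      exact h.fix g fun e => hg ⟨g, e, rfl⟩

theorem main : ∃ N : ℕ, ∀ (G : Type u) (Ω : Type v) [Group G] [Finite G] [MulAction G Ω]
    [FaithfulSMul G Ω] [Fintype Ω], IsPretransitive G Ω → N ≤ Fintype.card Ω →
      (IsPreprimitive G Ω ∧ (IsPretransitive G Ω ∧ (∃ g : G, g ≠ 1 ∧ ∃ ω : Ω, g • ω = ω) ∧
        ∀ g : G, g ≠ 1 → Nat.card (fixedBy Ω g) ≤ 1)) ∨
      ((Subgroup.closure {g : G | ∀ ω : Ω, g • ω ≠ ω}).index : ℝ) ≤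
        Real.sqrt (Fintype.card Ω) - 1 := by
  obtain ⟨C, hC2, hC⟩ := poly
  refine ⟨C ^ 2, fun G Ω _ _ _ _ _ htr hN => ?_⟩
  set D := Subgroup.closure {g : G | ∀ ω : Ω, g • ω ≠ ω} with hD
  have h : Sit Ω D := by
    refine ⟨⟨fun x hx g => ?_⟩, htr, fun g hg => ?_⟩
    · refine Subgroup.closure_induction (p := fun x _ => g * x * g⁻¹ ∈ D) (fun x hx => ?_)
        (by simp) (fun x y _ _ h1 h2 => ?_) (fun x _ h1 => ?_) hx
      · refine Subgroup.subset_closure fun ω e => hx (g⁻¹ • ω) ?_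
        rw [mul_smul, mul_smul, ← eq_inv_smul_iff] at e
        exact e
      · simpa [mul_assoc] using D.mul_mem h1 h2
      · simpa [mul_assoc] using D.inv_mem h1
    · by_contra hc
      push Not at hc
      exact hg (Subgroup.subset_closure hc)
  rw [← Nat.card_eq_fintype_card] at hN ⊢
  by_cases hn : Nat.card Ω < (D.index + 1) ^ 2
  · left
    have hk : C ≤ D.index := by
      by_contra hlt
      have := Nat.pow_le_pow_left (show D.index + 1 ≤ C by omega) 2
      omega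
    have hDt : D ≠ ⊤ := fun e => by rw [e, Subgroup.index_top] at hk; omega
    haveI : Nontrivial Ω := Finite.one_lt_card_iff_nontrivial.1 (by nlinarith)
    obtain ⟨a, b, hab⟩ := exists_pair_ne Ω
    refine ⟨(isCoatom_stabilizer_iff_preprimitive G a).1 (h.coatom hDt hn hab), htr, ?_,
      fun g hg => ?_⟩
    · obtain ⟨g, -, hg⟩ := h.exists_notMem hDt (top_sup_eq D)
      exact ⟨g, fun e => hg (e ▸ D.one_mem), h.fix g hg⟩
    · rw [Finite.card_le_one_iff_subsingleton]
      refine ⟨fun x y => Subtype.ext ?_⟩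
      by_contra hxy
      exact hg (eq_of_smul_eq_smul (α := Ω) fun d => by
        rw [frob hC2 hC _ G Ω D rfl h hk hn g x y hxy x.2 y.2 d, one_smul])
  · right
    rw [le_sub_iff_add_le]
    refine Real.le_sqrt_of_sq_le ?_
    exact_mod_cast not_lt.1 hn

end Cfsg.Agent.H3.Der
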