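import Mathlib

/-!
Moments of the number of fixed points in a transitive permutation group.
-/

set_option autoImplicit false

namespace Cfsg.Agent.H3.Moments

open MulAction Finset

variable {G : Type*} (Ω : Type*) [Group G] [MulAction G Ω] [Fintype Ω] [DecidableEq Ω]

/-- The number of fixed points. -/
def fx (g : G) : ℕ := #{x : Ω | g • x = x}

variable {Ω}

theorem card_fixedBy (g : G) : Nat.card (fixedBy Ω g) = fx Ω g := by
  rw [fx, ← Fintype.card_subtype, ← Nat.card_eq_fintype_card]; rfl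

theorem fx_one : fx Ω (1 : G) = Fintype.card Ω := by simp [fx]

theorem fx_le (g : G) : fx Ω g ≤ Fintype.card Ω := card_le_univ _

theorem fx_eq_zero {g : G} : fx Ω g = 0 ↔ ∀ x : Ω, g • x ≠ x := by
  simp [fx, filter_eq_empty_iff]

theorem fx_conj (w g : G) : fx Ω (w * g * w⁻¹) = fx Ω g := by
  symm
  refine card_bij (fun x _ => w • x) (fun x hx => ?_) (fun x _ y _ h => smul_left_cancel w h)
    fun y hy => ⟨w⁻¹ • y, ?_, smul_inv_smul w y⟩
  · simp only [mem_filter, mem_univ, true_and] at hx ⊢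
    rw [mul_smul, mul_smul, inv_smul_smul, hx]
  · simp only [mem_filter, mem_univ, true_and] at hy ⊢
    rw [mul_smul, mul_smul] at hy
    rw [eq_inv_smul_iff, hy]

theorem card_stabilizer_smul {X : Type*} [MulAction G X] (g : G) (x : X) :
    Nat.card (stabilizer G (g • x)) = Nat.card (stabilizer G x) := by
  rw [stabilizer_smul_eq_stabilizer_map_conj, Subgroup.card_map_of_injective (MulAut.conj g).injective]

omit [Fintype Ω] [DecidableEq Ω] in
theorem mem_st {g : G} {a b : Ω} : g ∈ stabilizer G (a, b) ↔ g • a = a ∧ g • b = b := by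
  simp [Prod.ext_iff]

variable [Fintype G]

theorem burnside {X : Type*} [MulAction G X] [Fintype X] [DecidableEq X] :
    ∑ g : G, fx X g = Nat.card (Quotient (orbitRel G X)) * Nat.card G := by
  classical
  have := sum_card_fixedBy_eq_card_orbits_mul_card_group G X
  simp only [← Nat.card_eq_fintype_card, card_fixedBy] at this
  exact this

theorem sum_fx [IsPretransitive G Ω] [Nonempty Ω] : ∑ g : G, fx Ω g = Nat.card G := by
  have : Subsingleton (Quotient (orbitRel G Ω)) :=
    ⟨by rintro ⟨x⟩ ⟨y⟩; exact Quotient.sound (exists_smul_eq G y x)⟩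
  have : Nonempty (Quotient (orbitRel G Ω)) := ⟨Quotient.mk _ (Classical.arbitrary Ω)⟩
  rw [burnside, Nat.card_unique, one_mul]

theorem three_le_sum_sq {a b c d : Ω} (hab : a ≠ b) (hcd : c ≠ d)
    (h : ¬ ∃ g : G, g • a = c ∧ g • b = d) : 3 * Nat.card G ≤ ∑ g : G, fx Ω g * fx Ω g := by
  have h1 : ∀ g : G, fx Ω g * fx Ω g = fx (Ω × Ω) g := fun g => by
    rw [fx, fx, ← card_product, ← filter_product, univ_product_univ]
    congr 1
    ext p
    simp [Prod.ext_iff]
  simp only [h1]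
  rw [burnside]
  refine Nat.mul_le_mul_right _ ?_
  have h2 : Function.Injective ![Quotient.mk (orbitRel G (Ω × Ω)) (a, a), Quotient.mk _ (a, b),
      Quotient.mk _ (c, d)] := by
    have e1 : Quotient.mk (orbitRel G (Ω × Ω)) (a, b) ≠ Quotient.mk _ (a, a) := fun e => by
      obtain ⟨g, hg⟩ := Quotient.exact e
      exact hab ((congrArg Prod.fst hg).symm.trans (congrArg Prod.snd hg))
    have e2 : Quotient.mk (orbitRel G (Ω × Ω)) (c, d) ≠ Quotient.mk _ (a, a) := fun e => by
      obtain ⟨g, hg⟩ := Quotient.exact e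
      exact hcd ((congrArg Prod.fst hg).symm.trans (congrArg Prod.snd hg))
    have e3 : Quotient.mk (orbitRel G (Ω × Ω)) (c, d) ≠ Quotient.mk _ (a, b) := fun e => by
      obtain ⟨g, hg⟩ := Quotient.exact e
      exact h ⟨g, congrArg Prod.fst hg, congrArg Prod.snd hg⟩
    intro i j hij
    fin_cases i <;> fin_cases j <;> simp_all [eq_comm]
  simpa using Nat.card_le_card_of_injective _ h2

theorem sum_offDiag (ψ : G → ℤ) : ∑ g : G, ((fx Ω g : ℤ) * fx Ω g - fx Ω g) * ψ g =
    ∑ p ∈ (univ : Finset Ω).offDiag, ∑ g : stabilizer G p, ψ g := by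
  classical
  have h1 : ∀ g : G, ((fx Ω g : ℤ) * fx Ω g - fx Ω g) * ψ g =
      ∑ _p ∈ ({x : Ω | g • x = x} : Finset Ω).offDiag, ψ g := fun g => by
    rw [sum_const, offDiag_card, nsmul_eq_mul, Nat.cast_sub (Nat.le_mul_self _)]
    simp [fx]
  simp only [h1]
  rw [sum_comm' (t' := (univ : Finset Ω).offDiag) (s' := fun p => {g | g ∈ stabilizer G p})]
  · refine sum_congr rfl fun p _ => sum_subtype _ (by simp) _
  · rintro g ⟨a, b⟩
    simp only [mem_univ, true_and, mem_offDiag, mem_filter, mem_st]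
    tauto

theorem sum_st_smul (w : G) (p : Ω × Ω) [Fintype (stabilizer G p)]
    [Fintype (stabilizer G (w • p))] :
    ∑ g : stabilizer G (w • p), (fx Ω (g : G) : ℤ) = ∑ g : stabilizer G p, (fx Ω (g : G) : ℤ) := by
  symm
  let φ : stabilizer G p → stabilizer G (w • p) := fun g => ⟨w * (g : G) * w⁻¹, by
    rw [mem_stabilizer_iff, mul_smul, mul_smul, inv_smul_smul, mem_stabilizer_iff.mp g.2]⟩
  refine Fintype.sum_bijective φ ⟨fun g h e => by simpa [φ] using e, fun g => ?_⟩ _ _
    fun g => by rw [fx_conj]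
  refine ⟨⟨w⁻¹ * g * w, ?_⟩, Subtype.ext (by simp [φ, mul_assoc])⟩
  rw [mem_stabilizer_iff, mul_smul, mul_smul, mem_stabilizer_iff.mp g.2, inv_smul_smul]

/-- The number of derangements. -/
def der (G Ω : Type*) [Group G] [MulAction G Ω] [Fintype Ω] [DecidableEq Ω] [Fintype G] : ℕ :=
  #{g : G | fx Ω g = 0}

theorem card_der : Nat.card {g : G // ∀ ω : Ω, g • ω ≠ ω} = der G Ω := by
  rw [der, ← Fintype.card_subtype, ← Nat.card_eq_fintype_card]
  simp only [fx_eq_zero]

theorem sum_ite_der (c : ℤ) : ∑ g : G, (if fx Ω g = 0 then c else 0) = der G Ω * c := by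
  rw [← sum_filter, sum_const, nsmul_eq_mul, der]

theorem two_mul_le_of_not_two [IsPretransitive G Ω] {a b c d : Ω} (hab : a ≠ b) (hcd : c ≠ d)
    (h : ¬ ∃ g : G, g • a = c ∧ g • b = d) : 2 * Nat.card G ≤ Fintype.card Ω * der G Ω := by
  have : Nonempty Ω := ⟨a⟩
  have h1 := three_le_sum_sq hab hcd h
  have h2 := sum_fx (G := G) (Ω := Ω)
  have h3 : ∑ g : G, (((fx Ω g : ℤ) * fx Ω g) - (Fintype.card Ω + 1) * fx Ω g + Fintype.card Ω) ≤
      ∑ g : G, (if fx Ω g = 0 then (Fintype.card Ω : ℤ) else 0) := by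
    refine sum_le_sum fun g _ => ?_
    split_ifs with h0
    · simp [h0]
    · have h4 : (1 : ℤ) ≤ fx Ω g := by omega
      have h5 : (fx Ω g : ℤ) ≤ Fintype.card Ω := by exact_mod_cast fx_le g
      nlinarith
  rw [sum_ite_der, sum_add_distrib, sum_sub_distrib, ← mul_sum, sum_const, card_univ,
    ← Nat.card_eq_fintype_card (α := G), nsmul_eq_mul] at h3
  zify at h1 h2 ⊢
  rw [h2] at h3
  nlinarith

section Two

variable (h2 : ∀ a b c d : Ω, a ≠ b → c ≠ d → ∃ g : G, g • a = c ∧ g • b = d)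
include h2

omit [Fintype Ω] [DecidableEq Ω] [Fintype G] in
theorem exists_smul_pair {a b c d : Ω} (hab : a ≠ b) (hcd : c ≠ d) :
    ∃ g : G, g • (a, b) = (c, d) := by
  obtain ⟨g, h, h'⟩ := h2 a b c d hab hcd
  exact ⟨g, Prod.ext h h'⟩

omit [Fintype Ω] [DecidableEq Ω] [Fintype G] in
theorem card_st_eq {a b c d : Ω} (hab : a ≠ b) (hcd : c ≠ d) :
    Nat.card (stabilizer G (c, d)) = Nat.card (stabilizer G (a, b)) := by
  obtain ⟨g, hg⟩ := exists_smul_pair h2 hab hcd
  rw [← hg, card_stabilizer_smul]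

omit [Fintype G] [DecidableEq Ω] in
theorem card_eq {a b : Ω} (hab : a ≠ b) : (Nat.card G : ℤ) =
    Fintype.card Ω * (Fintype.card Ω - 1) * Nat.card (stabilizer G (a, b)) := by
  have h1 : orbit G (a, b) = ((univ : Finset Ω).offDiag : Set (Ω × Ω)) := by
    ext ⟨c, d⟩
    simp only [mem_coe, mem_offDiag, mem_univ, true_and]
    constructor
    · rintro ⟨g, hg⟩ e
      exact hab (smul_left_cancel g ((congrArg Prod.fst hg).trans
        (e.trans (congrArg Prod.snd hg).symm)))
    · exact fun hcd => exists_smul_pair h2 hab hcd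
  rw [← (stabilizer G (a, b)).card_mul_index, index_stabilizer, h1, Set.ncard_coe_finset,
    offDiag_card, Nat.cast_mul, Nat.cast_sub (Nat.le_mul_self _), card_univ]
  push_cast
  ring

theorem sum_two {a b : Ω} (hab : a ≠ b) :
    ∑ g : G, ((fx Ω g : ℤ) * fx Ω g - fx Ω g) = Nat.card G := by
  classical
  have h1 := sum_offDiag (G := G) (Ω := Ω) fun _ => 1
  simp only [mul_one, sum_const, card_univ, ← Nat.card_eq_fintype_card, nsmul_eq_mul] at h1
  rw [h1, sum_congr rfl (g := fun _ => (Nat.card (stabilizer G (a, b)) : ℤ)) fun p hp => by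
    rw [card_st_eq h2 hab (mem_offDiag.mp hp).2.2], sum_const, offDiag_card, card_eq h2 hab,
    nsmul_eq_mul, Nat.cast_sub (Nat.le_mul_self _), card_univ]
  push_cast
  ring

theorem sum_three {a b : Ω} (hab : a ≠ b) [Fintype (stabilizer G (a, b))] :
    ∑ g : G, ((fx Ω g : ℤ) * fx Ω g - fx Ω g) * fx Ω g =
      Fintype.card Ω * (Fintype.card Ω - 1) * ∑ g : stabilizer G (a, b), (fx Ω (g : G) : ℤ) := by
  classical
  rw [sum_offDiag, sum_congr rfl (g := fun _ => ∑ g : stabilizer G (a, b), (fx Ω (g : G) : ℤ))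
    fun p hp => by
      obtain ⟨g, hg⟩ := exists_smul_pair h2 hab (mem_offDiag.mp hp).2.2
      obtain rfl : g • (a, b) = p := hg
      exact sum_st_smul g (a, b), sum_const, offDiag_card,
    nsmul_eq_mul, Nat.cast_sub (Nat.le_mul_self _), card_univ]
  push_cast
  ring

/-- The cubic moment bound for the number of derangements. -/
theorem crit [IsPretransitive G Ω] {a b : Ω} (hab : a ≠ b) [Fintype (stabilizer G (a, b))] (j : ℤ)
    (hj : 1 ≤ j)
    (h : 2 * Nat.card (stabilizer G (a, b)) * (j * (j + 1)) ≤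
      (Fintype.card Ω - j) * (Fintype.card Ω - j - 1) +
        (2 * j + 1) * Fintype.card Ω * Nat.card (stabilizer G (a, b)) -
        Fintype.card Ω * ∑ g : stabilizer G (a, b), (fx Ω (g : G) : ℤ)) :
    2 * Nat.card G ≤ Fintype.card Ω * der G Ω := by
  classical
  have : Nonempty Ω := ⟨a⟩
  have h1 := sum_fx (G := G) (Ω := Ω)
  have h3 : ∑ g : G, ((if g = 1 then ((Fintype.card Ω : ℤ) - 1) * ((Fintype.card Ω - j) *
        (Fintype.card Ω - j - 1)) else 0) - if fx Ω g = 0 then j * (j + 1) else 0) ≤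
      ∑ g : G, (((fx Ω g : ℤ) * fx Ω g - fx Ω g) * fx Ω g -
        (2 * j + 1) * ((fx Ω g : ℤ) * fx Ω g - fx Ω g) + j * (j + 1) * (fx Ω g - 1)) := by
    refine sum_le_sum fun g _ => ?_
    have hn : 0 < Fintype.card Ω := Fintype.card_pos
    split_ifs with h4 h5 h5
    · rw [h4, fx_one] at h5; omega
    · rw [h4, fx_one]; apply le_of_eq; ring
    · simp [h5]
    · have h6 : (0 : ℤ) ≤ fx Ω g - 1 := by omega
      have h7 : (0 : ℤ) ≤ (fx Ω g - j) * (fx Ω g - j - 1) := by
        rcases le_or_gt (fx Ω g : ℤ) j with h | h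
        · exact mul_nonneg_of_nonpos_of_nonpos (by omega) (by omega)
        · exact mul_nonneg (by omega) (by omega)
      nlinarith [mul_nonneg h6 h7]
  zify at h1 ⊢
  rw [sum_sub_distrib, sum_ite_der, sum_ite_eq', if_pos (mem_univ _), sum_add_distrib,
    sum_sub_distrib, ← mul_sum, ← mul_sum, sum_three h2 hab, sum_two h2 hab, sum_sub_distrib, h1,
    sum_const, card_univ, ← Nat.card_eq_fintype_card (α := G), nsmul_eq_mul, mul_one, sub_self,
    card_eq h2 hab] at h3
  rw [card_eq h2 hab]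
  have hn : (1 : ℤ) ≤ Fintype.card Ω := by exact_mod_cast Fintype.card_pos
  generalize (Fintype.card Ω : ℤ) = n at *
  generalize (Nat.card (stabilizer G (a, b)) : ℤ) = s at *
  generalize ∑ g : stabilizer G (a, b), (fx Ω (g : G) : ℤ) = F at *
  generalize (der G Ω : ℤ) = D at *
  have h4 : 0 < j * (j + 1) := by positivity
  have h5 : (n - 1) * (2 * s) * (j * (j + 1)) ≤ D * (j * (j + 1)) := by
    nlinarith [mul_le_mul_of_nonneg_left h (by omega : 0 ≤ n - 1)]
  have h6 := le_of_mul_le_mul_right h5 h4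
  nlinarith [mul_le_mul_of_nonneg_left h6 (by omega : 0 ≤ n)]

theorem sharp [IsPretransitive G Ω] {a b : Ω} (hab : a ≠ b)
    (h : ∀ g : G, g ≠ 1 → fx Ω g ≤ 1) : Fintype.card Ω * der G Ω = Nat.card G := by
  have : Nonempty Ω := ⟨a⟩
  have h1 := sum_fx (G := G) (Ω := Ω)
  have h3 : ∑ g : G, ((((fx Ω g : ℤ) * fx Ω g) - fx Ω g) - Fintype.card Ω * (fx Ω g - 1)) =
      ∑ g : G, (if fx Ω g = 0 then (Fintype.card Ω : ℤ) else 0) := by
    refine sum_congr rfl fun g _ => ?_
    split_ifs with h0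
    · simp [h0]
    · by_cases hg : g = 1
      · rw [hg, fx_one]; ring
      · have := h g hg
        have h4 : fx Ω g = 1 := by omega
        simp [h4]
  zify at h1 ⊢
  rw [sum_ite_der, sum_sub_distrib, sum_two h2 hab, ← mul_sum, sum_sub_distrib, h1, sum_const,
    card_univ, ← Nat.card_eq_fintype_card (α := G), nsmul_eq_mul] at h3
  linarith

end Two

end Cfsg.Agent.H3.Moments
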