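import Mathlib
import Cfsg.Agent.H3.Moments
import Cfsg.Agent.H3.Support

/-!
The proportion of derangements in a doubly transitive group that is not sharply doubly
transitive.
-/

set_option autoImplicit false
set_option linter.unusedSectionVars false

namespace Cfsg.Agent.H3.Derange

open MulAction Finset Cfsg.Agent.H3.Moments

variable (G : Type*) {Ω : Type*} [Group G] [MulAction G Ω] [Fintype Ω] [DecidableEq Ω] [Fintype G]

open Classical in
/-- The points fixed by the stabilizer of two points. -/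
noncomputable def ln (a b : Ω) : Finset Ω := {c | ∀ g : G, g • a = a → g • b = b → g • c = c}

variable {G}

theorem mem_ln {a b c : Ω} : c ∈ ln G a b ↔ ∀ g : G, g • a = a → g • b = b → g • c = c := by
  simp [ln]

theorem left_mem_ln (a b : Ω) : a ∈ ln G a b := mem_ln.mpr fun _ h _ => h

theorem right_mem_ln (a b : Ω) : b ∈ ln G a b := mem_ln.mpr fun _ _ h => h

theorem two_le_ln {a b : Ω} (hab : a ≠ b) : 2 ≤ #(ln G a b) :=
  one_lt_card.mpr ⟨a, left_mem_ln a b, b, right_mem_ln a b, hab⟩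

variable (h2 : ∀ a b c d : Ω, a ≠ b → c ≠ d → ∃ g : G, g • a = c ∧ g • b = d)
include h2

theorem st_eq {a b c d : Ω} (hab : a ≠ b) (hcd : c ≠ d) (hc : c ∈ ln G a b) (hd : d ∈ ln G a b) :
    stabilizer G (a, b) = stabilizer G (c, d) :=
  Subgroup.eq_of_le_of_card_ge (fun g hg => mem_st.mpr
    ⟨mem_ln.mp hc g (mem_st.mp hg).1 (mem_st.mp hg).2,
      mem_ln.mp hd g (mem_st.mp hg).1 (mem_st.mp hg).2⟩) (card_st_eq h2 hab hcd).le

theorem card_ln_eq {a b c d : Ω} (hab : a ≠ b) (hcd : c ≠ d) : #(ln G c d) = #(ln G a b) := by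
  obtain ⟨w, rfl, rfl⟩ := h2 a b c d hab hcd
  symm
  refine card_bij (fun x _ => w • x) (fun x hx => mem_ln.mpr fun g ha hb => ?_)
    (fun x _ y _ h => smul_left_cancel w h)
    fun y hy => ⟨w⁻¹ • y, mem_ln.mpr fun g ha hb => ?_, smul_inv_smul w y⟩
  · have := mem_ln.mp hx (w⁻¹ * g * w) (by rw [mul_smul, mul_smul, ha, inv_smul_smul])
      (by rw [mul_smul, mul_smul, hb, inv_smul_smul])
    rwa [mul_smul, mul_smul, inv_smul_eq_iff] at this
  · have := mem_ln.mp hy (w * g * w⁻¹) (by rw [mul_smul, mul_smul, inv_smul_smul, ha])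
      (by rw [mul_smul, mul_smul, inv_smul_smul, hb])
    rwa [mul_smul, mul_smul, smul_eq_iff_eq_inv_smul] at this

open Classical in
theorem card_pred_eq {a b : Ω} (hab : a ≠ b) (p : Ω) : Fintype.card Ω - 1 =
    #((univ.erase p).image fun x => stabilizer G (p, x)) * (#(ln G a b) - 1) := by
  rw [← card_univ, ← card_erase_of_mem (mem_univ p),
    card_eq_sum_card_image (fun x => stabilizer G (p, x)), ← smul_eq_mul, ← sum_const]
  refine sum_congr rfl fun K hK => ?_
  obtain ⟨c, hc, rfl⟩ := mem_image.mp hK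
  have hpc : p ≠ c := (ne_of_mem_erase hc).symm
  rw [← card_ln_eq h2 hab hpc, ← card_erase_of_mem (left_mem_ln p c)]
  congr 1
  ext x
  simp only [mem_filter, mem_erase, mem_univ, and_true]
  refine and_congr_right fun hx => ⟨fun e => mem_ln.mpr fun g hp hc => ?_, fun h => ?_⟩
  · exact (mem_st.mp (e ▸ mem_st.mpr ⟨hp, hc⟩ : g ∈ stabilizer G (p, x))).2
  · exact (st_eq h2 hpc (Ne.symm hx) (left_mem_ln p c) h).symm

theorem fx_mul_le [FaithfulSMul G Ω] {a b : Ω} (hab : a ≠ b) {g : G} (hg : g ≠ 1) :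
    fx Ω g * (#(ln G a b) - 1) ≤ Fintype.card Ω - 1 := by
  classical
  obtain ⟨p, hp⟩ : ∃ p : Ω, g • p ≠ p := by
    by_contra h
    push Not at h
    exact hg (eq_of_smul_eq_smul (α := Ω) fun x => by rw [h, one_smul])
  rw [card_pred_eq h2 hab p]
  refine Nat.mul_le_mul_right _ (card_le_card_of_injOn (fun x => stabilizer G (p, x))
    (fun x hx => ?_) fun x hx y hy e => ?_)
  · have hx' : g • x = x := (mem_filter.mp hx).2
    exact mem_coe.mpr (mem_image_of_mem _ (mem_erase.mpr ⟨fun e => hp (e ▸ hx'), mem_univ _⟩))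
  · have hx' : g • x = x := (mem_filter.mp hx).2
    have hy' : g • y = y := (mem_filter.mp hy).2
    by_contra hxy
    have h1 := st_eq h2 (fun e : p = x => hp (e ▸ hx')) hxy (right_mem_ln p x)
      (mem_ln.mpr fun k h h' => (mem_st.mp
        ((show stabilizer G (p, x) = stabilizer G (p, y) from e) ▸ mem_st.mpr ⟨h, h'⟩ : k ∈ stabilizer G (p, y))).2)
    exact hp (mem_st.mp (h1 ▸ mem_st.mpr ⟨hx', hy'⟩ : g ∈ stabilizer G (p, x))).1

section Small

variable (hB : ∀ u v : Ω, u ≠ v → ∀ g h : G, g • u = u → g • v = v → h • u = u → h • v = v →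
  ∀ c : Ω, g • c = c ∨ h • c = c ∨ g • c = h • c)
include hB

omit h2 in
theorem conj_fix {u v c : Ω} (huv : u ≠ v) {q e : G} (hqu : q • u = u) (hqv : q • v = v)
    (heu : e • u = u) (hev : e • v = v) (hc : e • c = c) : e • q • c = q • c := by
  rcases hB u v huv q (e * q) hqu hqv (by rw [mul_smul, hqu, heu]) (by rw [mul_smul, hqv, hev]) c
    with h | h | h
  · rw [h, hc]
  · rw [mul_smul] at h
    rw [smul_left_cancel e (h.trans hc.symm), hc]
  · rw [← mul_smul, ← h]

omit h2 in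
theorem smul_mem_ln {a x y z : Ω} (hax : a ≠ x) (hay : a ≠ y) {g p : G} (hga : g • a = a)
    (hgx : g • x = x) (hpa : p • a = a) (hpx : p • x = x) (hpy : p • y = y) (hpz : p • z ≠ z) :
    g • y ∈ ln G a y := by
  have haz : a ≠ z := fun e => hpz (e ▸ hpa)
  have hdec : ∀ {u : Ω} {k : G}, a ≠ u → p • u = u → k • a = a → k • u = u →
      ∃ q : G, q • a = a ∧ q • u = u ∧ q • z = z ∧ (k = q ∨ k = q * p) := by
    intro u k hau hpu hka hku
    by_cases hk : k • z = z
    · exact ⟨k, hka, hku, hk, Or.inl rfl⟩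
    · refine ⟨k * p⁻¹, by rw [mul_smul, inv_smul_eq_iff.mpr hpa.symm, hka],
        by rw [mul_smul, inv_smul_eq_iff.mpr hpu.symm, hku], ?_, Or.inr (by simp)⟩
      rcases hB a u hau k⁻¹ p⁻¹ (inv_smul_eq_iff.mpr hka.symm) (inv_smul_eq_iff.mpr hku.symm)
        (inv_smul_eq_iff.mpr hpa.symm) (inv_smul_eq_iff.mpr hpu.symm) z with h | h | h
      · exact absurd (inv_smul_eq_iff.mp h).symm hk
      · exact absurd (inv_smul_eq_iff.mp h).symm hpz
      · rw [mul_smul, ← h, smul_inv_smul]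
  obtain ⟨q, hqa, hqx, hqz, hq⟩ := hdec hax hpx hga hgx
  have h1 : g • y = q • y := by
    rcases hq with rfl | rfl
    · rfl
    · rw [mul_smul, hpy]
  rw [h1, mem_ln]
  intro e hea hey
  obtain ⟨r, hra, hry, hrz, hr⟩ := hdec hay hpy hea hey
  have h3 := conj_fix hB haz hqa hqz hra hrz hry
  rcases hr with rfl | rfl
  · exact h3
  · rw [mul_smul, conj_fix hB hax hqa hqx hpa hpx hpy, h3]

theorem mem_ln_of_fix [FaithfulSMul G Ω] {a x y : Ω} (hax : a ≠ x) {p : G} (hp : p ≠ 1)
    (hpa : p • a = a) (hpx : p • x = x) (hpy : p • y = y) : y ∈ ln G a x := by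
  obtain ⟨z, hz⟩ : ∃ z : Ω, p • z ≠ z := by
    by_contra h
    push Not at h
    exact hp (eq_of_smul_eq_smul (α := Ω) fun x => by rw [h, one_smul])
  rw [mem_ln]
  intro g hga hgx
  by_contra hgy
  have hay : a ≠ y := fun e => hgy (e ▸ hga)
  have hxy : x ≠ y := fun e => hgy (e ▸ hgx)
  have h1 := st_eq h2 hay (Ne.symm hgy) (right_mem_ln a y)
    (smul_mem_ln hB hax hay hga hgx hpa hpx hpy hz)
  have h3 := st_eq h2 hxy (Ne.symm hgy) (right_mem_ln x y)
    (smul_mem_ln hB hax.symm hxy hgx hga hpx hpa hpy hz)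
  have h4 := st_eq h2 hay hax (left_mem_ln a y) (mem_ln.mpr fun k h h' =>
    (mem_st.mp (h3 ▸ h1 ▸ mem_st.mpr ⟨h, h'⟩ : k ∈ stabilizer G (x, y))).1)
  exact hgy (mem_st.mp (h4 ▸ mem_st.mpr ⟨hga, hgx⟩ : g ∈ stabilizer G (a, y))).2

theorem fx_le_ln [FaithfulSMul G Ω] {a x : Ω} (hax : a ≠ x) {p : G} (hp : p ≠ 1)
    (hpa : p • a = a) (hpx : p • x = x) : fx Ω p ≤ #(ln G a x) :=
  card_le_card fun _ hy => mem_ln_of_fix h2 hB hax hp hpa hpx (mem_filter.mp hy).2

theorem eq_of_ne_one [FaithfulSMul G Ω] {a x : Ω} (hax : a ≠ x) {p q : G} (hp : p ≠ 1) (hq : q ≠ 1)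
    (hpa : p • a = a) (hpx : p • x = x) (hqa : q • a = a) (hqx : q • x = x) : p = q := by
  obtain ⟨z, hz⟩ : ∃ z : Ω, p • z ≠ z := by
    by_contra h
    push Not at h
    exact hp (eq_of_smul_eq_smul (α := Ω) fun x => by rw [h, one_smul])
  by_contra hpq
  rcases hB a x hax p q hpa hpx hqa hqx z with h | h | h
  · exact hz h
  · exact hz (mem_ln.mp (mem_ln_of_fix h2 hB hax hq hqa hqx h) p hpa hpx)
  · exact hz (mem_ln.mp (mem_ln_of_fix h2 hB hax (p := q⁻¹ * p)
      (fun e => hpq (inv_mul_eq_one.mp e).symm) (by rw [mul_smul, hpa, inv_smul_eq_iff, hqa])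
      (by rw [mul_smul, hpx, inv_smul_eq_iff, hqx]) (by rw [mul_smul, h, inv_smul_smul])) p hpa hpx)

theorem not_seven [FaithfulSMul G Ω] {a b : Ω} (hab : a ≠ b) (hn : Fintype.card Ω = 7)
    (hφ : #(ln G a b) = 3) {t : G} (ht : t ≠ 1) (hta : t • a = a) (htb : t • b = b) : False := by
  obtain ⟨c, hc⟩ : ((ln G a b) \ {a, b}).Nonempty := by
    rw [← card_pos, card_sdiff_of_subset (by
      simp [insert_subset_iff, left_mem_ln, right_mem_ln]), card_pair hab]
    omega
  simp only [mem_sdiff, mem_insert, mem_singleton, not_or] at hc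
  obtain ⟨hc, hca, hcb⟩ := hc
  have hln : ∀ y : Ω, t • y = y → y = a ∨ y = b ∨ y = c := by
    intro y hy
    have h1 : ({a, b, c} : Finset Ω) = ln G a b := eq_of_subset_of_card_le (by
      simp [insert_subset_iff, left_mem_ln, right_mem_ln, hc])
      (by rw [hφ, card_eq_three.mpr ⟨a, b, c, hab, Ne.symm hca, Ne.symm hcb, rfl⟩])
    simpa [← h1] using mem_ln_of_fix h2 hB hab ht hta htb hy
  have htc : t • c = c := mem_ln.mp hc t hta htb
  obtain ⟨u, hua, hub⟩ := h2 a b b c hab (Ne.symm hcb)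
  have hut : u * t * u⁻¹ = t := eq_of_ne_one h2 hB (Ne.symm hcb) (by simpa using ht) ht
    (by rw [mul_smul, mul_smul, inv_smul_eq_iff.mpr hua.symm, hta, hua])
    (by rw [mul_smul, mul_smul, inv_smul_eq_iff.mpr hub.symm, htb, hub]) htb htc
  have hcomm : Commute u t := mul_inv_eq_iff_eq_mul.mp hut
  have huc : u • c = a := by
    rcases hln (u • c) (by rw [smul_smul, ← hcomm.eq, mul_smul, htc]) with h | h | h
    · exact h
    · exact absurd (smul_left_cancel u (h.trans hua.symm)) hca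
    · exact absurd (smul_left_cancel u (h.trans hub.symm)) hcb
  have hsq : ∀ {x y : Ω} {k : G}, x ≠ y → k • x = x → k • y = y → k * k = 1 := by
    intro x y k hxy hx hy
    by_contra h
    have h1 : k ≠ 1 := fun e => h (by rw [e, one_mul])
    exact h1 (mul_eq_left.mp (eq_of_ne_one h2 hB hxy h h1 (by rw [mul_smul, hx, hx])
      (by rw [mul_smul, hy, hy]) hx hy))
  have h6 : (u * u * u) * (u * u * u) = 1 := hsq hab (by rw [mul_smul, mul_smul, hua, hub, huc])
    (by rw [mul_smul, mul_smul, hub, huc, hua])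
  have h3 : (u * u) ^ 3 = 1 := by rw [← h6]; simp only [pow_succ, pow_zero, one_mul, mul_assoc]
  have : Fact (Nat.Prime 3) := ⟨Nat.prime_three⟩
  obtain ⟨d, hd⟩ := Equiv.Perm.exists_fixed_point_of_prime (p := 3) (n := 1) (by rw [hn]; decide)
    (σ := toPermHom G Ω (u * u)) (by rw [pow_one, ← map_pow, h3, map_one])
  change (u * u) • d = d at hd
  have htd : t • d ≠ d := fun h => by
    rcases hln d h with rfl | rfl | rfl
    · rw [mul_smul, hua, hub] at hd; exact hca hd
    · rw [mul_smul, hub, huc] at hd; exact hab hd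
    · rw [mul_smul, huc, hua] at hd; exact hcb hd.symm
  have h4 := hsq htd (k := u * u) (by
    rw [smul_smul, (hcomm.mul_left hcomm).eq, mul_smul, hd]) hd
  rw [pow_succ, pow_two, h4, one_mul] at h3
  have h5 : (u * u) • a = a := by rw [h3, one_smul]
  rw [mul_smul, hua, hub] at h5
  exact hca h5

end Small

omit h2 in
theorem small_orbit {H : Subgroup G} {c : Ω} (hc : (orbit H c).ncard < 3) {g h : G} (hg : g ∈ H)
    (hh : h ∈ H) : g • c = c ∨ h • c = c ∨ g • c = h • c := by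
  by_contra hne
  push Not at hne
  have h1 : ({g • c, h • c, c} : Set Ω) ⊆ orbit H c := by
    rintro _ (rfl | rfl | rfl)
    · exact ⟨⟨g, hg⟩, rfl⟩
    · exact ⟨⟨h, hh⟩, rfl⟩
    · exact mem_orbit_self _
  have h3 := Set.ncard_le_ncard h1
  rw [Set.ncard_eq_three.mpr ⟨_, _, _, hne.2.2, hne.1, hne.2.1, rfl⟩] at h3
  omega

omit h2 in
theorem count (a b : Ω) : 6 * Nat.card (Quotient (orbitRel (stabilizer G (a, b)) Ω)) +
    #{c : Ω | 3 ≤ (orbit (stabilizer G (a, b)) c).ncard} ≤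
      3 * Fintype.card Ω + 3 * #(ln G a b) := by
  classical
  set H := stabilizer G (a, b)
  have h1 : ∑ g : H, fx Ω g = ∑ c : Ω, Nat.card (stabilizer H c) := by
    simp only [fx, card_filter]
    rw [sum_comm]
    refine sum_congr rfl fun c _ => ?_
    rw [← card_filter, ← Fintype.card_subtype, ← Nat.card_eq_fintype_card]
    rfl
  rw [burnside] at h1
  have h3 : ∑ c : Ω, (6 * Nat.card (stabilizer H c) +
      if 3 ≤ (orbit H c).ncard then Nat.card H else 0) ≤
      ∑ c : Ω, (3 * Nat.card H + if c ∈ ln G a b then 3 * Nat.card H else 0) := by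
    refine sum_le_sum fun c _ => ?_
    have h4 := (stabilizer H c).card_mul_index
    rw [index_stabilizer] at h4
    have h0 : 0 < (orbit H c).ncard := (Set.ncard_pos (Set.toFinite _)).mpr (nonempty_orbit c)
    split_ifs with h5 h6 h6
    · nlinarith
    · nlinarith
    · nlinarith
    · have h7 : 2 ≤ (orbit H c).ncard := by
        by_contra h
        apply h6
        obtain ⟨x, hx⟩ := Set.ncard_eq_one.mp (by omega : (orbit H c).ncard = 1)
        refine mem_ln.mpr fun g ha hb => ?_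
        have e1 : c ∈ ({x} : Set Ω) := hx ▸ mem_orbit_self c
        have e2 : g • c ∈ ({x} : Set Ω) := hx ▸ ⟨⟨g, mem_st.mpr ⟨ha, hb⟩⟩, rfl⟩
        exact e2.trans e1.symm
      nlinarith
  rw [sum_add_distrib, sum_add_distrib, ← mul_sum, ← h1, ← sum_filter, ← sum_filter, sum_const,
    sum_const, sum_const, filter_mem_eq_inter, univ_inter, card_univ] at h3
  simp only [smul_eq_mul] at h3
  have h0 : 0 < Nat.card H := Nat.card_pos
  refine Nat.le_of_mul_le_mul_right ?_ h0
  nlinarith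

theorem big_empty [FaithfulSMul G Ω] [IsPretransitive G Ω] (hn : 7 ≤ Fintype.card Ω) {a b : Ω}
    (h3 : #{c : Ω | 3 ≤ (orbit (stabilizer G (a, b)) c).ncard} ≤ 3) (c : Ω) :
    (orbit (stabilizer G (a, b)) c).ncard < 3 := by
  classical
  set H := stabilizer G (a, b)
  by_contra hc
  by_cases hsq : ∀ h : H, h ^ 2 = 1
  · have hp : IsPGroup 2 H := fun h => ⟨1, hsq h⟩
    have : Fact (Nat.Prime 2) := ⟨Nat.prime_two⟩
    obtain ⟨m, hm⟩ := hp.card_orbit c
    have h1 : orbit H c ⊆ (({c : Ω | 3 ≤ (orbit H c).ncard} : Finset Ω) : Set Ω) := by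
      intro x hx
      rw [mem_coe, mem_filter, orbit_eq_iff.mpr hx]
      exact ⟨mem_univ _, by omega⟩
    have h4 := Set.ncard_le_ncard h1
    rw [Set.ncard_coe_finset] at h4
    have h5 : 2 ^ m = 3 := by rw [← hm, Nat.card_coe_set_eq]; omega
    rcases m with _ | m
    · omega
    · rw [pow_succ] at h5; omega
  push Not at hsq
  obtain ⟨h, hh⟩ := hsq
  have hfix : ∀ k ∈ H, ∀ y : Ω, (orbit H y).ncard < 3 → k • k • y = y := by
    intro k hk y hy
    rcases small_orbit hy hk (H.mul_mem hk hk) with e | e | e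
    · rw [e, e]
    · rwa [mul_smul] at e
    · rw [mul_smul] at e
      rw [← smul_left_cancel k e, ← smul_left_cancel k e]
  have hprim : IsPreprimitive (toPermHom G Ω).range Ω := by
    apply isPreprimitive_of_is_two_pretransitive
    rw [is_two_pretransitive_iff]
    intro a b c d hab hcd
    obtain ⟨g, hg⟩ := h2 a b c d hab hcd
    exact ⟨⟨_, g, rfl⟩, hg⟩
  have halt := Support.alt_le_of_support_le_three _ hprim (h := toPermHom G Ω (h * h : G))
    ⟨_, rfl⟩ (fun e => hh (Subtype.ext (toPerm_injective (β := Ω) (by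
      rw [pow_two]; exact e.trans (map_one (toPermHom G Ω)).symm))))
    ((card_le_card fun y hy => mem_filter.mpr ⟨mem_univ _, by
      by_contra h4
      exact Equiv.Perm.mem_support.mp hy
        ((mul_smul _ _ _).trans (hfix h h.2 y (by omega)))⟩).trans h3)
  obtain ⟨y, hy⟩ : ∃ y, y ∉ insert a (insert b
      ({c : Ω | 3 ≤ (orbit H c).ncard} : Finset Ω)) := by
    by_contra h4
    push Not at h4
    have := card_le_card (fun x _ => h4 x : univ ⊆ _)
    have h5 := card_insert_le a (insert b ({c : Ω | 3 ≤ (orbit H c).ncard} : Finset Ω))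
    have h6 := card_insert_le b ({c : Ω | 3 ≤ (orbit H c).ncard} : Finset Ω)
    rw [card_univ] at this
    omega
  obtain ⟨d, hd, e, he, hde⟩ : ∃ d ∈ ({a, b, y} : Finset Ω)ᶜ, ∃ e ∈ ({a, b, y} : Finset Ω)ᶜ,
      d ≠ e := by
    rw [← one_lt_card, card_compl]
    have := card_le_three (a := a) (b := b) (c := y)
    omega
  simp only [mem_insert, mem_filter, mem_univ, true_and, not_or, mem_compl, mem_singleton,
    not_le] at hy hd he
  obtain ⟨k, hk⟩ := halt (show Equiv.swap y d * Equiv.swap y e ∈ alternatingGroup Ω by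
    simp [Equiv.Perm.mem_alternatingGroup, Ne.symm hd.2.2, Ne.symm he.2.2])
  have hk' : ∀ x, k • x = Equiv.swap y d (Equiv.swap y e x) := fun x => DFunLike.congr_fun hk x
  have h4 := hfix k (mem_st.mpr ⟨by
      rw [hk', Equiv.swap_apply_of_ne_of_ne (Ne.symm hy.1) (Ne.symm he.1),
        Equiv.swap_apply_of_ne_of_ne (Ne.symm hy.1) (Ne.symm hd.1)], by
      rw [hk', Equiv.swap_apply_of_ne_of_ne (Ne.symm hy.2.1) (Ne.symm he.2.1),
        Equiv.swap_apply_of_ne_of_ne (Ne.symm hy.2.1) (Ne.symm hd.2.1)]⟩) y hy.2.2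
  rw [hk', hk', Equiv.swap_apply_left, Equiv.swap_apply_of_ne_of_ne he.2.2 hde.symm,
    Equiv.swap_apply_right, Equiv.swap_apply_left] at h4
  exact hd.2.2 h4

theorem main [FaithfulSMul G Ω] [IsPretransitive G Ω] (hn : 7 ≤ Fintype.card Ω) {a b : Ω}
    (hab : a ≠ b) {t : G} (ht : t ≠ 1) (hta : t • a = a) (htb : t • b = b) :
    2 * Nat.card G ≤ Fintype.card Ω * der G Ω := by
  classical
  set H := stabilizer G (a, b) with hH
  have hs : 2 ≤ Nat.card H := Finite.one_lt_card_iff_nontrivial.mpr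
    ⟨⟨⟨t, mem_st.mpr ⟨hta, htb⟩⟩, 1, fun e => ht (congrArg Subtype.val e)⟩⟩
  have crit' : ∀ j : ℤ, 1 ≤ j → 2 * Nat.card H * (j * (j + 1)) ≤
      (Fintype.card Ω - j) * (Fintype.card Ω - j - 1) +
        (2 * j + 1) * Fintype.card Ω * Nat.card H -
        Fintype.card Ω * ∑ g : H, (fx Ω (g : G) : ℤ) →
      2 * Nat.card G ≤ Fintype.card Ω * der G Ω := crit h2 hab
  have critf : ∀ f : ℕ, 2 ≤ f → (∀ h ∈ H, h ≠ 1 → fx Ω h ≤ f) →
      (2 * Nat.card H - 1 : ℤ) * f ≤ (Nat.card H - 1) * Fintype.card Ω →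
      2 * Nat.card G ≤ Fintype.card Ω * der G Ω := by
    intro f hf h1 h3
    have h4 : ∑ g : H, (fx Ω (g : G) : ℤ) ≤
        ∑ g : H, ((f : ℤ) + if g = 1 then (Fintype.card Ω - f : ℤ) else 0) := by
      refine sum_le_sum fun g _ => ?_
      split_ifs with h
      · rw [h, OneMemClass.coe_one, fx_one]; omega
      · have := h1 g g.2 fun e => h (Subtype.ext e)
        omega
    rw [sum_add_distrib, sum_ite_eq', if_pos (mem_univ _), sum_const, card_univ,
      ← Nat.card_eq_fintype_card, nsmul_eq_mul] at h4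
    refine crit' (f - 1) (by omega) ?_
    have h5 := mul_le_mul_of_nonneg_left h4 (by positivity : (0 : ℤ) ≤ Fintype.card Ω)
    have h6 := mul_le_mul_of_nonneg_left h3 (by omega : (0 : ℤ) ≤ f - 1)
    nlinarith
  have critf3 : ∀ f : ℕ, 2 ≤ f → (∀ h ∈ H, h ≠ 1 → fx Ω h ≤ f) → 3 * f ≤ Fintype.card Ω →
      2 * Nat.card G ≤ Fintype.card Ω * der G Ω := fun f hf h1 h3 =>
    critf f hf h1 (by zify at hs h3; nlinarith)
  have hφ := two_le_ln (G := G) hab
  have hSB := fun g hg => fx_mul_le h2 hab (g := g) hg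
  rcases le_or_gt 4 #(ln G a b) with h4 | h4
  · refine critf3 ((Fintype.card Ω - 1) / 3) (by omega) (fun h _ h1 => ?_) (by omega)
    have := (Nat.mul_le_mul_left _ (by omega : 3 ≤ #(ln G a b) - 1)).trans (hSB h h1)
    omega
  have hF : ∑ g : H, (fx Ω (g : G) : ℤ) =
      Nat.card (Quotient (orbitRel H Ω)) * Nat.card H := by
    exact_mod_cast burnside (G := H) (X := Ω)
  have hc := count (G := G) a b
  rw [← hH] at hc
  generalize Nat.card (Quotient (orbitRel H Ω)) = T at hF hc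
  rcases le_or_gt (2 * T) (Fintype.card Ω) with hT | hT
  · obtain ⟨m, hm1, hm2, hm3⟩ : ∃ m : ℤ, 2 ≤ m ∧ T ≤ m + 1 ∧ 2 * (m + 1) ≤ Fintype.card Ω :=
      ⟨(Fintype.card Ω / 2 : ℕ) - 1, by omega, by omega, by omega⟩
    refine crit' m (by omega) ?_
    rw [hF]
    have h5 : (0 : ℤ) ≤ (Fintype.card Ω - m) * (Fintype.card Ω - m - 1) :=
      mul_nonneg (by omega) (by omega)
    have h6 : (0 : ℤ) ≤ Nat.card H := by positivity
    have h7 := mul_le_mul_of_nonneg_left hm2 (mul_nonneg h6 (by omega : (0 : ℤ) ≤ Fintype.card Ω))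
    have h8 := mul_le_mul_of_nonneg_left hm3 (mul_nonneg h6 (by omega : (0 : ℤ) ≤ m))
    nlinarith
  have hpar : #(ln G a b) = 3 → Fintype.card Ω % 2 = 1 := fun h => by
    have := card_pred_eq h2 hab a
    rw [h] at this
    omega
  by_cases hbig : ∀ c : Ω, (orbit H c).ncard < 3
  · have hB : ∀ u v : Ω, u ≠ v → ∀ g h : G, g • u = u → g • v = v → h • u = u → h • v = v →
        ∀ c : Ω, g • c = c ∨ h • c = c ∨ g • c = h • c := by
      intro u v huv g h hgu hgv hhu hhv c
      obtain ⟨w, rfl, rfl⟩ := h2 a b u v hab huv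
      have := small_orbit (hbig (w⁻¹ • c)) (g := w⁻¹ * g * w) (h := w⁻¹ * h * w)
        (mem_st.mpr ⟨by rw [mul_smul, mul_smul, hgu, inv_smul_smul],
          by rw [mul_smul, mul_smul, hgv, inv_smul_smul]⟩)
        (mem_st.mpr ⟨by rw [mul_smul, mul_smul, hhu, inv_smul_smul],
          by rw [mul_smul, mul_smul, hhv, inv_smul_smul]⟩)
      simpa [mul_smul] using this
    refine critf3 _ hφ (fun h hh h1 => fx_le_ln h2 hB hab h1 (mem_st.mp hh).1 (mem_st.mp hh).2) ?_
    by_contra h5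
    exact not_seven h2 hB hab (by omega) (by omega) ht hta htb
  have h3 : #(ln G a b) = 3 := by
    by_contra h
    exact hbig (big_empty h2 hn (by rw [← hH]; omega))
  push Not at hbig
  obtain ⟨c, hc'⟩ := hbig
  have h5 : 0 < #{c : Ω | 3 ≤ (orbit H c).ncard} := card_pos.mpr ⟨c, by simpa using hc'⟩
  have h6 := hpar h3
  have h7 : 2 * T = Fintype.card Ω + 1 := by omega
  rcases le_or_gt (Fintype.card Ω + 1) (2 * Nat.card H) with h8 | h8
  · refine critf (T - 1) (by omega) (fun h _ h1 => ?_) ?_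
    · have := hSB h h1
      rw [h3] at this
      omega
    · rw [Nat.cast_sub (by omega)]
      zify at h7 h8
      obtain h9 : (Fintype.card Ω : ℤ) = 2 * T - 1 := by omega
      rw [h9] at h8 ⊢
      push_cast
      nlinarith
  · refine crit' (T - 2) (by omega) ?_
    rw [hF]
    zify at h7 h8
    obtain h9 : (Fintype.card Ω : ℤ) = 2 * T - 1 := by omega
    rw [h9] at h8 ⊢
    nlinarith

end Cfsg.Agent.H3.Derange
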