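import Mathlib
import Cfsg.Agent.H7.LinRed

/-!
Tools for overgroups of extension-field subgroups: norm-one elements, duals over an extension
field, and elements of unipotent radicals.
-/

set_option autoImplicit false
set_option linter.unusedSectionVars false

namespace Cfsg.Agent.H3.Ext

open Module Cfsg.Agent.H7

section Field

variable {F K : Type*} [Field F] [Field K] [Algebra F K]

theorem card_sq_le [Finite K] {P : Subring K} (hP : P ≠ ⊤) : Nat.card P * Nat.card P ≤ Nat.card K := by
  have := Fintype.ofFinite K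
  obtain ⟨z, hz⟩ : ∃ z, z ∉ P := by
    by_contra h
    push Not at h
    exact hP (eq_top_iff.mpr fun x _ => h x)
  rw [← Nat.card_prod]
  refine Nat.card_le_card_of_injective (fun p : P × P => (p.1 : K) + p.2 * z) fun p p' h => ?_
  have h1 : (p.2 : K) = p'.2 := by
    by_contra hne
    apply hz
    have h2 := FiniteField.pow_card_sub_one_eq_one _ (sub_ne_zero.mpr hne)
    have h3 : Fintype.card K - 1 = (Fintype.card K - 2) + 1 := by
      have := Fintype.one_lt_card (α := K); omega
    rw [h3, pow_succ] at h2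
    have h4 : z = ((p.2 : K) - p'.2) ^ (Fintype.card K - 2) * ((p'.1 : K) - p.1) := by
      simp only at h
      linear_combination ((p.2 : K) - p'.2) ^ (Fintype.card K - 2) * h - z * h2
    rw [h4]
    exact P.mul_mem (P.pow_mem (P.sub_mem p.2.2 p'.2.2) _) (P.sub_mem p'.1.2 p.1.2)
  simp only [h1, add_left_inj] at h
  exact Prod.ext (Subtype.ext h) (Subtype.ext h1)

theorem subring_eq_top [Finite K] (hr : 2 ≤ finrank F K) {P : Subring K}
    (hP : ∀ u : K, Algebra.norm F u = 1 → u ∈ P) : P = ⊤ := by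
  by_contra hne
  have : Finite F := Finite.of_injective _ (algebraMap F K).injective
  have h1 := card_sq_le hne
  let N : Kˣ →* Fˣ := Units.map (Algebra.norm F : K →* F)
  have h2 : Nat.card N.ker * Nat.card N.range = Nat.card Kˣ := by
    rw [← Subgroup.index_ker, Subgroup.card_mul_index]
  have h3 : Nat.card N.range ≤ Nat.card Fˣ := Nat.card_le_card_of_injective _ Subtype.val_injective
  have h4 : Nat.card (Option N.ker) ≤ Nat.card P := by
    refine Nat.card_le_card_of_injective (fun o => o.elim 0 fun u =>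
      ⟨(u.1 : K), hP _ (congrArg Units.val u.2)⟩) ?_
    rintro (_ | u) (_ | u') h
    · rfl
    · exact absurd (congrArg Subtype.val h).symm u'.1.ne_zero
    · exact absurd (congrArg Subtype.val h) u.1.ne_zero
    · exact congrArg some (Subtype.ext (Units.ext (congrArg Subtype.val h)))
  rw [Nat.card_units] at h2 h3
  rw [Finite.card_option] at h4
  have h5 : Nat.card F ^ 2 ≤ Nat.card K := by
    rw [Module.natCard_eq_pow_finrank (K := F) (V := K)]
    exact Nat.pow_le_pow_right Nat.card_pos hr
  have h6 : 2 ≤ Nat.card F := Finite.one_lt_card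
  obtain ⟨q, hq⟩ : ∃ q, Nat.card F = q + 1 := ⟨Nat.card F - 1, by omega⟩
  rw [hq] at h3 h5 h6
  simp only [Nat.add_sub_cancel] at h3
  generalize Nat.card K = n at *
  generalize Nat.card P = p at *
  have h7 : n ≤ p * q := by
    have := Nat.mul_le_mul_left (Nat.card N.ker) h3
    have := Nat.mul_le_mul_right q h4
    have : 0 < n := by nlinarith
    nlinarith [Nat.sub_add_cancel this]
  have h8 : n * n ≤ n * (q * q) := by nlinarith [Nat.mul_le_mul h7 h7, Nat.mul_le_mul_right (q * q) h1]
  have h9 := Nat.le_of_mul_le_mul_left h8 (by nlinarith)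
  nlinarith

theorem exists_norm_one [Finite K] (hr : 2 ≤ finrank F K) :
    ∃ u : K, Algebra.norm F u = 1 ∧ u ≠ 1 := by
  by_contra h
  push Not at h
  have h1 := subring_eq_top hr (P := (algebraMap F K).range) fun u hu => ⟨1, by rw [h u hu, map_one]⟩
  have h2 : (⊥ : Subalgebra F K) = ⊤ := eq_top_iff.mpr fun x _ =>
    Algebra.mem_bot.mpr (show x ∈ (algebraMap F K).range from h1 ▸ Subring.mem_top x)
  have := Subalgebra.bot_eq_top_iff_finrank_eq_one.mp h2
  omega

theorem addSubgroup_eq_top [Finite K] (hr : 2 ≤ finrank F K) {S : AddSubgroup K}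
    (hS : ∀ u : K, Algebra.norm F u = 1 → ∀ s ∈ S, u * s ∈ S) {s : K} (hs : s ∈ S) (h0 : s ≠ 0)
    (k : K) : k ∈ S := by
  let P : Subring K :=
    { carrier := {l | ∀ s ∈ S, l * s ∈ S}
      mul_mem' := fun ha hb s hs => by rw [mul_assoc]; exact ha _ (hb s hs)
      one_mem' := fun s hs => by rwa [one_mul]
      add_mem' := fun ha hb s hs => by rw [add_mul]; exact S.add_mem (ha s hs) (hb s hs)
      zero_mem' := fun s _ => by rw [zero_mul]; exact S.zero_mem
      neg_mem' := fun ha s hs => by rw [neg_mul]; exact S.neg_mem (ha s hs) }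
  have h1 : k / s ∈ P := subring_eq_top hr (P := P) hS ▸ Subring.mem_top _
  simpa [h0] using h1 s hs

variable {V : Type*} [AddCommGroup V] [Module F V] [Module K V] [IsScalarTower F K V]

theorem exists_dualK [FiniteDimensional F K] [FiniteDimensional K V] {θ : K →ₗ[F] F} (hθ : θ ≠ 0)
    (φ : Dual F V) : ∃ ψ : Dual K V, ∀ x, θ (ψ x) = φ x := by
  let L : Dual K V →ₗ[F] Dual F V :=
    { toFun := fun ψ => θ ∘ₗ ψ.restrictScalars F
      map_add' := fun a b => by ext; simp
      map_smul' := fun c a => by ext; simp }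
  have : FiniteDimensional F V := Module.Finite.trans K V
  have : FiniteDimensional F (Dual K V) := Module.Finite.trans K _
  have hL : Function.Injective L := by
    rw [injective_iff_map_eq_zero]
    intro ψ h
    by_contra hne
    apply hθ
    obtain ⟨x, hx⟩ := DFunLike.ne_iff.mp hne
    ext k
    simpa [L, mul_div_assoc, div_mul_cancel₀ _ hx] using DFunLike.congr_fun h ((k / ψ x) • x)
  have h1 := (LinearMap.injective_iff_surjective_of_finrank_eq_finrank (f := L) (by
    rw [← finrank_mul_finrank F K, Subspace.dual_finrank_eq, Subspace.dual_finrank_eq,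
      finrank_mul_finrank])).mp hL
  obtain ⟨ψ, h⟩ := h1 φ
  exact ⟨ψ, fun x => DFunLike.congr_fun h x⟩

/-- A subspace invariant under an element outside the ground field is a subspace over the
extension field, when the degree is prime. -/
theorem smul_mem_of_prime (hr : (finrank F K).Prime) {D : Submodule F V} {τ : K}
    (hτ : τ ∉ (algebraMap F K).range) (hD : ∀ d ∈ D, τ • d ∈ D) (k : K) {d : V} (hd : d ∈ D) :
    k • d ∈ D := by
  let P : Subalgebra F K :=
    { carrier := {l | ∀ d ∈ D, l • d ∈ D}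
      mul_mem' := fun ha hb s hs => by rw [mul_smul]; exact ha _ (hb s hs)
      add_mem' := fun ha hb s hs => by rw [add_smul]; exact D.add_mem (ha s hs) (hb s hs)
      algebraMap_mem' := fun c s hs => by rw [algebraMap_smul]; exact D.smul_mem c hs }
  have := Subalgebra.isSimpleOrder_of_finrank_prime F K hr
  rcases eq_bot_or_eq_top P with h | h
  · exact absurd (Algebra.mem_bot.mp (h ▸ hD : τ ∈ (⊥ : Subalgebra F K))) hτ
  · exact (h ▸ Algebra.mem_top : k ∈ P) d hd

variable (F K) in
/-- The line over the extension field spanned by a vector. -/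
def ln (v : V) : Submodule F V := (K ∙ v).restrictScalars F

theorem mem_ln {v x : V} : x ∈ ln F K v ↔ ∃ k : K, k • v = x := Submodule.mem_span_singleton

theorem smul_mem_ln (k : K) (v : V) : k • v ∈ ln F K v := mem_ln.mpr ⟨k, rfl⟩

theorem self_mem_ln (v : V) : v ∈ ln F K v := mem_ln.mpr ⟨1, one_smul _ _⟩

theorem ln_smul_mem {v x : V} (h : x ∈ ln F K v) (k : K) : k • x ∈ ln F K v :=
  (K ∙ v).smul_mem k h

theorem ln_eq {v x : V} (h : x ∈ ln F K v) (h0 : x ≠ 0) : ln F K x = ln F K v := by
  obtain ⟨k, rfl⟩ := mem_ln.mp h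
  have : k ≠ 0 := fun e => h0 (by rw [e, zero_smul])
  rw [ln, ln, Submodule.span_singleton_smul_eq (IsUnit.mk0 k this)]

theorem finrank_ln {v : V} (hv : v ≠ 0) : finrank F (ln F K v) = finrank F K :=
  ((LinearEquiv.toSpanNonzeroSingleton K V v hv).restrictScalars F).finrank_eq.symm

variable (K) in
/-- Semilinearity over the extension field. -/
def Semi (g : V ≃ₗ[F] V) : Prop := ∀ l : K, ∃ m : K, ∀ x, g (l • x) = m • g x

theorem semi_of_lines [FiniteDimensional K V] (hm : 2 ≤ finrank K V) {g : V ≃ₗ[F] V}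
    (h : ∀ (l : K) v, g (l • v) ∈ ln F K (g v)) : Semi K g := by
  intro l
  have : Nontrivial V := Module.nontrivial_of_finrank_pos (R := K) (by omega)
  obtain ⟨v, hv⟩ := exists_ne (0 : V)
  obtain ⟨m, hm'⟩ := mem_ln.mp (h l v)
  have h1 : ∀ x, g x ∉ K ∙ g v → g (l • x) = m • g x := by
    intro x hx
    obtain ⟨m1, h1⟩ := mem_ln.mp (h l x)
    obtain ⟨m2, h2⟩ := mem_ln.mp (h l (x + v))
    rw [smul_add, map_add, map_add, ← h1, ← hm'] at h2
    obtain ⟨φ, hφ, hφ0⟩ := exists_dual_one hx
    have h3 := congrArg φ h2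
    simp [hφ, hφ0 _ (Submodule.mem_span_singleton_self _)] at h3
    subst h3
    rw [smul_add, add_right_inj] at h2
    rw [← h1, smul_left_injective K (by simpa using hv) h2]
  refine ⟨m, fun x => ?_⟩
  by_cases hx : g x ∈ K ∙ g v
  · obtain ⟨w, -, hw⟩ := exists_notMem_of_finrank_lt (U := K ∙ g v) (W := ⊤) (by
      have := finrank_span_singleton_le (F := K) (g v)
      rw [finrank_top]; omega)
    obtain ⟨w, rfl⟩ := g.surjective w
    have h2 := h1 (x + w) fun h => hw (by rwa [map_add, Submodule.add_mem_iff_right _ hx] at h)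
    rwa [smul_add, map_add, map_add, smul_add, h1 w hw, add_left_inj] at h2
  · exact h1 x hx

end Field

section Unipotent

variable {F V : Type*} [Field F] [AddCommGroup V] [Module F V]

/-- `1 + y` is an element of `X` in the unipotent radical of the stabiliser of `A`. -/
structure Yq (X : Subgroup (V ≃ₗ[F] V)) (A : Submodule F V) (y : V →ₗ[F] V) : Prop where
  has : Has X fun x => x + y x
  zero : ∀ b ∈ A, y b = 0
  mem : ∀ x, y x ∈ A

variable {X : Subgroup (V ≃ₗ[F] V)} {A : Submodule F V} {y y' : V →ₗ[F] V}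

theorem Yq.add (h : Yq X A y) (h' : Yq X A y') : Yq X A (y + y') :=
  ⟨(h.has.comp h'.has).congr fun x => by simp [h.zero _ (h'.mem x)]; abel,
    fun b hb => by simp [h.zero b hb, h'.zero b hb], fun x => A.add_mem (h.mem x) (h'.mem x)⟩

theorem Yq.neg (h : Yq X A y) : Yq X A (-y) :=
  ⟨h.has.inv fun x => by simp [h.zero _ (h.mem x)], fun b hb => by simp [h.zero b hb],
    fun x => A.neg_mem (h.mem x)⟩

theorem Yq.sub (h : Yq X A y) (h' : Yq X A y') : Yq X A (y - y') := by
  rw [sub_eq_add_neg]; exact h.add h'.neg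

theorem Yq.conj (h : Yq X A y) {g : V ≃ₗ[F] V} (hg : g ∈ X) {A' : Submodule F V}
    (hA : ∀ x, g x ∈ A' ↔ x ∈ A) : Yq X A' ((g : V →ₗ[F] V) ∘ₗ y ∘ₗ (g.symm : V →ₗ[F] V)) :=
  ⟨h.has.conj hg fun x => by simp, fun b hb => by
    simp [h.zero (g.symm b) ((hA _).mp (by simpa using hb))], fun x => (hA _).mpr (h.mem _)⟩

theorem has_comm (h : Has X fun x => x + y x) (h' : Has X fun x => x + y' x)
    (h1 : ∀ x, y (y x) = 0) (h2 : ∀ x, y' (y' x) = 0) (h3 : ∀ x, y (y' (y x)) = 0)
    (h4 : ∀ x, y' (y (y' x)) = 0) : Has X fun x => x + (y (y' x) - y' (y x)) := by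
  have i1 : Has X fun x => x - y x := h.inv fun x => by simp [h1]
  have i2 : Has X fun x => x - y' x := h'.inv fun x => by simp [h2]
  refine (h.comp (h'.comp (i1.comp i2))).congr fun x => ?_
  simp only [map_add, map_sub, h1, h2, h3, h4]
  abel

end Unipotent

end Cfsg.Agent.H3.Ext
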