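import Mathlib
import Cfsg.Agent.H3.ExtBasic

/-!
Overgroups of the extension-field subgroups of the special linear group.
-/

set_option autoImplicit false
set_option linter.unusedSectionVars false

namespace Cfsg.Agent.H3.Ext

open Module Cfsg.Agent.H7

variable {F K V : Type*} [Field F] [Field K] [Algebra F K] [AddCommGroup V] [Module F V]
  [Module K V] [IsScalarTower F K V] [Finite K] [FiniteDimensional K V]
  {X : Subgroup (V ≃ₗ[F] V)}

theorem tv_congr {φ φ' : Dual F V} {v : V} (h : TV X φ v) (e : ∀ x, φ x = φ' x) : TV X φ' v :=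
  LinearMap.ext e ▸ h

section

variable (hX : ∀ g : V ≃ₗ[F] V, Semi K g → g ∈ SLV F V → g ∈ X)
include hX

theorem mem_of_K (t : V ≃ₗ[K] V) (h : Algebra.norm F (LinearMap.det (t : V →ₗ[K] V)) = 1) :
    t.restrictScalars F ∈ X :=
  hX _ (fun l => ⟨l, fun x => t.map_smul l x⟩) (mem_SLV.mpr (by
    rw [← h, ← LinearMap.det_restrictScalars]; rfl))

theorem exists_tK {ψ : Dual K V} {v : V} (h : Algebra.norm F (1 + ψ v) = 1) :
    ∃ t : V ≃ₗ[K] V, t.restrictScalars F ∈ X ∧ ∀ x, t x = x + ψ x • v := by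
  have h0 : 1 + ψ v ≠ 0 := fun e => by
    rw [e, Algebra.norm_zero] at h; exact zero_ne_one h
  refine ⟨LinearEquiv.dilatransvection (IsUnit.mk0 _ h0), mem_of_K hX _ ?_, fun _ => rfl⟩
  rw [LinearEquiv.dilatransvection.coe_toLinearMap, LinearMap.transvection.det, h]

theorem exists_moveK (hm : 2 ≤ finrank K V) {v w : V} (hv : v ≠ 0) (hw : w ≠ 0) :
    ∃ t : V ≃ₗ[K] V, t.restrictScalars F ∈ X ∧ t v = w := by
  obtain ⟨t, -, ht, -, h⟩ := exists_tv_move' (X := ⊤) (U := (⊥ : Submodule K V)) (v := w) (v' := v)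
    (fun φ v h => tv_of_forall h fun _ _ _ => Subgroup.mem_top _) (by simpa using hw)
    (by simpa using hv) (by simpa using hm)
  exact ⟨t, mem_of_K hX t (by rw [mem_SLV.mp ht, map_one]), h⟩

theorem yq_K {ψ : Dual K V} {v : V} (h : ψ v = 0) :
    Yq X (ln F K v) ((ψ.smulRight v).restrictScalars F) := by
  obtain ⟨t, ht, ht'⟩ := exists_tK hX (ψ := ψ) (v := v) (by rw [h, add_zero, map_one])
  refine ⟨⟨_, ht, ht'⟩, fun b hb => ?_, fun x => smul_mem_ln _ _⟩
  obtain ⟨k, rfl⟩ := mem_ln.mp hb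
  simp [h]

theorem exists_root {v s b : V} (hs : s ∉ ln F K v) (hb : b ∈ ln F K v) :
    ∃ y : V →ₗ[F] V, (∀ t : F, Yq X (ln F K v) (t • y)) ∧ y s = b ∧
      (b ≠ 0 → ∀ c ∈ ln F K v, ∃ x, y x = c) := by
  obtain ⟨β, rfl⟩ := mem_ln.mp hb
  obtain ⟨φ, hφ, hφ0⟩ := exists_dual_one (F := K) hs
  have h0 := hφ0 v (Submodule.mem_span_singleton_self v)
  refine ⟨((β • φ).smulRight v).restrictScalars F, fun t => ?_, by simp [hφ], fun hb c hc => ?_⟩
  · convert yq_K hX (ψ := t • β • φ) (v := v) (by simp [h0]) using 1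
    ext x
    simp [smul_assoc]
  · obtain ⟨γ, rfl⟩ := mem_ln.mp hc
    have : β ≠ 0 := fun e => hb (by rw [e, zero_smul])
    exact ⟨(γ / β) • s, by simp [hφ, smul_smul, div_mul_cancel₀ _ this]⟩

theorem exists_root' {g : V ≃ₗ[F] V} (hg : g ∈ X) {v s b : V}
    (hs : s ∉ (ln F K v).map (g : V →ₗ[F] V)) (hb : b ∈ (ln F K v).map (g : V →ₗ[F] V)) :
    ∃ y : V →ₗ[F] V, (∀ t : F, Yq X ((ln F K v).map (g : V →ₗ[F] V)) (t • y)) ∧ y s = b ∧
      (b ≠ 0 → ∀ c ∈ (ln F K v).map (g : V →ₗ[F] V), ∃ x, y x = c) := by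
  obtain ⟨b, hb, rfl⟩ := hb
  obtain ⟨s, rfl⟩ := g.surjective s
  obtain ⟨y, h1, h2, h3⟩ := exists_root hX (s := s) (fun h => hs ⟨s, h, rfl⟩) hb
  refine ⟨(g : V →ₗ[F] V) ∘ₗ y ∘ₗ (g.symm : V →ₗ[F] V), fun t => ?_, by simp [h2], ?_⟩
  · convert (h1 t).conj hg (A' := (ln F K v).map (g : V →ₗ[F] V)) (by simp) using 1
    ext x; simp
  · rintro hb _ ⟨c, hc, rfl⟩
    obtain ⟨x, hx⟩ := h3 (fun e => hb (by simp [e])) c hc
    exact ⟨g x, by simp [hx]⟩

theorem tv_of_kill (hr : 2 ≤ finrank F K) {φ φ' : Dual F V} {δ : V} (h : TV X φ δ) (h0 : φ ≠ 0)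
    (hφ : ∀ k : K, φ (k • δ) = 0) (hφ' : ∀ k : K, φ' (k • δ) = 0) : TV X φ' δ := by
  obtain ⟨w, hw⟩ : ∃ w, φ w ≠ 0 := DFunLike.ne_iff.mp h0
  let θ : K →ₗ[F] F := φ ∘ₗ (LinearMap.toSpanSingleton K V w).restrictScalars F
  have hθ : ∀ k, θ k = φ (k • w) := fun _ => rfl
  have hθ0 : θ ≠ 0 := fun e => hw (by simpa [hθ] using DFunLike.congr_fun e 1)
  have hδ : φ δ = 0 := by simpa using hφ 1
  have key : ∀ ψ : Dual K V, ψ δ = 0 → ψ w = 1 → ∀ l : K,
      TV X (θ ∘ₗ (l • ψ).restrictScalars F) δ := by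
    intro ψ hψδ hψw
    have hc : ∀ u : K, Algebra.norm F u = 1 → ∀ χ : Dual F V, TV X χ δ →
        TV X (χ + χ ∘ₗ (((u - 1) • ψ).smulRight w).restrictScalars F) δ := by
      intro u hu χ hχ
      obtain ⟨t, ht, ht'⟩ := exists_tK hX (ψ := (u - 1) • ψ) (v := w) (by simpa [hψw] using hu)
      have h1 : t.symm δ = δ := by rw [LinearEquiv.symm_apply_eq, ht']; simp [hψδ]
      have := hχ.conj (X.inv_mem ht)
        (ψ := χ + χ ∘ₗ (((u - 1) • ψ).smulRight w).restrictScalars F) fun x => by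
          have h2 := ht' (t.symm x)
          rw [t.apply_symm_apply] at h2
          conv_rhs => rw [h2, map_add]
          rfl
      exact h1 ▸ this
    let S : AddSubgroup K :=
      { carrier := {l | TV X (θ ∘ₗ (l • ψ).restrictScalars F) δ}
        add_mem' := fun {a b} ha hb =>
          tv_congr (TV.add_left ha hb (by simp [hψδ])) fun x => by simp [add_mul]
        zero_mem' := tv_congr (TV.zero_left δ) fun x => by simp
        neg_mem' := fun {a} ha => tv_congr (TV.neg_left ha (by simp [hψδ])) fun x => by simp }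
    obtain ⟨u, hu, hu1⟩ := exists_norm_one hr
    refine addSubgroup_eq_top hr (S := S) (s := u - 1) (fun u hu s hs => ?_) ?_ (sub_ne_zero.mpr hu1)
    · refine tv_congr (hc u hu _ hs) fun x => ?_
      simp only [LinearMap.comp_apply, LinearMap.add_apply, LinearMap.restrictScalars_apply,
        LinearMap.smul_apply, LinearMap.smulRight_apply, map_smul, hψw, ← map_add]
      congr 1
      simp only [smul_eq_mul]; ring
    · exact tv_congr ((hc u hu _ h).sub_left h (by simp [hδ, hψδ]) hδ) fun x => by simp [hθ]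
  have : FiniteDimensional F K := Module.finite_of_finrank_pos (by omega)
  obtain ⟨ψ, hψ⟩ := exists_dualK hθ0 φ'
  have hψδ : ψ δ = 0 := by
    by_contra hne
    apply hθ0
    ext k
    rw [LinearMap.zero_apply, ← hφ' (k / ψ δ), ← hψ, map_smul, smul_eq_mul, div_mul_cancel₀ _ hne]
  have key2 : ∀ ψ : Dual K V, ψ δ = 0 → ψ w ≠ 0 → TV X (θ ∘ₗ ψ.restrictScalars F) δ := by
    intro ψ h1 h2
    convert key ((ψ w)⁻¹ • ψ) (by simp [h1]) (by simp [h2]) (ψ w) using 3
    rw [smul_smul, mul_inv_cancel₀ h2, one_smul]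
  by_cases hψw : ψ w = 0
  · obtain ⟨χ, hχ, hχ0⟩ := exists_dual_one (F := K) (U := K ∙ δ) (v := w) fun h => by
      obtain ⟨k, rfl⟩ := Submodule.mem_span_singleton.mp h
      exact hw (hφ k)
    have h1 := hχ0 δ (Submodule.mem_span_singleton_self δ)
    convert (key2 (ψ + χ) (by simp [h1, hψδ]) (by simp [hψw, hχ])).sub_left
      (key2 χ h1 (by simp [hχ])) (by simp [h1, hψδ]) (by simp [h1]) using 1
    ext x
    simp [hψ]
  · convert key2 ψ hψδ hψw using 1
    ext x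
    simp [hψ]

theorem SLV_le_of_tv_kill (hr : 2 ≤ finrank F K) (hm : 2 ≤ finrank K V) {φ : Dual F V} {δ : V}
    (h : TV X φ δ) (h0 : φ ≠ 0) (hδ : δ ≠ 0) (hφ : ∀ k : K, φ (k • δ) = 0) : SLV F V ≤ X := by
  have : FiniteDimensional F K := Module.finite_of_finrank_pos (by omega)
  have : FiniteDimensional F V := Module.Finite.trans K V
  have h1 : ∀ (v : V) (φ' : Dual F V), (∀ k : K, φ' (k • v) = 0) → TV X φ' v := by
    intro v φ' hφ'
    by_cases hv : v = 0
    · rw [hv]; exact TV.zero_right _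
    obtain ⟨t, ht, rfl⟩ := exists_moveK hX hm hδ hv
    exact (tv_of_kill hX hr h h0 hφ (φ' := φ' ∘ₗ (t.restrictScalars F : V →ₗ[F] V))
      fun k => by simpa using hφ' k).conj ht fun _ => rfl
  refine SLV_le_of_tv fun φ' v hv => ?_
  by_cases hv0 : v = 0
  · rw [hv0]; exact TV.zero_right _
  obtain ⟨w, -, hw⟩ := exists_notMem_of_finrank_lt (U := K ∙ v) (W := ⊤) (by
    have := finrank_span_singleton_le (F := K) v
    rw [finrank_top]; omega)
  obtain ⟨χ, hχ, hχ0⟩ := exists_dual_one (notMem_sup_span_swap (F := K) (U := ⊥) (v := v) (z := w)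
    (by simpa using hv0) (by simpa using hw))
  have hχw := hχ0 w (Submodule.mem_sup_right (Submodule.mem_span_singleton_self w))
  obtain ⟨φ₁, hφ₁, hφ₁0⟩ := exists_dual_one (F := F) (U := ln F K v) hw
  let ψ : Dual F V := φ' ∘ₗ (χ.smulRight v).restrictScalars F
  have hψ : ∀ x, ψ x = φ' (χ x • v) := fun _ => rfl
  have h2 := (h1 v φ₁ fun k => hφ₁0 _ (smul_mem_ln k v)).comm
    (h1 w ψ fun k => by simp [hψ, hχw]) (hφ₁0 _ (self_mem_ln v)) (by simp [hψ, hχw])
    (by simp [hψ, hχ, hv])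
  rw [hφ₁, one_smul] at h2
  simpa using h2.add_left (h1 v (φ' - ψ) fun k => by simp [hψ, hχ]) (by simp [hψ, hχ, hv])

theorem exists_increase (hr : (finrank F K).Prime) {v : V} (hv : v ≠ 0) {g : V ≃ₗ[F] V}
    (hg : g ∈ X) (h0 : ln F K v ⊓ (ln F K v).map (g : V →ₗ[F] V) ≠ ⊥)
    (hd : finrank F ↥(ln F K v ⊓ (ln F K v).map (g : V →ₗ[F] V)) + 2 ≤ finrank F K) :
    ∃ g' ∈ X, (ln F K v).map (g' : V →ₗ[F] V) ≠ ln F K v ∧
      finrank F ↥(ln F K v ⊓ (ln F K v).map (g : V →ₗ[F] V)) <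
        finrank F ↥(ln F K v ⊓ (ln F K v).map (g' : V →ₗ[F] V)) := by
  have : FiniteDimensional F K := Module.finite_of_finrank_pos hr.pos
  have : FiniteDimensional F V := Module.Finite.trans K V
  set A := ln F K v with hA
  set A' := A.map (g : V →ₗ[F] V) with hA'
  have hA1 : finrank F A' = finrank F K := by rw [hA', LinearEquiv.finrank_map_eq, finrank_ln hv]
  obtain ⟨s, hs, hsD⟩ := exists_notMem_of_finrank_lt (U := A ⊓ A') (W := A') (by omega)
  obtain ⟨s', hs', hsD'⟩ := exists_notMem_of_finrank_lt (U := (A ⊓ A') ⊔ F ∙ s) (W := A') (by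
    have := finrank_sup_span_le (A ⊓ A') s; omega)
  have hsA : s ∉ A := fun h => hsD ⟨h, hs⟩
  obtain ⟨ψ, hψ, h1, h2⟩ : ∃ ψ : Dual K V, ψ v = 0 ∧ ψ s • v ∈ A' ∧ ψ s' • v ∉ A' := by
    obtain ⟨a, ha, haD⟩ := exists_notMem_of_finrank_lt (U := A ⊓ A') (W := A) (by
      have : finrank F A = finrank F K := finrank_ln hv
      omega)
    by_cases hs2 : s' ∈ (K ∙ v) ⊔ K ∙ s
    · obtain ⟨b, hb, τ, rfl⟩ := mem_sup_span_singleton.mp hs2
      have hτ : τ ∉ (algebraMap F K).range := by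
        rintro ⟨c, rfl⟩
        rw [algebraMap_smul] at hs' hsD'
        exact hsD' (mem_sup_span_singleton.mpr ⟨b, ⟨hb,
          (A'.add_mem_iff_left (A'.smul_mem c hs)).mp hs'⟩, c, rfl⟩)
      obtain ⟨d, hd, hτd⟩ : ∃ d ∈ A ⊓ A', τ • d ∉ A ⊓ A' := by
        by_contra hcon
        push Not at hcon
        obtain ⟨d, hd, hd0⟩ := (Submodule.ne_bot_iff _).mp h0
        obtain ⟨k, rfl⟩ := mem_ln.mp (show a ∈ ln F K d from ln_eq hd.1 hd0 ▸ ha)
        exact haD (smul_mem_of_prime hr hτ hcon k hd)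
      obtain ⟨α, rfl⟩ := mem_ln.mp hd.1
      obtain ⟨χ, hχ, hχ0⟩ := exists_dual_one (F := K) (U := K ∙ v) hsA
      refine ⟨α • χ, by simp [hχ0 v (Submodule.mem_span_singleton_self v)], by simpa [hχ] using hd.2,
        fun h => hτd ⟨ln_smul_mem hd.1 τ, ?_⟩⟩
      simpa [hχ, hχ0 b hb, smul_smul, mul_comm] using h
    · obtain ⟨χ, hχ, hχ0⟩ := exists_dual_one hs2
      obtain ⟨α, rfl⟩ := mem_ln.mp ha
      refine ⟨α • χ, by simp [hχ0 v (Submodule.mem_sup_left (Submodule.mem_span_singleton_self v))],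
        by simp [hχ0 s (Submodule.mem_sup_right (Submodule.mem_span_singleton_self s))],
        fun h => haD ⟨ha, by simpa [hχ] using h⟩⟩
  obtain ⟨⟨t, ht, ht'⟩, hy0, -⟩ := yq_K hX hψ
  have hmem : ∀ x, x ∈ A.map ((g⁻¹ * t * g : V ≃ₗ[F] V) : V →ₗ[F] V) ↔ ∃ y ∈ A', g x = t y := by
    intro x
    constructor
    · rintro ⟨y, hy, rfl⟩
      exact ⟨g y, ⟨y, hy, rfl⟩, g.apply_symm_apply _⟩
    · rintro ⟨_, ⟨y, hy, rfl⟩, h⟩
      exact ⟨y, hy, g.symm_apply_eq.mpr h.symm⟩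
  have hmemA : ∀ x, x ∈ A ↔ g x ∈ A' := fun x => by simp [hA']
  refine ⟨g⁻¹ * t * g, X.mul_mem (X.mul_mem (X.inv_mem hg) ht) hg, fun e => h2 ?_, ?_⟩
  · have h3 : g.symm (t s') ∈ A := e ▸ (hmem _).mpr ⟨s', hs', g.apply_symm_apply _⟩
    rw [hmemA, g.apply_symm_apply, ht'] at h3
    exact (A'.add_mem_iff_right hs').mp h3
  · have h3 : t s ∉ A ⊓ A' := fun h => hsA ((A.add_mem_iff_left (smul_mem_ln _ v)).mp (ht' s ▸ h.1))
    have h4 := Submodule.finrank_sup_span_singleton h3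
    rw [← LinearEquiv.finrank_map_eq g.symm] at h4
    refine lt_of_lt_of_le (Nat.lt_succ_self _) (h4.ge.trans (Submodule.finrank_mono ?_))
    rintro _ ⟨x, hx, rfl⟩
    obtain ⟨d, hd, c, rfl⟩ := mem_sup_span_singleton.mp hx
    refine ⟨(hmemA _).mpr ?_, (hmem _).mpr ⟨d + c • s, A'.add_mem hd.2 (A'.smul_mem c hs), ?_⟩⟩
    · rw [LinearEquiv.coe_coe, g.apply_symm_apply, ht']
      exact A'.add_mem hd.2 (A'.smul_mem c (A'.add_mem hs h1))
    · rw [LinearEquiv.coe_coe, g.apply_symm_apply, map_add, map_smul]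
      simp only [ht' d, hy0 d hd.1, add_zero]

theorem exists_codim_one (hr : (finrank F K).Prime) (hm : 2 ≤ finrank K V) {g₀ : V ≃ₗ[F] V}
    (hg₀ : g₀ ∈ X) (hs : ¬ Semi K g₀) : ∃ v : V, v ≠ 0 ∧ ∃ g ∈ X,
      finrank F ↥(ln F K v ⊓ (ln F K v).map (g : V →ₗ[F] V)) + 1 = finrank F K := by
  have : FiniteDimensional F K := Module.finite_of_finrank_pos hr.pos
  have : FiniteDimensional F V := Module.Finite.trans K V
  obtain ⟨l, v, hlv⟩ : ∃ (l : K) (v : V), g₀ (l • v) ∉ ln F K (g₀ v) := by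
    by_contra h
    push Not at h
    exact hs (semi_of_lines hm h)
  have hv : v ≠ 0 := fun e => hlv (by simp [e])
  refine ⟨v, hv, ?_⟩
  have key : ∀ k : ℕ, ∀ g ∈ X, (ln F K v).map (g : V →ₗ[F] V) ≠ ln F K v →
      ln F K v ⊓ (ln F K v).map (g : V →ₗ[F] V) ≠ ⊥ →
      finrank F K ≤ finrank F ↥(ln F K v ⊓ (ln F K v).map (g : V →ₗ[F] V)) + k → ∃ g ∈ X,
      finrank F ↥(ln F K v ⊓ (ln F K v).map (g : V →ₗ[F] V)) + 1 = finrank F K := by
    intro k
    induction k with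
    | zero =>
      intro g _ h1 _ h3
      exfalso
      apply h1
      have h4 := Submodule.eq_of_le_of_finrank_le
        (inf_le_left : ln F K v ⊓ (ln F K v).map (g : V →ₗ[F] V) ≤ _) (by rwa [finrank_ln hv])
      exact (Submodule.eq_of_le_of_finrank_le (inf_eq_left.mp h4)
        (LinearEquiv.finrank_map_eq g _).le).symm
    | succ k ih =>
      intro g hg h1 h2 h3
      rcases Nat.lt_trichotomy (finrank F ↥(ln F K v ⊓ (ln F K v).map (g : V →ₗ[F] V)) + 1)
        (finrank F K) with h | h | h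
      · obtain ⟨g', hg', h4, h5⟩ := exists_increase hX hr hv hg h2 h
        exact ih g' hg' h4 (fun e => by rw [e, finrank_bot] at h5; omega) (by omega)
      · exact ⟨g, hg, h⟩
      · exact ih g hg h1 h2 (by omega)
  obtain ⟨t, ht, htv⟩ := exists_moveK hX hm (v := g₀ v) (by simpa using hv) hv
  refine key (finrank F K) (t.restrictScalars F * g₀) (X.mul_mem ht hg₀) (fun e => hlv ?_)
    ((Submodule.ne_bot_iff _).mpr ⟨v, ⟨self_mem_ln v, v, self_mem_ln v, htv⟩, hv⟩) (by omega)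
  have : t (g₀ (l • v)) ∈ ln F K v := e ▸ ⟨l • v, smul_mem_ln l v, rfl⟩
  obtain ⟨k, hk⟩ := mem_ln.mp this
  exact mem_ln.mpr ⟨k, t.injective (by rw [map_smul, htv, hk])⟩

omit hX in
theorem decomp_of_codim_one [FiniteDimensional F V] {A D : Submodule F V} (hDA : D ≤ A)
    (h : finrank F D + 1 = finrank F A) {a : V} (ha : a ∈ A) (haD : a ∉ D) {b : V} (hb : b ∈ A) :
    ∃ d ∈ D, ∃ t : F, b = d + t • a := by
  have h1 : D ⊔ F ∙ a = A := Submodule.eq_of_le_of_finrank_eq (sup_le hDA (by simpa using ha))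
    (by rw [Submodule.finrank_sup_span_singleton haD, h])
  exact mem_sup_span_singleton.mp (h1 ▸ hb)

theorem SLV_le_of_yq (hr : 2 ≤ finrank F K) (hm : 2 ≤ finrank K V) {v : V} (hv : v ≠ 0)
    {g : V ≃ₗ[F] V} (hg : g ∈ X)
    (hd : finrank F ↥(ln F K v ⊓ (ln F K v).map (g : V →ₗ[F] V)) + 1 = finrank F K) {a' : V}
    (ha' : a' ∈ (ln F K v).map (g : V →ₗ[F] V)) (ha'A : a' ∉ ln F K v) {y₀ : V →ₗ[F] V}
    (hy₀ : Yq X (ln F K v) y₀) (h0 : y₀ a' = 0) (hne : y₀ ≠ 0) : SLV F V ≤ X := by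
  have : FiniteDimensional F K := Module.finite_of_finrank_pos (by omega)
  have : FiniteDimensional F V := Module.Finite.trans K V
  have hroot := fun s b => exists_root' hX hg (v := v) (s := s) (b := b)
  set A := ln F K v with hA
  set A' := A.map (g : V →ₗ[F] V) with hA'
  have hA0 : finrank F A = finrank F K := finrank_ln hv
  have hA1 : finrank F A' = finrank F K := by rw [hA', LinearEquiv.finrank_map_eq, hA0]
  obtain ⟨a, ha, haD⟩ := exists_notMem_of_finrank_lt (U := A ⊓ A') (W := A) (by omega)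
  obtain ⟨δ, hδ, hδ0⟩ := exists_notMem_of_finrank_lt (U := ⊥) (W := A ⊓ A') (by
    rw [finrank_bot]; omega)
  rw [Submodule.mem_bot] at hδ0
  obtain ⟨θ, hθ, hθ0⟩ := exists_dual_one haD
  obtain ⟨x₀, hx₀⟩ : ∃ x, y₀ x ≠ 0 := DFunLike.ne_iff.mp hne
  obtain ⟨u, hu, huD⟩ : ∃ u : K, Algebra.norm F u = 1 ∧ u • y₀ x₀ ∉ A ⊓ A' := by
    by_contra hcon
    push Not at hcon
    let S : AddSubgroup K :=
      { carrier := {k | ∀ u : K, Algebra.norm F u = 1 → (u * k) • y₀ x₀ ∈ A ⊓ A'}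
        add_mem' := fun ha hb u hu => by
          rw [mul_add, add_smul]; exact Submodule.add_mem _ (ha u hu) (hb u hu)
        zero_mem' := fun u _ => by simp
        neg_mem' := fun ha u hu => by
          rw [mul_neg, neg_smul]; exact Submodule.neg_mem _ (ha u hu) }
    obtain ⟨k, rfl⟩ := mem_ln.mp (show a ∈ ln F K (y₀ x₀) from ln_eq (hy₀.mem x₀) hx₀ ▸ ha)
    have := addSubgroup_eq_top hr (S := S) (s := 1) (fun u hu s hs u' hu' => by
      rw [← mul_assoc]; exact hs _ (by rw [map_mul, hu, hu', mul_one]))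
      (fun u hu => by rw [mul_one]; exact hcon u hu) one_ne_zero k 1 (map_one _)
    exact haD (by rwa [one_mul] at this)
  obtain ⟨χ, hχ⟩ := exists_dual_one' (F := K) hv
  obtain ⟨t, ht, ht'⟩ := exists_tK hX (ψ := (u - 1) • χ) (v := v) (by simpa [hχ] using hu)
  have hy := hy₀.conj ht (A' := A) fun x => by
    change t x ∈ A ↔ _
    rw [ht']; exact A.add_mem_iff_left (smul_mem_ln _ _)
  have hyx : ∀ x, ((t.restrictScalars F : V →ₗ[F] V) ∘ₗ y₀ ∘ₗ
      ((t.restrictScalars F).symm : V →ₗ[F] V)) x = u • y₀ x := by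
    intro x
    obtain ⟨x, rfl⟩ := t.surjective x
    change t (y₀ (t.symm (t x))) = _
    rw [t.symm_apply_apply, ht' x, map_add, hy₀.zero _ (smul_mem_ln _ _), add_zero, ht']
    obtain ⟨k, hk⟩ := mem_ln.mp (hy₀.mem x)
    rw [← hk]
    simp only [LinearMap.smul_apply, map_smul, hχ, smul_eq_mul, smul_smul, ← add_smul]
    congr 1; ring
  generalize ((t.restrictScalars F : V →ₗ[F] V) ∘ₗ y₀ ∘ₗ
      ((t.restrictScalars F).symm : V →ₗ[F] V)) = y at hy hyx
  obtain ⟨y', hy', hy'a, -⟩ := hroot a δ (fun h => haD ⟨ha, h⟩) hδ.2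
  replace hy' := one_smul F y' ▸ hy' 1
  have h1 : ∀ x, y (y' x) = 0 := fun x => by
    obtain ⟨d, hd', c, e⟩ := decomp_of_codim_one (inf_le_right : A ⊓ A' ≤ A') (by omega) ha'
      (fun h => ha'A h.1) (hy'.mem x)
    rw [e, map_add, map_smul, hy.zero d hd'.1, hyx, h0]; simp
  have h2 : ∀ b ∈ A, y' b = θ b • δ := fun b hb => by
    obtain ⟨d, hd', c, rfl⟩ := decomp_of_codim_one (inf_le_left : A ⊓ A' ≤ A) (by omega) ha haD hb
    simp [hy'.zero d hd'.2, hθ0 d hd', hθ, hy'a]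
  refine SLV_le_of_tv_kill hX hr hm (φ := -(θ ∘ₗ y)) (δ := δ)
    ((has_comm hy.has hy'.has (fun x => hy.zero _ (hy.mem x)) (fun x => hy'.zero _ (hy'.mem x))
      (fun x => h1 _) fun x => by rw [h1, map_zero]).congr fun x => by
        simp [h1, h2 _ (hy.mem x)]) (fun e => huD ?_) hδ0
    fun k => by simp [hy.zero _ (ln_smul_mem hδ.1 k)]
  obtain ⟨d, hd', c, e'⟩ := decomp_of_codim_one (inf_le_left : A ⊓ A' ≤ A) (by omega) ha haD
    (hy.mem x₀)
  have h3 : c = 0 := by simpa [e', hθ0 d hd', hθ] using DFunLike.congr_fun e x₀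
  rw [← hyx, e', h3]
  simpa using hd'

theorem SLV_le_of_three_le (hr : 3 ≤ finrank F K) (hm : 2 ≤ finrank K V) {v : V} (hv : v ≠ 0)
    {g : V ≃ₗ[F] V} (hg : g ∈ X)
    (hd : finrank F ↥(ln F K v ⊓ (ln F K v).map (g : V →ₗ[F] V)) + 1 = finrank F K) :
    SLV F V ≤ X := by
  have : FiniteDimensional F K := Module.finite_of_finrank_pos (by omega)
  have : FiniteDimensional F V := Module.Finite.trans K V
  have hroot := fun s b => exists_root' hX hg (v := v) (s := s) (b := b)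
  have hfin := fun a' ha' ha'A y₀ => SLV_le_of_yq hX (by omega) hm hv hg hd (a' := a') ha' ha'A
    (y₀ := y₀)
  set A := ln F K v with hA
  set A' := A.map (g : V →ₗ[F] V) with hA'
  have hA0 : finrank F A = finrank F K := finrank_ln hv
  have hA1 : finrank F A' = finrank F K := by rw [hA', LinearEquiv.finrank_map_eq, hA0]
  obtain ⟨a, ha, haD⟩ := exists_notMem_of_finrank_lt (U := A ⊓ A') (W := A) (by omega)
  obtain ⟨a', ha', ha'D⟩ := exists_notMem_of_finrank_lt (U := A ⊓ A') (W := A') (by omega)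
  obtain ⟨δ, hδ, hδ0⟩ := exists_notMem_of_finrank_lt (U := ⊥) (W := A ⊓ A') (by
    rw [finrank_bot]; omega)
  obtain ⟨δ', hδ', hδ0'⟩ := exists_notMem_of_finrank_lt (U := F ∙ δ) (W := A ⊓ A') (by
    have := finrank_span_singleton_le (F := F) δ; omega)
  obtain ⟨y, hy, hya, -⟩ := exists_root hX (s := a') (fun h => ha'D ⟨h, ha'⟩) hδ'.1
  obtain ⟨y', hy', hy'a, hs⟩ := hroot a δ (fun h => haD ⟨ha, h⟩) hδ.2
  replace hy := one_smul F y ▸ hy 1
  replace hy' := one_smul F y' ▸ hy' 1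
  have h1 : ∀ b ∈ A', ∃ c : F, y b = c • δ' := fun b hb => by
    obtain ⟨d, hd', c, rfl⟩ := decomp_of_codim_one (inf_le_right : A ⊓ A' ≤ A') (by omega) ha'
      ha'D hb
    exact ⟨c, by simp [hy.zero d hd'.1, hya]⟩
  have h2 : ∀ b ∈ A, ∃ c : F, y' b = c • δ := fun b hb => by
    obtain ⟨d, hd', c, rfl⟩ := decomp_of_codim_one (inf_le_left : A ⊓ A' ≤ A) (by omega) ha haD hb
    exact ⟨c, by simp [hy'.zero d hd'.2, hy'a]⟩
  have h3 : ∀ b ∈ A, y (y' b) = 0 := fun b hb => by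
    obtain ⟨c, e⟩ := h2 b hb
    rw [e, map_smul, hy.zero δ hδ.1, smul_zero]
  have h4 : ∀ b ∈ A', y' (y b) = 0 := fun b hb => by
    obtain ⟨c, e⟩ := h1 b hb
    rw [e, map_smul, hy'.zero δ' hδ'.2, smul_zero]
  refine hfin a' ha' (fun h => ha'D ⟨h, ha'⟩) (y ∘ₗ y' - y' ∘ₗ y)
    ⟨has_comm hy.has hy'.has (fun x => hy.zero _ (hy.mem x)) (fun x => hy'.zero _ (hy'.mem x))
      (fun x => h3 _ (hy.mem x)) fun x => h4 _ (hy'.mem x), fun b hb => by
        simp [h3 b hb, hy.zero b hb], fun x => A.sub_mem (hy.mem _) ?_⟩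
    (by simp [h4 a' ha', hy'.zero a' ha']) fun e => hδ0' ?_
  · obtain ⟨c, e⟩ := h2 _ (hy.mem x)
    exact e ▸ A.smul_mem c hδ.1
  · obtain ⟨x, hx⟩ := hs (by simpa using hδ0) a' ha'
    obtain ⟨c, e'⟩ := h2 _ (hy.mem x)
    have := DFunLike.congr_fun e x
    simp only [LinearMap.sub_apply, LinearMap.comp_apply, hx, hya, e', LinearMap.zero_apply,
      sub_eq_zero] at this
    exact Submodule.mem_span_singleton.mpr ⟨c, this.symm⟩

theorem eq_zero_of_two (hr : finrank F K = 2) (hm : finrank K V = 2) (hn : ¬ SLV F V ≤ X)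
    {v : V} (hv : v ≠ 0) {g : V ≃ₗ[F] V} (hg : g ∈ X) {z : V →ₗ[F] V}
    (hz : Yq X ((ln F K v).map (g : V →ₗ[F] V)) z) {s : V}
    (hs : s ∉ (ln F K v).map (g : V →ₗ[F] V)) (h0 : z s = 0) : z = 0 := by
  have : FiniteDimensional F K := Module.finite_of_finrank_pos (by omega)
  have : FiniteDimensional F V := Module.Finite.trans K V
  have h1 := hz.conj (X.inv_mem hg) (A' := ln F K v) fun x => by
    obtain ⟨x, rfl⟩ := g.surjective x
    simp
  obtain ⟨s, rfl⟩ := g.surjective s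
  have h2 : s ∉ ln F K v := fun h => hs ⟨s, h, rfl⟩
  set z' := ((g⁻¹ : V ≃ₗ[F] V) : V →ₗ[F] V) ∘ₗ z ∘ₗ ((g⁻¹ : V ≃ₗ[F] V).symm : V →ₗ[F] V)
  have hz' : ∀ x, z' x = g.symm (z (g x)) := fun _ => rfl
  have h3 := Submodule.finrank_sup_span_singleton h2
  rw [finrank_ln hv] at h3
  have h4 : finrank F V = 4 := by rw [← finrank_mul_finrank F K V, hr, hm]
  obtain ⟨e, -, he⟩ := exists_notMem_of_finrank_lt (U := ln F K v ⊔ F ∙ s) (W := ⊤) (by
    rw [finrank_top]; omega)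
  obtain ⟨φ, hφ, hφ0⟩ := exists_dual_one he
  have h5 : ∀ x, z' x = φ x • z' e := fun x => by
    obtain ⟨d, hd, c, rfl⟩ := decomp_of_codim_one (le_top : ln F K v ⊔ F ∙ s ≤ ⊤)
      (by rw [finrank_top]; omega) (Submodule.mem_top (x := e)) he (Submodule.mem_top (x := x))
    have h6 : z' d = 0 := by
      obtain ⟨b, hb, c', rfl⟩ := mem_sup_span_singleton.mp hd
      rw [map_add, h1.zero b hb, map_smul, hz', h0]; simp
    simp [h6, hφ0 d hd, hφ]
  by_contra hne
  refine hn (SLV_le_of_tv_kill hX hr.ge hm.ge (φ := φ) (δ := z' e)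
    (h1.has.congr fun x => by rw [← h5]) (fun h => by simp [h] at hφ) (fun h => hne ?_)
    fun k => hφ0 _ (Submodule.mem_sup_left (ln_smul_mem (h1.mem e) k)))
  ext x
  obtain ⟨x, rfl⟩ := g.surjective x
  have := h5 x
  rw [h, smul_zero, hz'] at this
  simpa using this

theorem SLV_le_two_two (hr : finrank F K = 2) (hm : finrank K V = 2) {v : V} (hv : v ≠ 0)
    {g : V ≃ₗ[F] V} (hg : g ∈ X)
    (hd : finrank F ↥(ln F K v ⊓ (ln F K v).map (g : V →ₗ[F] V)) + 1 = finrank F K) :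
    SLV F V ≤ X := by
  have : FiniteDimensional F K := Module.finite_of_finrank_pos (by omega)
  have : FiniteDimensional F V := Module.Finite.trans K V
  by_contra hn
  have hroot := fun s b => exists_root' hX hg (v := v) (s := s) (b := b)
  have hzero := fun z hz s => eq_zero_of_two hX hr hm hn hv hg (z := z) hz (s := s)
  set A := ln F K v with hA
  set A' := A.map (g : V →ₗ[F] V) with hA'
  have hA0 : finrank F A = finrank F K := finrank_ln hv
  have hA1 : finrank F A' = finrank F K := by rw [hA', LinearEquiv.finrank_map_eq, hA0]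
  obtain ⟨a, ha, haD⟩ := exists_notMem_of_finrank_lt (U := A ⊓ A') (W := A) (by omega)
  obtain ⟨w, hw, hwD⟩ := exists_notMem_of_finrank_lt (U := A ⊓ A') (W := A') (by omega)
  obtain ⟨δ, hδ, hδ0⟩ := exists_notMem_of_finrank_lt (U := ⊥) (W := A ⊓ A') (by
    rw [finrank_bot]; omega)
  have haA : a ∉ A' := fun h => haD ⟨ha, h⟩
  have hwA : w ∉ A := fun h => hwD ⟨h, hw⟩
  have hdec : ∀ b ∈ A', ∃ c c' : F, b = c • δ + c' • w := fun b hb => by
    obtain ⟨d, hd', c', rfl⟩ := decomp_of_codim_one (inf_le_right : A ⊓ A' ≤ A') (by omega) hw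
      hwD hb
    obtain ⟨e, he, c, rfl⟩ := decomp_of_codim_one (bot_le : ⊥ ≤ A ⊓ A')
      (by rw [finrank_bot]; omega) hδ hδ0 hd'
    exact ⟨c, c', by rw [(Submodule.mem_bot F).mp he, zero_add]⟩
  rw [Submodule.mem_bot] at hδ0
  obtain ⟨y₂, hy₂, hy₂a, -⟩ := hroot a w haA hw
  replace hy₂ := one_smul F y₂ ▸ hy₂ 1
  by_cases hq : ∀ t : F, t ≠ 0 → t = 1
  swap
  · push Not at hq
    obtain ⟨t₀, ht₀, ht₁⟩ := hq
    obtain ⟨y, hy, hyw, hs⟩ := exists_root hX (s := w) hwA hδ.1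
    obtain ⟨y₁, hy₁, hy₁a, -⟩ := hroot a δ haA hδ.2
    have hy0 := (one_smul F y ▸ hy 1).zero
    have key : ∀ t : F, t ≠ 0 → ∀ x, y (y₂ x) - y₂ (y x) - y₁ x = t • y₁ (y x) := by
      intro t ht x
      obtain ⟨h, hh, hh'⟩ := (hy t).has
      have hyA : ∀ x ∈ A', (t • y) x ∈ A' := fun x hx => by
        obtain ⟨c, c', rfl⟩ := hdec x hx
        simp only [LinearMap.smul_apply, map_add, map_smul, hy0 δ hδ.1, hyw, smul_zero, zero_add]
        exact A'.smul_mem _ (A'.smul_mem _ hδ.2)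
      have h1 := ((hy₂.conj hh (A' := A') fun x => ((mem_stab_of_forall (W := A') (g := h)
        fun x hx => by rw [hh']; exact A'.add_mem hx (hyA x hx)) x).symm).sub hy₂).sub (hy₁ t)
      have h2 : h.symm a = a := by rw [h.symm_apply_eq, hh']; simp [hy0 a ha]
      have h3 := DFunLike.congr_fun (hzero _ h1 a haA (by
        simp [h2, hy₂a, hh', hyw, hy₁a])) (h x)
      simp only [LinearMap.sub_apply, LinearMap.comp_apply, LinearEquiv.coe_coe,
        LinearEquiv.symm_apply_apply, LinearMap.zero_apply] at h3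
      simp only [hh', LinearMap.smul_apply, map_add, map_smul] at h3
      apply smul_right_injective V ht
      linear_combination (norm := module) h3
    obtain ⟨x, hx⟩ := hs hδ0 a ha
    have h4 := (key 1 one_ne_zero x).symm.trans (key t₀ ht₀ x)
    rw [hx, hy₁a] at h4
    exact ht₁ (smul_left_injective F hδ0 h4).symm
  -- the field with two elements
  have hF : ∀ t : F, t = 0 ∨ t = 1 := fun t => (eq_or_ne t 0).imp id (hq t)
  have hall : ∀ g : V ≃ₗ[F] V, g ∈ SLV F V := fun g => mem_SLV.mpr (hq _ (by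
    rw [← LinearEquiv.coe_det]; exact Units.ne_zero _))
  have h2F : (2 : F) = 0 := (hF 2).resolve_right fun h => one_ne_zero (α := F) (by
    linear_combination h)
  have h2 : (2 : K) = 0 := by rw [← map_ofNat (algebraMap F K) 2, h2F, map_zero]
  have hAδ : ln F K δ = A := ln_eq hδ.1 hδ0
  obtain ⟨ω, rfl⟩ := mem_ln.mp (show a ∈ ln F K δ from hAδ ▸ ha)
  have hω0 : ω ≠ 0 := fun e => haD (by rw [e, zero_smul]; exact Submodule.zero_mem _)
  have hω1 : ω ≠ 1 := fun e => haD (by rw [e, one_smul]; exact hδ)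
  have hK : ∀ k : K, k = 0 ∨ k = 1 ∨ k = ω ∨ k = ω + 1 := fun k => by
    obtain ⟨d, hd', c', e⟩ := decomp_of_codim_one (inf_le_left : A ⊓ A' ≤ A) (by omega) ha
      haD (ln_smul_mem hδ.1 k)
    obtain ⟨e, he, c, rfl⟩ := decomp_of_codim_one (bot_le : ⊥ ≤ A ⊓ A')
      (by rw [finrank_bot]; omega) hδ (by simpa using hδ0) hd'
    rw [(Submodule.mem_bot F).mp he, zero_add] at e
    have h3 : k = algebraMap F K c + algebraMap F K c' * ω := smul_left_injective K hδ0 (by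
      simp only [e, add_smul, mul_smul, algebraMap_smul])
    rcases hF c with rfl | rfl <;> rcases hF c' with rfl | rfl <;> simp [h3, add_comm]
  have hω : ω * ω = ω + 1 := by
    rcases hK (ω * ω) with h | h | h | h
    · exact absurd (mul_self_eq_zero.mp h) hω0
    · exact absurd (pow_eq_zero_iff (n := 2) (a := ω - 1) two_ne_zero |>.mp (by grind))
        (sub_ne_zero.mpr hω1)
    · exact absurd (mul_left_cancel₀ hω0 (h.trans (mul_one ω).symm)) hω1
    · exact h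
  obtain ⟨χ₂, hχ₂, hχ₂0⟩ := exists_dual_one (F := K) (U := K ∙ δ) (v := w) (hAδ ▸ hwA :
    w ∉ ln F K δ)
  replace hχ₂0 := hχ₂0 δ (Submodule.mem_span_singleton_self δ)
  obtain ⟨χ₁, hχ₁, hχ₁0⟩ := exists_dual_one (notMem_sup_span_swap (F := K) (U := ⊥) (v := δ)
    (z := w) (by simpa using hδ0) (by rw [bot_sup_eq]; exact (hAδ ▸ hwA : w ∉ ln F K δ)))
  replace hχ₁0 := hχ₁0 w (Submodule.mem_sup_right (Submodule.mem_span_singleton_self w))
  have hx : ∀ x, x = χ₁ x • δ + χ₂ x • w := fun x => by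
    obtain ⟨d, hd', c, rfl⟩ := decomp_of_codim_one (F := K) (le_top : (K ∙ δ) ≤ ⊤)
      (by rw [finrank_top, finrank_span_singleton hδ0, hm]) (Submodule.mem_top (x := w))
      (hAδ ▸ hwA : w ∉ ln F K δ) (Submodule.mem_top (x := x))
    obtain ⟨k, rfl⟩ := Submodule.mem_span_singleton.mp hd'
    simp [hχ₁, hχ₂, hχ₁0, hχ₂0]
  let σ₀ : V →ₗ[F] V :=
    { toFun := fun x => (χ₁ x * χ₁ x) • δ + (χ₂ x * χ₂ x) • w
      map_add' := fun x y => by simp only [map_add]; match_scalars <;> grind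
      map_smul' := fun c x => by rcases hF c with rfl | rfl <;> simp }
  have hσ₀ : ∀ α β : K, σ₀ (α • δ + β • w) = (α * α) • δ + (β * β) • w := fun α β => by
    simp [σ₀, hχ₁, hχ₂, hχ₁0, hχ₂0]
  have hk4 : ∀ k : K, k * k * (k * k) = k := fun k => by
    rcases hK k with rfl | rfl | rfl | rfl <;> grind
  let σ : V ≃ₗ[F] V := LinearEquiv.ofInvolutive σ₀ fun x => by
    rw [hx x, hσ₀, hσ₀, hk4, hk4]
  have hσX : σ ∈ X := hX σ (fun l => ⟨l * l, fun x => by
    change σ₀ _ = _ • σ₀ _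
    rw [hx x, smul_add, smul_smul, smul_smul, hσ₀, hσ₀]
    module⟩) (hall σ)
  have hmemA' : ∀ α β : K, α • δ + β • w ∈ A' → (α = 0 ∨ α = 1) ∧ (β = 0 ∨ β = 1) := by
    intro α β h
    obtain ⟨c, c', e⟩ := hdec _ h
    have e1 := congrArg χ₁ e
    have e2 := congrArg χ₂ e
    rcases hF c with rfl | rfl <;> rcases hF c' with rfl | rfl <;>
      simp [hχ₁, hχ₂, hχ₁0, hχ₂0] at e1 e2 <;> simp [e1, e2]
  have hyσ : Yq X A' (σ₀ - LinearMap.id) := by
    refine ⟨(Has.of_mem hσX).congr fun x => (add_sub_cancel x (σ₀ x)).symm, fun b hb => ?_, fun x => ?_⟩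
    · rw [hx b] at hb ⊢
      rcases hmemA' _ _ hb with ⟨h | h, h' | h'⟩ <;>
        simp only [LinearMap.sub_apply, hσ₀, LinearMap.id_apply, h, h', mul_one, mul_zero, sub_self]
    · have h3 : ∀ (k : K) (z : V), z ∈ A' → (k * k - k) • z ∈ A' := fun k z hz => by
        have : k * k - k = 0 ∨ k * k - k = 1 := by
          rcases hK k with rfl | rfl | rfl | rfl <;> grind
        rcases this with h | h <;> simp [h, hz]
      rw [hx x, LinearMap.sub_apply, hσ₀, LinearMap.id_apply, add_sub_add_comm, ← sub_smul,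
        ← sub_smul]
      exact A'.add_mem (h3 _ _ hδ.2) (h3 _ _ hw)
  have hnot : ∀ α β : K, β = ω → α • δ + β • w ∉ A' := fun α β e h =>
    (hmemA' _ _ h).2.elim (fun h => hω0 (e ▸ h)) fun h => hω1 (e ▸ h)
  have hw0 : w ≠ 0 := fun e => hwA (e ▸ A.zero_mem)
  have hσ1 : σ₀ (ω • δ) = (ω + 1) • δ := by simpa [hω] using hσ₀ ω 0
  have hσ2 : σ₀ (ω • w) = (ω + 1) • w := by simpa [hω] using hσ₀ 0 ω
  have hσ3 : σ₀ δ = δ := by simpa using hσ₀ 1 0
  have hσ4 : σ₀ w = w := by simpa using hσ₀ 0 1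
  have hy₂w : y₂ (ω • w) = δ + w := by
    have h3 := hy₂.mem (ω • w)
    rw [hx (y₂ (ω • w))] at h3 ⊢
    have e := hx (y₂ (ω • w))
    rcases hmemA' _ _ h3 with ⟨h | h, h' | h'⟩ <;> rw [h, h'] at e ⊢
    · refine absurd ?_ hw0
      rw [← hy₂a, hzero _ hy₂ _ (hnot 0 ω rfl) (by simpa using e), LinearMap.zero_apply]
    · refine absurd ?_ hw0
      rw [← hy₂a, hzero _ hy₂ _ (hnot ω ω rfl) (by
        rw [map_add, e, hy₂a]; match_scalars <;> grind), LinearMap.zero_apply]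
    · exfalso
      have h4 := DFunLike.congr_fun (hzero _ (hy₂.add hyσ) _ (hnot ω ω rfl) (by
        simp only [LinearMap.add_apply, LinearMap.sub_apply, LinearMap.id_apply, hσ₀]
        rw [map_add, e, hy₂a]; match_scalars <;> grind)) (ω • δ)
      simp only [LinearMap.add_apply, LinearMap.sub_apply, LinearMap.id_apply, hσ1, hy₂a] at h4
      simpa [hχ₂, hχ₂0] using congrArg χ₂ h4
    · simp
  let μ : V ≃ₗ[F] V := (LinearEquiv.smulOfNeZero K V ω hω0).restrictScalars F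
  have hμX : μ ∈ X := hX μ (fun l => ⟨l, fun x => smul_comm ω l x⟩) (hall μ)
  have hs := hy₂.has.comp ((Has.of_mem hμX).comp ((Has.of_mem hσX).comp hy₂.has))
  let y : V →ₗ[F] V := (LinearMap.id + y₂) ∘ₗ (μ : V →ₗ[F] V) ∘ₗ σ₀ ∘ₗ (LinearMap.id + y₂) -
    LinearMap.id
  have hy : ∀ x, y x = ω • σ₀ (x + y₂ x) + y₂ (ω • σ₀ (x + y₂ x)) - x := fun _ => rfl
  have z1 := hy₂.zero δ hδ.2
  have z2 := hy₂.zero w hw
  have hωω : ∀ x : V, ω • (ω + 1) • x = x := fun x => by match_scalars; grind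
  have y1 : y δ = (ω + 1) • (δ + ω • w) := by
    rw [hy, z1, add_zero, hσ3, hy₂a]; match_scalars <;> grind
  have y2 : y (ω • δ) = ω • (δ + ω • w) := by
    rw [hy, hy₂a, map_add, hσ1, hσ4, smul_add, hωω, map_add, z1, hy₂w]; match_scalars <;> grind
  have y3 : y w = δ + ω • w := by
    rw [hy, z2, add_zero, hσ4, hy₂w]; match_scalars <;> grind
  have y4 : y (ω • w) = (ω + 1) • (δ + ω • w) := by
    rw [hy, hy₂w, map_add, map_add, hσ2, hσ3, hσ4, smul_add, smul_add, hωω, map_add, map_add, z2,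
      hy₂w, hy₂a]
    match_scalars <;> grind
  have hb0 : δ + ω • w ≠ 0 := fun e => by simpa [hχ₁, hχ₁0] using congrArg χ₁ e
  have hyq : Yq X (ln F K (δ + ω • w)) y := by
    refine ⟨hs.congr fun x => by rw [hy, add_sub_cancel]; rfl, fun b hb => ?_, fun x => ?_⟩
    · obtain ⟨k, rfl⟩ := mem_ln.mp hb
      have e1 : y (δ + ω • w) = 0 := by rw [map_add, y1, y4]; match_scalars <;> grind
      have e2 : y (ω • (δ + ω • w)) = 0 := by
        rw [smul_add, smul_smul, hω, add_smul, one_smul, map_add, map_add, y2, y3, y4]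
        match_scalars <;> grind
      rcases hK k with rfl | rfl | rfl | rfl
      · simp
      · rw [one_smul, e1]
      · exact e2
      · rw [add_smul, one_smul, map_add, e1, e2, add_zero]
    · have e1 : ∀ (z : V) (k : K), y z ∈ ln F K (δ + ω • w) → y (ω • z) ∈ ln F K (δ + ω • w) →
          y (k • z) ∈ ln F K (δ + ω • w) := fun z k h h' => by
        rcases hK k with rfl | rfl | rfl | rfl
        · simp
        · rwa [one_smul]
        · exact h'
        · rw [add_smul, one_smul, map_add]; exact Submodule.add_mem _ h' h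
      rw [hx x, map_add]
      exact Submodule.add_mem _ (e1 _ _ (y1 ▸ smul_mem_ln _ _) (y2 ▸ smul_mem_ln _ _))
        (e1 _ _ (y3 ▸ self_mem_ln _) (y4 ▸ smul_mem_ln _ _))
  have h5 := eq_zero_of_two hX hr hm hn hb0 X.one_mem
    (z := y - (((ω + 1) • χ₁ + ω • χ₂).smulRight (δ + ω • w)).restrictScalars F)
    (by
      rw [LinearEquiv.coe_toLinearMap_one, Submodule.map_id]
      exact hyq.sub (yq_K hX (by simp [hχ₁, hχ₂, hχ₁0, hχ₂0]; grind))) (s := δ)
    (by
      rw [LinearEquiv.coe_toLinearMap_one, Submodule.map_id, mem_ln]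
      rintro ⟨k, hk⟩
      have e1 := congrArg χ₁ hk
      have e2 := congrArg χ₂ hk
      simp [hχ₁, hχ₂, hχ₁0, hχ₂0, hω0] at e1 e2
      exact one_ne_zero (e1.symm.trans e2))
    (by simp [y1, hχ₁, hχ₂0])
  have h6 := congrArg χ₁ (DFunLike.congr_fun h5 (ω • δ))
  simp [y2, hχ₁, hχ₂0, hχ₁0] at h6
  grind

/-- An overgroup of the extension-field subgroup of prime degree that is not semilinear contains
the special linear group. -/
theorem SLV_le_of_not_semi (hr : (finrank F K).Prime) (hm : 2 ≤ finrank K V) {g₀ : V ≃ₗ[F] V}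
    (hg₀ : g₀ ∈ X) (hs : ¬ Semi K g₀) : SLV F V ≤ X := by
  obtain ⟨v, hv, g, hg, hd⟩ := exists_codim_one hX hr hm hg₀ hs
  rcases hr.two_le.eq_or_lt with h | h
  swap
  · exact SLV_le_of_three_le hX h hm hv hg hd
  rcases hm.eq_or_lt with h' | h'
  · exact SLV_le_two_two hX h.symm h'.symm hv hg hd
  have : FiniteDimensional F K := Module.finite_of_finrank_pos (by omega)
  have : FiniteDimensional F V := Module.Finite.trans K V
  obtain ⟨a', ha', ha'D⟩ := exists_notMem_of_finrank_lt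
    (U := ln F K v ⊓ (ln F K v).map (g : V →ₗ[F] V)) (W := (ln F K v).map (g : V →ₗ[F] V)) (by
      rw [LinearEquiv.finrank_map_eq, finrank_ln hv]; omega)
  obtain ⟨w, -, hw⟩ := exists_notMem_of_finrank_lt (U := (K ∙ v) ⊔ K ∙ a') (W := ⊤) (by
    have := finrank_sup_span_le (K ∙ v) a'
    have := finrank_span_singleton_le (F := K) v
    rw [finrank_top]; omega)
  obtain ⟨χ, hχ, hχ0⟩ := exists_dual_one hw
  refine SLV_le_of_yq hX hr.two_le hm hv hg hd ha' (fun h => ha'D ⟨h, ha'⟩)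
    (yq_K hX (hχ0 v (Submodule.mem_sup_left (Submodule.mem_span_singleton_self v))))
    (by simp [hχ0 a' (Submodule.mem_sup_right (Submodule.mem_span_singleton_self a'))])
    fun e => hv (by simpa [hχ] using DFunLike.congr_fun e w)

end

end Cfsg.Agent.H3.Ext
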