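import Mathlib
import Cfsg.Agent.H3.ExtSL
import Cfsg.Agent.Asch.FinField

/-!
Maximality of the extension-field subgroups of prime degree in the linear groups.
-/

set_option autoImplicit false

namespace Cfsg.Agent.H3.Ext

open Module Cfsg.Agent.H7 Matrix

section

variable {F K V : Type*} [Field F] [Field K] [Algebra F K] [AddCommGroup V] [Module F V]
  [Module K V] [IsScalarTower F K V]

theorem exists_SLV_not_semi (hr : 2 ≤ finrank F K) (hm : 2 ≤ finrank K V) :
    ∃ g ∈ SLV F V, ¬ Semi K g := by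
  have : FiniteDimensional F K := Module.finite_of_finrank_pos (by omega)
  have : FiniteDimensional K V := Module.finite_of_finrank_pos (by omega)
  have : FiniteDimensional F V := Module.Finite.trans K V
  have : Nontrivial V := Module.nontrivial_of_finrank_pos (R := K) (by omega)
  obtain ⟨v, hv⟩ := exists_ne (0 : V)
  obtain ⟨w, -, hw⟩ := exists_notMem_of_finrank_lt (U := K ∙ v) (W := ⊤) (by
    have := finrank_span_singleton_le (F := K) v
    rw [finrank_top]; omega)
  obtain ⟨a, ha, hav⟩ := exists_notMem_of_finrank_lt (U := F ∙ w) (W := ln F K w) (by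
    have := finrank_span_singleton_le (F := F) w
    rw [finrank_ln (fun e => hw (by simp [e]))]; omega)
  obtain ⟨l, rfl⟩ := mem_ln.mp ha
  obtain ⟨χ, hχ, hχ0⟩ := exists_dual_one hw
  have hχv := hχ0 v (Submodule.mem_span_singleton_self v)
  obtain ⟨φ, hφ, hφ0⟩ := exists_dual_one (U := (F ∙ w) ⊔ F ∙ v) (v := l • w) fun h => by
    obtain ⟨u, hu, c, e⟩ := mem_sup_span_singleton.mp h
    obtain ⟨c', rfl⟩ := Submodule.mem_span_singleton.mp hu
    have h1 := congrArg χ e
    simp only [map_smul, hχ, smul_eq_mul, mul_one, map_add, LinearMap.map_smul_of_tower, hχv,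
      smul_zero, add_zero] at h1
    exact hav (Submodule.mem_span_singleton.mpr ⟨c', by rw [h1, smul_assoc, one_smul]⟩)
  have h1 := hφ0 v (Submodule.mem_sup_right (Submodule.mem_span_singleton_self v))
  have h2 := hφ0 w (Submodule.mem_sup_left (Submodule.mem_span_singleton_self w))
  refine ⟨_, transvection_mem_SLV h1, fun h => ?_⟩
  obtain ⟨m, hm⟩ := h l
  have h3 := hm w
  simp only [LinearEquiv.transvection.coe_apply, LinearMap.transvection.apply, hφ, h2, one_smul,
    zero_smul, add_zero] at h3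
  have h4 := congrArg χ h3
  simp only [map_add, map_smul, hχ, hχv, smul_eq_mul, mul_one, add_zero] at h4
  rw [h4, add_eq_left] at h3
  exact hv h3

end

variable {ι : Type} [Fintype ι] [DecidableEq ι] {F : Type*} [Field F]

theorem mem_normalizer_iff [Finite F] {K : Subalgebra F (Matrix ι ι F)} (g : GL ι F) :
    g ∈ Geo.subalgebraNormalizer K ↔
      ∀ l : K, ∃ m : K, ∀ x, toLE g (l • x) = m • toLE g x := by
  constructor
  · intro h l
    refine ⟨⟨_, (h l).mp l.2⟩, fun x => ?_⟩
    change (g : Matrix ι ι F) *ᵥ (l : Matrix ι ι F) *ᵥ x =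
      ((g : Matrix ι ι F) * (l : Matrix ι ι F) * ((g⁻¹ : GL ι F) : Matrix ι ι F)) *ᵥ (g : Matrix ι ι F) *ᵥ x
    rw [mulVec_mulVec, mulVec_mulVec, mul_assoc, Units.inv_mul, mul_one]
  · intro h
    have h1 : ∀ k ∈ K, (g : Matrix ι ι F) * k * (g⁻¹ : GL ι F) ∈ K := fun k hk => by
      obtain ⟨m, hm⟩ := h ⟨k, hk⟩
      have : (g : Matrix ι ι F) * k = m * g := Matrix.ext_iff_mulVec.mpr fun x => by
        rw [← mulVec_mulVec, ← mulVec_mulVec]; exact hm x
      rw [this, mul_assoc, Units.mul_inv, mul_one]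
      exact m.2
    refine fun k => ⟨h1 k, fun hk => ?_⟩
    have hinj : ∀ a b : Matrix ι ι F, (g : Matrix ι ι F) * a * (g⁻¹ : GL ι F) =
        (g : Matrix ι ι F) * b * (g⁻¹ : GL ι F) → a = b := fun a b e =>
      (Units.mul_right_inj g).mp ((Units.mul_left_inj g⁻¹).mp e)
    obtain ⟨k', hk'⟩ := Finite.surjective_of_injective (f := fun k : K => (⟨_, h1 k k.2⟩ : K))
      (fun a b e => Subtype.ext (hinj _ _ (congrArg Subtype.val e))) ⟨_, hk⟩
    exact hinj _ _ (congrArg Subtype.val hk') ▸ k'.2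

theorem ext_maximal [Finite F] {r : ℕ} (hr : r.Prime) (hlt : r < Fintype.card ι)
    {K : Subalgebra F (Matrix ι ι F)} (hK : Geo.IsFieldSubalgebra r K) :
    IsCoatom (Geo.subalgebraNormalizer K) ∧
      Geo.IsMaximalIn (Geo.specialLinear ι F)
        (Geo.subalgebraNormalizer K ⊓ Geo.specialLinear ι F) := by
  have : Nonempty ι := Fintype.card_pos_iff.mp (by omega)
  let _ : Field K := (Asch.isField_of_inv hK.comm hK.inv).toField
  have hr' : (finrank F K).Prime := hK.finrank_eq ▸ hr
  have hm : 2 ≤ finrank K (ι → F) := by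
    have h := finrank_mul_finrank F K (ι → F)
    rw [hK.finrank_eq, finrank_fintype_fun_eq_card] at h
    by_contra h2
    have := Nat.mul_le_mul_left r (by omega : finrank K (ι → F) ≤ 1)
    omega
  have : FiniteDimensional K (ι → F) := Module.finite_of_finrank_pos (by omega)
  have key : ∀ X : Subgroup (GL ι F), Geo.subalgebraNormalizer K ⊓ Geo.specialLinear ι F ≤ X →
      ∀ g ∈ X, g ∉ Geo.subalgebraNormalizer K → Geo.specialLinear ι F ≤ X := by
    intro X hX g hg hgN k hk
    obtain ⟨k', hk', e⟩ := SLV_le_of_not_semi (K := K) (X := X.map toLE.toMonoidHom)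
      (fun g hg hg' => by
        obtain ⟨g, rfl⟩ := toLE.surjective g
        exact ⟨g, hX ⟨(mem_normalizer_iff g).mpr hg, (mem_specialLinear_iff g).mpr hg'⟩, rfl⟩)
      hr' hm (g₀ := toLE g) ⟨g, hg, rfl⟩ (fun h => hgN ((mem_normalizer_iff g).mpr h))
      ((mem_specialLinear_iff k).mp hk)
    exact toLE.injective e ▸ hk'
  obtain ⟨g₀, hg₀, hg₀'⟩ := exists_SLV_not_semi (F := F) (K := K) hr'.two_le hm
  obtain ⟨g₀, rfl⟩ := toLE.surjective g₀
  have h0 : g₀ ∉ Geo.subalgebraNormalizer K := fun h => hg₀' ((mem_normalizer_iff g₀).mp h)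
  refine ⟨⟨fun h => h0 (h ▸ Subgroup.mem_top _), fun X hX => ?_⟩,
    isMaximalIn_of inf_le_right ⟨g₀, (mem_specialLinear_iff g₀).mpr hg₀, fun h => h0 h.1⟩
      fun X hX hX' g hg hgN => key X hX g hg fun h => hgN ⟨h, hX' hg⟩⟩
  obtain ⟨g, hg, hgN⟩ := SetLike.exists_of_lt hX
  have h1 := key X (inf_le_left.trans hX.le) g hg hgN
  rw [eq_top_iff]
  intro k _
  obtain ⟨u, hu⟩ := FiniteField.norm_surjective F K (k : Matrix ι ι F).det
  have hu0 : 1 + (u - 1) ≠ 0 := by
    rw [add_sub_cancel]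
    rintro rfl
    rw [Algebra.norm_zero] at hu
    exact (Matrix.GeneralLinearGroup.det_ne_zero k) hu.symm
  have : Nontrivial (ι → F) := inferInstance
  obtain ⟨v, hv⟩ := exists_ne (0 : ι → F)
  obtain ⟨χ, hχ⟩ := exists_dual_one' (F := K) hv
  obtain ⟨t, ht⟩ := toLE.surjective ((LinearEquiv.dilatransvection (f := (u - 1) • χ) (v := v)
    (IsUnit.mk0 _ (by simpa [hχ] using hu0))).restrictScalars F)
  have h2 : t ∈ Geo.subalgebraNormalizer K := (mem_normalizer_iff t).mpr fun l => ⟨l, fun x => by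
    rw [ht, LinearEquiv.restrictScalars_apply, LinearEquiv.restrictScalars_apply, map_smul]⟩
  have h3 : (t : Matrix ι ι F).det = (k : Matrix ι ι F).det := by
    rw [← det_toLE, ht, ← hu]
    refine (LinearMap.det_restrictScalars (f := LinearMap.transvection ((u - 1) • χ) v)).trans ?_
    simp [hχ]
  have h4 : k * t⁻¹ ∈ Geo.specialLinear ι F := by
    rw [Geo.specialLinear, MonoidHom.mem_ker, map_mul, map_inv, mul_inv_eq_one]
    exact Units.ext h3.symm
  simpa using X.mul_mem (h1 h4) (hX.le h2)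

end Cfsg.Agent.H3.Ext
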