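import Mathlib
import Cfsg.Agent.H3.CharSimple

/-!
Subgroups and automorphisms of direct powers of a non-abelian simple group: Scott's lemma and the
core of the O'Nan-Scott theorem.
-/

set_option autoImplicit false

namespace Cfsg.Agent.H3.Scott

open Cfsg.Agent.H3.CharSimple

variable {T : Type*} [Group T]

theorem commutator_top_of_simple [IsSimpleGroup T] (hT : ¬ IsMulCommutative T) :
    ⁅(⊤ : Subgroup T), (⊤ : Subgroup T)⁆ = ⊤ := by
  rcases Subgroup.Normal.eq_bot_or_eq_top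
    (inferInstance : (⁅(⊤ : Subgroup T), (⊤ : Subgroup T)⁆).Normal) with h | h
  · exfalso
    apply hT
    refine ⟨⟨fun a b => ?_⟩⟩
    rw [Subgroup.commutator_eq_bot_iff_le_centralizer] at h
    exact (Subgroup.mem_centralizer_iff.mp (h (Subgroup.mem_top b)) a (Subgroup.mem_top a))
  · exact h

theorem ker_eq_of_le [IsSimpleGroup T] {D : Type*} [Group D] {f g : D →* T}
    (hf : Function.Surjective f) (hg : Function.Surjective g) (h : f.ker ≤ g.ker) :
    f.ker = g.ker := by
  rcases Subgroup.Normal.eq_bot_or_eq_top (g.normal_ker.map f hf) with h1 | h1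
  · exact le_antisymm h ((Subgroup.map_eq_bot_iff _).mp h1)
  · exfalso
    have h2 : g.ker = ⊤ := by
      rw [← Subgroup.comap_map_eq_self h, h1, Subgroup.comap_top]
    obtain ⟨t, ht⟩ := exists_ne (1 : T)
    obtain ⟨d, rfl⟩ := hg t
    have : d ∈ g.ker := h2 ▸ Subgroup.mem_top d
    exact ht this

theorem map_iInf_ker_eq_top [IsSimpleGroup T] (hT : ¬ IsMulCommutative T) {D ι : Type*} [Group D]
    (π : ι → D →* T) (hπ : ∀ i, Function.Surjective (π i)) (i : ι) (S : Finset ι)
    (hS : ∀ j ∈ S, (π j).ker ≠ (π i).ker) : (⨅ j ∈ S, (π j).ker).map (π i) = ⊤ := by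
  classical
  induction S using Finset.induction_on with
  | empty => simpa using Subgroup.map_top_of_surjective _ (hπ i)
  | insert j S _ ih =>
    have h1 := ih fun l hl => hS l (Finset.mem_insert_of_mem hl)
    have h2 : (π j).ker.map (π i) = ⊤ :=
      (Subgroup.Normal.eq_bot_or_eq_top ((π j).normal_ker.map _ (hπ i))).resolve_left fun h =>
        hS j (Finset.mem_insert_self _ _)
          (ker_eq_of_le (hπ j) (hπ i) ((Subgroup.map_eq_bot_iff _).mp h))
    have hn : (⨅ l ∈ S, (π l).ker).Normal :=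
      Subgroup.normal_iInf_normal fun l => Subgroup.normal_iInf_normal fun _ => inferInstance
    rw [Finset.iInf_insert, eq_top_iff, ← commutator_top_of_simple hT]
    calc ⁅(⊤ : Subgroup T), (⊤ : Subgroup T)⁆
        = ⁅(π j).ker.map (π i), (⨅ l ∈ S, (π l).ker).map (π i)⁆ := by rw [h1, h2]
      _ = (⁅(π j).ker, ⨅ l ∈ S, (π l).ker⁆).map (π i) := by rw [Subgroup.map_commutator]
      _ ≤ _ := Subgroup.map_mono (Subgroup.commutator_le_inf _ _)

/-- Scott's lemma: surjections onto a non-abelian simple group with pairwise distinct kernels are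
jointly surjective. -/
theorem exists_forall_eq [IsSimpleGroup T] (hT : ¬ IsMulCommutative T) {D ι : Type*} [Group D]
    (π : ι → D →* T) (hπ : ∀ i, Function.Surjective (π i)) (S : Finset ι)
    (hS : ∀ i ∈ S, ∀ j ∈ S, (π i).ker = (π j).ker → i = j) (y : ι → T) :
    ∃ d : D, ∀ i ∈ S, π i d = y i := by
  classical
  induction S using Finset.induction_on with
  | empty => exact ⟨1, by simp⟩
  | insert i S hi ih =>
    obtain ⟨d, hd⟩ := ih fun a ha b hb =>
      hS a (Finset.mem_insert_of_mem ha) b (Finset.mem_insert_of_mem hb)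
    have h1 := map_iInf_ker_eq_top hT π hπ i S fun j hj h =>
      hi (hS j (Finset.mem_insert_of_mem hj) i (Finset.mem_insert_self _ _) h ▸ hj)
    have h2 : (π i d)⁻¹ * y i ∈ (⨅ j ∈ S, (π j).ker).map (π i) := h1 ▸ Subgroup.mem_top _
    obtain ⟨u, hu, hui⟩ := h2
    refine ⟨d * u, fun j hj => ?_⟩
    rcases Finset.mem_insert.mp hj with rfl | hj
    · rw [map_mul, hui, mul_inv_cancel_left]
    · have : π j u = 1 := by
        simp only [SetLike.mem_coe, Subgroup.mem_iInf] at hu
        exact hu j hj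
      rw [map_mul, this, mul_one, hd j hj]

/-- Two surjections with the same kernel differ by an automorphism. -/
theorem exists_aut_of_ker_eq {D : Type*} [Group D] {f g : D →* T}
    (hf : Function.Surjective f) (hg : Function.Surjective g) (h : f.ker = g.ker) :
    ∃ ψ : MulAut T, ∀ d, ψ (f d) = g d := by
  refine ⟨(QuotientGroup.quotientKerEquivOfSurjective f hf).symm.trans
    ((QuotientGroup.quotientMulEquivOfEq h).trans
      (QuotientGroup.quotientKerEquivOfSurjective g hg)), fun d => ?_⟩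
  have h1 : (QuotientGroup.quotientKerEquivOfSurjective f hf).symm (f d) = (d : D ⧸ f.ker) := by
    rw [MulEquiv.symm_apply_eq]; rfl
  rw [MulEquiv.trans_apply, h1]
  rfl

/-- An automorphism of a finite power of a non-abelian simple group permutes the factors. -/
theorem aut_perm [IsSimpleGroup T] [Finite T] (hT : ¬ IsMulCommutative T) {ι : Type*} [Finite ι]
    [DecidableEq ι] (φ : MulAut (ι → T)) :
    ∃ (σ : Equiv.Perm ι) (α : ι → MulAut T), (∀ x i, φ x (σ i) = α i (x i)) ∧
      ∀ i t, φ (Pi.mulSingle i t) = Pi.mulSingle (σ i) (α i t) := by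
  have hnormal : ∀ i, (MonoidHom.mulSingle (fun _ : ι => T) i).range.Normal := by
    intro i
    constructor
    rintro _ ⟨l, rfl⟩ g
    refine ⟨g i * l * (g i)⁻¹, ?_⟩
    funext j
    by_cases hj : j = i
    · subst hj; simp
    · simp [hj]
  obtain ⟨t0, ht0⟩ := exists_ne (1 : T)
  have h1 : ∀ i, ∃ j, ∀ t, ∃ s, φ (Pi.mulSingle i t) = Pi.mulSingle j s := by
    intro i
    obtain ⟨j, hj⟩ : ∃ j, φ (Pi.mulSingle i t0) j ≠ 1 := by
      by_contra h
      push Not at h
      have : φ (Pi.mulSingle i t0) = 1 := funext h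
      rw [map_eq_one_iff _ φ.injective] at this
      exact ht0 (by simpa using congrFun this i)
    obtain ⟨_, ⟨u, rfl⟩, hu⟩ := mulSingle_mem_of_normal hT _
      ((hnormal i).map φ.toMonoidHom φ.surjective) ⟨_, ⟨t0, rfl⟩, rfl⟩ hj t0
    have hu' : φ (Pi.mulSingle i u) = Pi.mulSingle j t0 := hu
    have hu1 : u ≠ 1 := by
      rintro rfl
      exact ht0 (by simpa using (congrFun hu' j).symm)
    refine ⟨j, fun t => ?_⟩
    obtain ⟨s, hs⟩ := mulSingle_mem_of_normal hT _ ((hnormal j).comap φ.toMonoidHom)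
      (x := Pi.mulSingle i u) ⟨t0, hu'.symm⟩ (i := i) (by simpa using hu1) t
    exact ⟨s, hs.symm⟩
  choose σ hσ using h1
  have h2 : ∀ i t, φ (Pi.mulSingle i t) = Pi.mulSingle (σ i) (φ (Pi.mulSingle i t) (σ i)) := by
    intro i t
    obtain ⟨s, hs⟩ := hσ i t
    rw [hs]; simp
  let β : ι → T →* T := fun i => (Pi.evalMonoidHom (fun _ => T) (σ i)).comp
    (φ.toMonoidHom.comp (MonoidHom.mulSingle (fun _ : ι => T) i))
  have hβ : ∀ i t, β i t = φ (Pi.mulSingle i t) (σ i) := fun _ _ => rfl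
  have hβi : ∀ i, Function.Injective (β i) := by
    intro i s t h
    rw [hβ, hβ] at h
    have : φ (Pi.mulSingle i s) = φ (Pi.mulSingle i t) := by rw [h2, h, ← h2]
    simpa using congrFun (φ.injective this) i
  have hβb : ∀ i, Function.Bijective (β i) := fun i => Finite.injective_iff_bijective.mp (hβi i)
  have hσi : Function.Injective σ := by
    intro i j hij
    by_contra hne
    obtain ⟨s, hs⟩ := (hβb j).2 (β i t0)
    have : φ (Pi.mulSingle j s) = φ (Pi.mulSingle i t0) := by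
      rw [h2, h2 i, ← hβ, ← hβ, hs, hij]
    have h3 := congrFun (φ.injective this) i
    simp [hne] at h3
    exact ht0 h3.symm
  refine ⟨Equiv.ofBijective σ (Finite.injective_iff_bijective.mp hσi),
    fun i => MulEquiv.ofBijective (β i) (hβb i), fun x i => ?_, h2⟩
  have : (Pi.evalMonoidHom (fun _ => T) (σ i)).comp φ.toMonoidHom =
      (β i).comp (Pi.evalMonoidHom (fun _ => T) i) := by
    apply MonoidHom.pi_ext
    intro j t
    change φ (Pi.mulSingle j t) (σ i) = β i ((Pi.mulSingle j t : ι → T) i)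
    by_cases hj : i = j
    · subst hj; simp [hβ]
    · rw [h2, Pi.mulSingle_eq_of_ne (hσi.ne hj), Pi.mulSingle_eq_of_ne hj, map_one]
  exact DFunLike.congr_fun this x

/-- The core of the O'Nan-Scott theorem: a maximal invariant proper subgroup of a power of a
non-abelian simple group whose factors are permuted transitively is a product of proper subgroups
or a product of diagonals. -/
theorem onan_scott [IsSimpleGroup T] [Finite T] (hT : ¬ IsMulCommutative T) {ι : Type*} [Finite ι]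
    [DecidableEq ι] (A : Subgroup (MulAut (ι → T))) (D : Subgroup (ι → T))
    (hinv : ∀ φ ∈ A, ∀ x ∈ D, φ x ∈ D) (hD : D ≠ ⊤)
    (hmax : ∀ X : Subgroup (ι → T), (∀ φ ∈ A, ∀ x ∈ X, φ x ∈ X) → D ≤ X → X = D ∨ X = ⊤)
    (htrans : ∀ i j, ∃ φ ∈ A, ∀ t, ∃ s, φ (Pi.mulSingle i t) = Pi.mulSingle j s) :
    (∃ K : ι → Subgroup T, (∀ i, K i ≠ ⊤) ∧ (∀ i j, K i = ⊥ → K j = ⊥) ∧
      ∀ x, x ∈ D ↔ ∀ i, x i ∈ K i) ∨
    (∃ (ψ : ι → MulAut T) (k : ℕ) (c : ι → ι), 2 ≤ k ∧
      (∀ j, Nat.card {i // c i = j} = k ∨ Nat.card {i // c i = j} = 0) ∧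
      ∀ x, x ∈ D ↔ ∀ i j, c i = c j → ψ i (x i) = ψ j (x j)) := by
  classical
  obtain ⟨t0, ht0⟩ := exists_ne (1 : T)
  have htr : ∀ i j, ∃ φ ∈ A, ∃ (σ : Equiv.Perm ι) (α : ι → MulAut T), σ i = j ∧
      ∀ x l, φ x (σ l) = α l (x l) := by
    intro i j
    obtain ⟨φ, hφ, h⟩ := htrans i j
    obtain ⟨σ, α, h1, h2⟩ := aut_perm hT φ
    refine ⟨φ, hφ, σ, α, ?_, h1⟩
    obtain ⟨s, hs⟩ := h t0
    by_contra hne
    have := congrFun (hs.symm.trans (h2 i t0)) (σ i)
    rw [Pi.mulSingle_eq_of_ne hne, Pi.mulSingle_eq_same, eq_comm,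
      map_eq_one_iff _ (α i).injective] at this
    exact ht0 this
  have hinv' : ∀ φ ∈ A, ∀ y ∈ D, ∃ x ∈ D, φ x = y := fun φ hφ y hy =>
    ⟨φ⁻¹ y, hinv _ (A.inv_mem hφ) y hy, by simp⟩
  let K : ι → Subgroup T := fun i => D.map (Pi.evalMonoidHom (fun _ => T) i)
  have hK : ∀ i t, t ∈ K i ↔ ∃ x ∈ D, x i = t := fun _ _ => Iff.rfl
  have hne : Nonempty ι := by
    by_contra h
    rw [not_nonempty_iff] at h
    exact hD (Subsingleton.elim _ _)
  by_cases hall : ∀ i, K i ≠ ⊤
  · left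
    refine ⟨K, hall, fun i j hi => ?_, ?_⟩
    · obtain ⟨φ, hφ, σ, α, rfl, h⟩ := htr i j
      rw [eq_bot_iff]
      intro t ht
      obtain ⟨y, hy, rfl⟩ := (hK _ _).mp ht
      obtain ⟨x, hx, rfl⟩ := hinv' φ hφ y hy
      have : x i ∈ K i := ⟨x, hx, rfl⟩
      rw [hi, Subgroup.mem_bot] at this
      rw [h, this, map_one]
      exact Subgroup.one_mem _
    · rcases hmax (Subgroup.pi Set.univ K) (fun φ hφ x hx l _ => by
          obtain ⟨σ, α, h1, -⟩ := aut_perm hT φ
          obtain ⟨l, rfl⟩ := σ.surjective l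
          obtain ⟨d, hd, e⟩ := (hK _ _).mp (hx l trivial)
          rw [h1, ← e, ← h1]
          exact ⟨_, hinv φ hφ d hd, rfl⟩)
        (fun x hx l _ => ⟨x, hx, rfl⟩) with h | h
      · intro x
        rw [← h, Subgroup.mem_pi]
        simp
      · exfalso
        obtain ⟨i⟩ := hne
        apply hall i
        rw [eq_top_iff]
        intro t _
        have : Pi.mulSingle i t ∈ Subgroup.pi Set.univ K := h ▸ Subgroup.mem_top _
        simpa using this i trivial
  right
  push Not at hall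
  obtain ⟨i0, hi0⟩ := hall
  let π : ι → D →* T := fun i => (Pi.evalMonoidHom (fun _ => T) i).comp D.subtype
  have hπa : ∀ i (d : D), π i d = (d : ι → T) i := fun _ _ => rfl
  have hπ : ∀ j, Function.Surjective (π j) := by
    intro j t
    obtain ⟨φ, hφ, σ, α, rfl, h⟩ := htr i0 j
    have : (α i0).symm t ∈ K i0 := hi0 ▸ Subgroup.mem_top _
    obtain ⟨x, hx, e⟩ := (hK _ _).mp this
    refine ⟨⟨φ x, hinv φ hφ x hx⟩, ?_⟩
    change φ x (σ i0) = t
    rw [h, e, MulEquiv.apply_symm_apply]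
  let s : Setoid ι := Setoid.ker fun i => (π i).ker
  let c : ι → ι := fun i => (Quotient.mk s i).out
  have hc1 : ∀ i, (π (c i)).ker = (π i).ker := fun i => Quotient.mk_out (s := s) i
  have hc2 : ∀ i j, c i = c j ↔ (π i).ker = (π j).ker := fun i j =>
    ⟨fun h => by rw [← hc1 i, h, hc1], fun h => congrArg Quotient.out (Quotient.sound (s := s) h)⟩
  have hcc : ∀ i, c (c i) = c i := fun i => (hc2 _ _).mpr (hc1 i)
  choose ψ hψ using fun i => exists_aut_of_ker_eq (hπ i) (hπ (c i)) (hc1 i).symm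
  have hmem : ∀ x, x ∈ D ↔ ∀ i j, c i = c j → ψ i (x i) = ψ j (x j) := by
    intro x
    constructor
    · intro hx i j hij
      have h1 := hψ i ⟨x, hx⟩
      have h2 := hψ j ⟨x, hx⟩
      rw [hij] at h1
      exact h1.trans h2.symm
    · intro h
      have := Fintype.ofFinite ι
      obtain ⟨d, hd⟩ := exists_forall_eq hT π hπ (Finset.univ.filter fun i => c i = i)
        (fun i hi j hj e => by
          rw [← (Finset.mem_filter.mp hi).2, ← (Finset.mem_filter.mp hj).2]
          exact (hc2 i j).mpr e) fun i => ψ i (x i)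
      have : x = d := by
        funext i
        apply (ψ i).injective
        rw [← hπa, hψ, hd (c i) (Finset.mem_filter.mpr ⟨Finset.mem_univ _, hcc i⟩)]
        exact h i (c i) (hcc i).symm
      rw [this]; exact d.2
  have hsize : ∀ i j, Nat.card {l // c l = c i} = Nat.card {l // c l = c j} := by
    intro i j
    obtain ⟨φ, hφ, σ, α, rfl, h⟩ := htr i j
    have hker : ∀ a b, (π a).ker = (π b).ker ↔ (π (σ a)).ker = (π (σ b)).ker := by
      intro a b
      simp only [SetLike.ext_iff, MonoidHom.mem_ker, hπa]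
      constructor
      · intro hab y
        obtain ⟨x, hx, e⟩ := hinv' φ hφ y y.2
        rw [← e, h, h, map_eq_one_iff _ (α a).injective, map_eq_one_iff _ (α b).injective]
        exact hab ⟨x, hx⟩
      · intro hab x
        have := hab ⟨φ x, hinv φ hφ x x.2⟩
        simp only [h] at this
        rwa [map_eq_one_iff _ (α a).injective, map_eq_one_iff _ (α b).injective] at this
    exact Nat.card_congr (σ.subtypeEquiv fun l => by rw [hc2, hc2, hker])
  refine ⟨ψ, Nat.card {l // c l = c i0}, c, ?_, fun j => ?_, hmem⟩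
  · by_contra hlt
    apply hD
    rw [eq_top_iff]
    intro x _
    rw [hmem]
    intro i j hij
    have h1 : Nat.card {l // c l = c j} ≤ 1 := by rw [hsize j i0]; omega
    have h2 := Finite.card_le_one_iff_subsingleton.mp h1
    have h3 : i = j := congrArg Subtype.val (h2.elim ⟨i, hij⟩ ⟨j, rfl⟩)
    rw [h3]
  · by_cases hj : ∃ i, c i = j
    · obtain ⟨i, rfl⟩ := hj
      exact Or.inl (hsize i i0)
    · right
      rw [Nat.card_eq_zero]
      left
      exact ⟨fun l => hj ⟨l.1, l.2⟩⟩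

/-- In a group with maximal subgroup `K` and normal subgroup `N` not contained in `K`, the
intersection `K ⊓ N` is maximal among the proper `K`-invariant subgroups of `N`. -/
theorem inf_maximal {H : Type*} [Group H] {K : Subgroup H} (hK : IsCoatom K) (N X : Subgroup H)
    (hX : X ≤ N) (hKX : K ⊓ N ≤ X) (hinv : ∀ k ∈ K, ∀ x ∈ X, k * x * k⁻¹ ∈ X) :
    X = K ⊓ N ∨ X = N := by
  have hinv' : K ≤ Subgroup.normalizer (X : Set H) := by
    intro k hk
    rw [Subgroup.mem_normalizer_iff]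
    intro x
    refine ⟨hinv k hk x, fun hx => ?_⟩
    simpa [mul_assoc] using hinv k⁻¹ (K.inv_mem hk) _ hx
  rcases (le_sup_left : K ≤ K ⊔ X).eq_or_lt with h | h
  · left
    refine le_antisymm (le_inf ?_ hX) hKX
    rw [h]; exact le_sup_right
  · right
    have htop := hK.2 _ h
    refine le_antisymm hX fun n hn => ?_
    have h1 : n ∈ ((K ⊔ X : Subgroup H) : Set H) := by
      rw [htop]; trivial
    rw [Subgroup.coe_mul_of_left_le_normalizer_right _ _ hinv'] at h1
    obtain ⟨k, hk, x, hx, rfl⟩ := h1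
    have hkN : k ∈ N := (N.mul_mem_cancel_right (hX hx)).mp hn
    exact X.mul_mem (hKX ⟨hk, hkN⟩) hx

/-- The O'Nan-Scott dichotomy for the intersection of a maximal subgroup with a non-abelian minimal
normal subgroup that it does not contain. -/
theorem onan_scott_group {H : Type*} [Group H] [Finite H] {K : Subgroup H} (hK : IsCoatom K)
    (N : Subgroup H) [N.Normal] (hN : N ≠ ⊥)
    (hmin : ∀ M : Subgroup H, M.Normal → M ≤ N → M = ⊥ ∨ M = N) (hNK : ¬ N ≤ K)
    (hnab : ¬ IsMulCommutative N) :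
    ∃ (T : Type) (_ : Group T) (_ : Finite T) (m : ℕ) (e : N ≃* (Fin m → T)), IsSimpleGroup T ∧
      ¬ IsMulCommutative T ∧ 0 < m ∧
      ((∃ L : Fin m → Subgroup T, (∀ i, L i ≠ ⊤) ∧ (∀ i j, L i = ⊥ → L j = ⊥) ∧
        ∀ n : N, (n : H) ∈ K ↔ ∀ i, e n i ∈ L i) ∨
      (∃ (k : ℕ) (c : Fin m → Fin m), 2 ≤ k ∧
        (∀ j : Fin m, Nat.card {i : Fin m // c i = j} = k ∨ Nat.card {i : Fin m // c i = j} = 0) ∧
        ∀ n : N, (n : H) ∈ K ↔ ∀ i j : Fin m, c i = c j → e n i = e n j)) := by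
  obtain ⟨M, m, f, e0, hMn, hm, hs, hf⟩ := minimal_normal_power N hN hmin
  obtain ⟨T, _, ⟨τ⟩⟩ := exists_small_model M
  have : IsSimpleGroup T := τ.symm.isSimpleGroup
  have : Finite T := Finite.of_equiv _ τ.toEquiv
  let e : N ≃* (Fin m → T) := e0.symm.trans (MulEquiv.piCongrRight fun _ => τ)
  have he : ∀ i (x : M), e.symm (Pi.mulSingle i (τ x)) = e0 (Pi.mulSingle i x) := by
    intro i x
    rw [MulEquiv.symm_apply_eq]
    funext j
    by_cases hj : j = i
    · subst hj; simp [e]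
    · simp [e, hj]
  have hT : ¬ IsMulCommutative T := fun h => hnab ⟨⟨fun a b => e.injective (by
    rw [map_mul, map_mul]
    funext i
    exact h.is_comm.comm _ _)⟩⟩
  let Φ : H →* MulAut (Fin m → T) :=
    (MulAut.congr e).toMonoidHom.comp (MulAut.conjNormal (H := N))
  have hΦ : ∀ (g : H) (n : N), Φ g (e n) = e (MulAut.conjNormal g n) := fun g n => by
    simp [Φ]
  have hsup : K ⊔ N = ⊤ := hK.2 _ (lt_of_le_of_ne le_sup_left fun h => hNK (h ▸ le_sup_right))
  have hfK : ∀ i, ∃ k ∈ K, ∀ x : M, ∃ y : M,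
      ((e0 (Pi.mulSingle i x) : N) : H) = k * ((y : N) : H) * k⁻¹ ∧
      ∃ z : M, ((e0 (Pi.mulSingle i z) : N) : H) = k * ((x : N) : H) * k⁻¹ := by
    intro i
    have : f i ∈ K ⊔ N := hsup ▸ Subgroup.mem_top _
    obtain ⟨k, hk, n, hn, e1⟩ := Subgroup.mem_sup_of_normal_right.mp this
    refine ⟨k, hk, fun x => ⟨⟨⟨n, hn⟩ * x * ⟨n, hn⟩⁻¹, hMn.conj_mem _ x.2 _⟩, ?_,
      ⟨⟨n, hn⟩⁻¹ * x * ⟨n, hn⟩⁻¹⁻¹, hMn.conj_mem _ x.2 _⟩, ?_⟩⟩
    · rw [hf, ← e1]; simp [mul_assoc]
    · rw [hf, ← e1]; simp [mul_assoc]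
  choose k hk hkM using hfK
  let D : Subgroup (Fin m → T) := (K.subgroupOf N).map e.toMonoidHom
  have hD : ∀ n : N, e n ∈ D ↔ (n : H) ∈ K := fun n =>
    Subgroup.mem_map_iff_mem (f := e.toMonoidHom) e.injective
  rcases onan_scott hT (K.map Φ) D
    (by
      rintro _ ⟨g, hg, rfl⟩ x hx
      obtain ⟨n, rfl⟩ := e.surjective x
      rw [hΦ, hD, MulAut.conjNormal_apply]
      exact K.mul_mem (K.mul_mem hg ((hD n).mp hx)) (K.inv_mem hg))
    (fun h => hNK fun n hn => (hD ⟨n, hn⟩).mp (h ▸ Subgroup.mem_top _))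
    (by
      intro X hX hDX
      rcases inf_maximal hK N ((X.comap e.toMonoidHom).map N.subtype) (Subgroup.map_subtype_le _)
        (fun n hn => ⟨⟨n, hn.2⟩, hDX ((hD ⟨n, hn.2⟩).mpr hn.1), rfl⟩)
        (by
          rintro g hg _ ⟨n, hn, rfl⟩
          refine ⟨MulAut.conjNormal g n, ?_, by simp⟩
          change e (MulAut.conjNormal g n) ∈ X
          rw [← hΦ]
          exact hX _ ⟨g, hg, rfl⟩ _ hn) with h | h
      · left
        refine le_antisymm (fun x hx => ?_) hDX
        obtain ⟨n, rfl⟩ := e.surjective x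
        have : (n : H) ∈ (X.comap e.toMonoidHom).map N.subtype := ⟨n, hx, rfl⟩
        rw [h] at this
        exact (hD n).mpr this.1
      · right
        rw [eq_top_iff]
        intro x _
        obtain ⟨n, rfl⟩ := e.surjective x
        have : (n : H) ∈ (X.comap e.toMonoidHom).map N.subtype := h.symm ▸ n.2
        obtain ⟨n', hn', e1⟩ := this
        rw [← (Subtype.ext e1 : n' = n)]
        exact hn')
    (by
      intro i j
      refine ⟨Φ (k j * (k i)⁻¹), ⟨_, K.mul_mem (hk j) (K.inv_mem (hk i)), rfl⟩, fun t => ?_⟩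
      obtain ⟨x, rfl⟩ := τ.surjective t
      obtain ⟨y, hy, -⟩ := hkM i x
      obtain ⟨-, -, z, hz⟩ := hkM j y
      refine ⟨τ z, ?_⟩
      rw [← e.apply_symm_apply (Pi.mulSingle i (τ x)), hΦ, he,
        ← e.apply_symm_apply (Pi.mulSingle j (τ z)), he]
      congr 1
      apply Subtype.ext
      rw [MulAut.conjNormal_apply, hy, hz]
      group) with ⟨L, h1, h2, h3⟩ | ⟨ψ, l, c, h1, h2, h3⟩
  · exact ⟨T, inferInstance, inferInstance, m, e, inferInstance, hT, hm,
      Or.inl ⟨L, h1, h2, fun n => (hD n).symm.trans (h3 _)⟩⟩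
  · exact ⟨T, inferInstance, inferInstance, m, e.trans (MulEquiv.piCongrRight ψ), inferInstance,
      hT, hm, Or.inr ⟨l, c, h1, h2, fun n => (hD n).symm.trans (h3 _)⟩⟩

end Cfsg.Agent.H3.Scott
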