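import Mathlib
import Cfsg.Agent.H3.CompLen
import Cfsg.Agent.H3.AutBound
import Cfsg.Agent.H3.Scott

/-!
The composition length of a permutation group of degree `n` with `r` orbits is at most
`4 (n - r) / 3`.
-/

set_option autoImplicit false

namespace Cfsg.Agent.H3.PermLen

open MulAction Cfsg.Agent.H3.CompLen

universe v

/-- The bound for faithful actions of degree `n`. -/
def Bound (n : ℕ) : Prop :=
  ∀ (G Ω R : Type v) [Group G] [Finite G] [MulAction G Ω] [FaithfulSMul G Ω] [Finite Ω]
    (π : Ω → R), Nat.card Ω = n → Function.Surjective π → (∀ (g : G) x, π (g • x) = π x) →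
    3 * cl (⊤ : Subgroup G) + 4 * Nat.card R ≤ 4 * n

theorem Bound.range {G : Type*} {Ω R : Type v} [Group G] [MulAction G Ω] [Finite Ω]
    (h : Bound.{v} (Nat.card Ω)) (π : Ω → R) (hπ : Function.Surjective π)
    (hinv : ∀ (g : G) x, π (g • x) = π x) :
    3 * cl (toPermHom G Ω).range + 4 * Nat.card R ≤ 4 * Nat.card Ω := by
  rw [← cl_top_subtype]
  refine h (toPermHom G Ω).range Ω R π rfl hπ ?_
  rintro ⟨_, g, rfl⟩ x
  exact hinv g x

theorem of_nontrivial {G Ω R : Type v} [Group G] [Finite G] [MulAction G Ω] [FaithfulSMul G Ω]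
    [Finite Ω] (ih : ∀ m < Nat.card Ω, Bound.{v} m) (π : Ω → R) (hπ : Function.Surjective π)
    (hinv : ∀ (g : G) x, π (g • x) = π x) [Nontrivial R] :
    3 * cl (⊤ : Subgroup G) + 4 * Nat.card R ≤ 4 * Nat.card Ω := by
  obtain ⟨ρ, ρ', hρ⟩ := exists_pair_ne R
  have : Finite R := Finite.of_surjective π hπ
  let A : SubMulAction G Ω := ⟨{x | π x = ρ}, fun g {x} hx => (hinv g x).trans hx⟩
  let B : SubMulAction G Ω := ⟨{x | π x ≠ ρ}, fun g {x} hx => fun h => hx ((hinv g x).symm.trans h)⟩
  have hAB : Nat.card A + Nat.card B = Nat.card Ω := Set.ncard_add_ncard_compl {x | π x = ρ}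
  obtain ⟨a, ha⟩ := hπ ρ
  obtain ⟨b, hb⟩ := hπ ρ'
  have : Nonempty A := ⟨⟨a, ha⟩⟩
  have : Nonempty B := ⟨⟨b, fun h => hρ (h.symm.trans hb)⟩⟩
  have hA : 0 < Nat.card A := Nat.card_pos
  have hB : 0 < Nat.card B := Nat.card_pos
  have h1 := (ih (Nat.card A) (by omega)).range (G := G) (fun _ => PUnit.unit)
    (fun _ => ⟨⟨a, ha⟩, rfl⟩) fun _ _ => rfl
  have : FaithfulSMul (toPermHom G A).ker B := ⟨fun {g h} e => Subtype.ext (by
    refine eq_of_smul_eq_smul (α := Ω) fun x => ?_
    by_cases hx : π x = ρ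
    · exact (congrArg Subtype.val (DFunLike.congr_fun g.2 (⟨x, hx⟩ : A))).trans
        (congrArg Subtype.val (DFunLike.congr_fun h.2 (⟨x, hx⟩ : A))).symm
    · exact congrArg Subtype.val (e ⟨x, hx⟩))⟩
  have h2 := ih (Nat.card B) (by omega) (toPermHom G A).ker B {r // r ≠ ρ} (fun x => ⟨π x, x.2⟩)
    rfl (fun r => by
      obtain ⟨x, hx⟩ := hπ r
      exact ⟨⟨x, fun h => r.2 (hx.symm.trans h)⟩, Subtype.ext hx⟩)
    fun g x => Subtype.ext (hinv g x)
  have h3 : Nat.card {r // r ≠ ρ} + 1 = Nat.card R := by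
    have := Set.ncard_add_ncard_compl ({ρ} : Set R)
    rw [Set.ncard_singleton] at this
    rw [← this, add_comm]
    rfl
  rw [cl_top_subtype] at h2
  rw [cl_top_eq (toPermHom G A)]
  simp only [Nat.card_unique] at h1
  omega

theorem of_imprimitive {G Ω : Type v} [Group G] [Finite G] [MulAction G Ω] [FaithfulSMul G Ω]
    [Finite Ω] [IsPretransitive G Ω] (ih : ∀ m < Nat.card Ω, Bound.{v} m) (a : Ω)
    (L : Subgroup G) (h1 : stabilizer G a < L) (h2 : L ≠ ⊤) :
    3 * cl (⊤ : Subgroup G) + 4 ≤ 4 * Nat.card Ω := by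
  choose s hs using exists_smul_eq G a
  let φ : Ω → G ⧸ L := fun x => (s x : G ⧸ L)
  have hφ : ∀ g : G, φ (g • a) = (g : G ⧸ L) := fun g => QuotientGroup.eq.mpr (h1.le (by
    rw [mem_stabilizer_iff, mul_smul, inv_smul_eq_iff, hs]))
  have hsurj : Function.Surjective φ := fun q => by
    obtain ⟨g, rfl⟩ := QuotientGroup.mk_surjective q
    exact ⟨_, hφ g⟩
  have heq : ∀ (g : G) x, φ (g • x) = g • φ x := fun g x => by
    rw [← hs x, smul_smul, hφ, hφ]; rfl
  have : Nontrivial (G ⧸ L) := by
    rw [← Finite.one_lt_card_iff_nontrivial]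
    exact Subgroup.one_lt_index_of_ne_top h2
  have hlt : Nat.card (G ⧸ L) < Nat.card Ω := by
    rw [← index_stabilizer_of_transitive G a]
    exact Subgroup.index_strictAnti h1
  have h3 := (ih _ hlt).range (G := G) (fun _ => PUnit.unit)
    (fun _ => ⟨((1 : G) : G ⧸ L), rfl⟩) fun _ _ => rfl
  have h4 := of_nontrivial (G := (toPermHom G (G ⧸ L)).ker) ih φ hsurj fun g x =>
    (heq g x).trans (DFunLike.congr_fun g.2 (φ x))
  rw [cl_top_subtype] at h4
  rw [cl_top_eq (toPermHom G (G ⧸ L))]
  simp only [Nat.card_unique] at h3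
  omega

theorem four_le_card {T : Type*} [Group T] [Finite T] (hT : ¬ IsMulCommutative T) :
    4 ≤ Nat.card T := by
  by_contra h
  apply hT
  have h0 : 0 < Nat.card T := Nat.card_pos
  have : IsCyclic T := by
    have h1 : Nat.card T = 1 ∨ Nat.card T = 2 ∨ Nat.card T = 3 := by omega
    rcases h1 with h1 | h1 | h1
    · have := (Nat.card_eq_one_iff_unique.mp h1).1
      infer_instance
    · exact isCyclic_of_prime_card h1
    · have : Fact (Nat.Prime 3) := ⟨Nat.prime_three⟩
      exact isCyclic_of_prime_card h1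
  infer_instance

theorem cl_aut_le {N : Type v} [Group N] [Finite N] {T : Type} [Group T] [Finite T]
    [IsSimpleGroup T] (hT : ¬ IsMulCommutative T) {m : ℕ} (hm : 0 < m) (e : N ≃* (Fin m → T))
    {n : ℕ} (ih : ∀ m < n, Bound.{v} m) (hn : m * Nat.card T ≤ n) (H : Subgroup (MulAut N)) :
    3 * cl H + 4 + 4 * m ≤ 4 * n := by
  let X : SubMulAction (MulAut N) N := ⟨{x | ∃ i t, t ≠ 1 ∧ e x = Pi.mulSingle i t}, by
    rintro φ x ⟨i, t, ht, hx⟩
    obtain ⟨σ, α, -, h⟩ := Scott.aut_perm hT (MulAut.congr e φ)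
    refine ⟨σ i, α i t, by simpa using ht, ?_⟩
    rw [← h, ← hx]
    simp⟩
  have hX : Nat.card X + m ≤ m * Nat.card T := by
    have h1 : Nat.card X ≤ Nat.card (Fin m × {t : T // t ≠ 1}) :=
      Nat.card_le_card_of_surjective
        (fun p => (⟨e.symm (Pi.mulSingle p.1 p.2.1), p.1, p.2.1, p.2.2, by simp⟩ : X)) (by
          rintro ⟨x, i, t, ht, hx⟩
          exact ⟨(i, ⟨t, ht⟩), Subtype.ext (e.symm_apply_eq.mpr hx.symm)⟩)
    have h3 : Nat.card {t : T // t ≠ 1} + 1 = Nat.card T := by
      have := Set.ncard_add_ncard_compl ({1} : Set T)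
      rw [Set.ncard_singleton] at this
      rw [← this, add_comm]
      rfl
    rw [Nat.card_prod, Nat.card_eq_fintype_card (α := Fin m), Fintype.card_fin] at h1
    rw [← h3, mul_add, mul_one]
    omega
  have : FaithfulSMul H X := ⟨fun {g h} hgh => Subtype.ext (by
    have h1 : (g : MulAut N).toMonoidHom.comp e.symm.toMonoidHom =
        (h : MulAut N).toMonoidHom.comp e.symm.toMonoidHom := by
      apply MonoidHom.pi_ext
      intro i t
      by_cases ht : t = 1
      · simp [ht]
      · exact congrArg Subtype.val (hgh ⟨e.symm (Pi.mulSingle i t), i, t, ht, by simp⟩)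
    ext x
    simpa using DFunLike.congr_fun h1 (e x))⟩
  obtain ⟨t0, ht0⟩ := exists_ne (1 : T)
  have h2 := ih (Nat.card X) (by omega) H X PUnit (fun _ => PUnit.unit) rfl
    (fun _ => ⟨⟨e.symm (Pi.mulSingle ⟨0, hm⟩ t0), _, t0, ht0, e.apply_symm_apply _⟩, rfl⟩)
    fun _ _ => rfl
  rw [cl_top_subtype] at h2
  simp only [Nat.card_unique] at h2
  omega

theorem mul_le_pow (t m s : ℕ) (ht : 4 ≤ t) (hs : 2 ≤ s) (hm : m ≤ 2 * s) : m * t ≤ t ^ s := by
  have h : ∀ s, 2 ≤ s → 2 * s * t ≤ t ^ s := by
    intro s hs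
    induction s, hs using Nat.le_induction with
    | base => nlinarith
    | succ s hs ih =>
      rw [pow_succ]
      refine le_trans ?_ (Nat.mul_le_mul_right _ ih)
      exact Nat.mul_le_mul_right _ (by nlinarith)
  exact (Nat.mul_le_mul_right _ hm).trans (h s hs)

theorem of_primitive {G Ω : Type v} [Group G] [Finite G] [MulAction G Ω] [FaithfulSMul G Ω]
    [Finite Ω] [Nontrivial Ω] [IsPretransitive G Ω] (ih : ∀ m < Nat.card Ω, Bound.{v} m) (a : Ω)
    (hK : IsCoatom (stabilizer G a)) : 3 * cl (⊤ : Subgroup G) + 4 ≤ 4 * Nat.card Ω := by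
  classical
  obtain ⟨N, hNn, hN, -, hmin⟩ := CharSimple.exists_minimal_normal_le (⊤ : Subgroup G)
    inferInstance (fun h => hK.1 (eq_top_iff.mpr (h ▸ bot_le)))
  have hNK : ¬ N ≤ stabilizer G a := fun h => hN (eq_bot_iff.mpr fun g hg => by
    refine eq_of_smul_eq_smul (α := Ω) fun x => ?_
    obtain ⟨u, rfl⟩ := exists_smul_eq G a x
    have : (u⁻¹ * g * u⁻¹⁻¹) • a = a := h (hNn.conj_mem g hg u⁻¹)
    rw [inv_inv, mul_smul, mul_smul, inv_smul_eq_iff] at this
    rw [this, one_smul])
  have hsup : N ⊔ stabilizer G a = ⊤ :=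
    hK.2 _ (lt_of_le_of_ne le_sup_right fun h => hNK (h ▸ le_sup_left))
  have : IsPretransitive N Ω := ⟨by
    have h1 : ∀ x, ∃ n : N, n • a = x := fun x => by
      obtain ⟨u, rfl⟩ := exists_smul_eq G a x
      obtain ⟨n, hn, k, hk, rfl⟩ := Subgroup.mem_sup_of_normal_left.mp
        (hsup ▸ Subgroup.mem_top u : u ∈ N ⊔ stabilizer G a)
      exact ⟨⟨n, hn⟩, by rw [mul_smul, mem_stabilizer_iff.mp hk]; rfl⟩
    intro x y
    obtain ⟨n, rfl⟩ := h1 x
    obtain ⟨n', rfl⟩ := h1 y
    exact ⟨n' * n⁻¹, by rw [mul_smul, inv_smul_smul]⟩⟩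
  have hcard : Nat.card (stabilizer N a) * Nat.card Ω = Nat.card N := by
    rw [← index_stabilizer_of_transitive N a, Subgroup.card_mul_index]
  have hcl : cl (⊤ : Subgroup G) + cl (stabilizer N a) =
      cl (⊤ : Subgroup N) + cl (stabilizer G a) := by
    have h1 : (stabilizer G a).map (QuotientGroup.mk' N) = (QuotientGroup.mk' N).range := by
      rw [MonoidHom.range_eq_map, ← hsup, Subgroup.map_sup,
        (Subgroup.map_eq_bot_iff _).mpr (QuotientGroup.ker_mk' N).ge, bot_sup_eq]
    have h2 : (stabilizer N a).map N.subtype = stabilizer G a ⊓ N :=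
      Subgroup.subgroupOf_map_subtype (stabilizer G a) N
    rw [cl_top_eq (QuotientGroup.mk' N), cl_eq (QuotientGroup.mk' N) (stabilizer G a), h1,
      QuotientGroup.ker_mk', ← h2, cl_map_of_injective _ N.subtype_injective, cl_top_subtype]
    omega
  have hinj : stabilizer G a ⊓ (MulAut.conjNormal (H := N)).ker = ⊥ := by
    refine eq_bot_iff.mpr fun g hg => eq_of_smul_eq_smul (α := Ω) fun x => ?_
    obtain ⟨n, rfl⟩ := exists_smul_eq N a x
    have h1 : g * n * g⁻¹ = n := congrArg Subtype.val (DFunLike.congr_fun hg.2 n)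
    rw [mul_inv_eq_iff_eq_mul] at h1
    rw [one_smul, Subgroup.smul_def, smul_smul, h1, mul_smul, mem_stabilizer_iff.mp hg.1]
  have hn2 : 2 ≤ Nat.card Ω := Finite.one_lt_card
  by_cases hab : IsMulCommutative N
  · have h1 : stabilizer N a = ⊥ := by
      refine eq_bot_iff.mpr fun g hg => Subtype.ext (eq_of_smul_eq_smul (α := Ω) fun x => ?_)
      obtain ⟨n, rfl⟩ := exists_smul_eq N a x
      change g • n • a = (1 : N) • n • a
      rw [smul_smul, hab.is_comm.comm, mul_smul, mem_stabilizer_iff.mp hg, one_smul]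
    rw [h1, Subgroup.card_bot, one_mul] at hcard
    have h2 : Nat.card (stabilizer G a) ≤ Nat.card (MulAut N) :=
      Nat.card_le_card_of_injective (MulAut.conjNormal.comp (stabilizer G a).subtype)
        ((injective_iff_map_eq_one _).mpr fun g hg => Subtype.ext
          (Subgroup.mem_bot.mp (hinj ▸ ⟨g.2, hg⟩)))
    refine AutBound.numeric _ _ _ hn2 (chain_cl _).two_pow_le (chain_cl _).three_pow_le ?_ ?_
    · rw [Subgroup.card_top, ← Nat.card_perm]
      exact Subgroup.card_dvd_of_injective (toPermHom G Ω) toPerm_injective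
    · rw [Subgroup.card_top, ← (stabilizer G a).card_mul_index, index_stabilizer_of_transitive,
        mul_comm, hcard]
      exact Nat.mul_le_mul_left _ (h2.trans AutBound.card_mulAut_le)
  obtain ⟨T, _, _, m, e, hs, hT, hm, hcase⟩ := Scott.onan_scott_group hK N hN hmin hNK hab
  have ht := four_le_card hT
  have hNm : cl (⊤ : Subgroup N) ≤ m := by
    rw [← cl_map_of_injective e.toMonoidHom e.injective]
    simpa using cl_pi_le Finset.univ _ (Subgroup.Normal.map (H := ⊤) inferInstance e.toMonoidHom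
      e.surjective) (by simp)
  have hcardN : Nat.card N = Nat.card T ^ m := by
    rw [Nat.card_congr e.toEquiv, Nat.card_fun]; simp
  by_cases hmt : m * Nat.card T ≤ Nat.card Ω
  · have h1 := cl_aut_le hT hm e ih hmt ((stabilizer G a).map MulAut.conjNormal)
    have h2 := cl_eq (MulAut.conjNormal (H := N)) (stabilizer G a)
    rw [hinj, cl_bot] at h2
    omega
  have hstab : 3 * cl (stabilizer G a) + 8 ≤ 4 * Nat.card Ω := by
    obtain ⟨b, hb⟩ := exists_ne a
    have := of_nontrivial (G := stabilizer G a) ih (fun x => ULift.up.{v} (decide (x = a)))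
      (by
        rintro ⟨_ | _⟩
        · exact ⟨b, by simp [hb]⟩
        · exact ⟨a, by simp⟩)
      (fun g x => by
        have : g • x = a ↔ x = a := by
          rw [smul_eq_iff_eq_inv_smul]
          have : g⁻¹ • a = a := (g⁻¹).2
          rw [this]
        simp [this])
    rw [cl_top_subtype] at this
    simpa using this
  suffices cl (⊤ : Subgroup N) ≤ cl (stabilizer N a) + 1 by omega
  rcases hcase with ⟨L, -, hL, hmem⟩ | ⟨k, c, hk, hc, hmem⟩
  · by_cases h0 : ∃ i, L i = ⊥
    · exfalso
      obtain ⟨i, hi⟩ := h0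
      have h1 : stabilizer N a = ⊥ := eq_bot_iff.mpr fun g hg => e.injective (by
        rw [map_one]
        funext j
        have := (hmem g).mp hg j
        rwa [hL i j hi] at this)
      rw [h1, Subgroup.card_bot, one_mul, hcardN] at hcard
      apply hmt
      rw [hcard]
      rcases Nat.lt_or_ge m 2 with h | h
      · obtain rfl : m = 1 := by omega
        simp
      · exact mul_le_pow _ _ _ ht h (by omega)
    · push Not at h0
      have := le_cl_pi Finset.univ ((stabilizer N a).map e.toMonoidHom) fun i _ => by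
        obtain ⟨⟨t, ht⟩, ht1⟩ := Subgroup.ne_bot_iff_exists_ne_one.mp (h0 i)
        refine ⟨t, fun h => ht1 (Subtype.ext h), e.symm (Pi.mulSingle i t), (hmem _).mpr fun j => ?_,
          e.apply_symm_apply _⟩
        rw [e.apply_symm_apply]
        by_cases hj : j = i
        · subst hj; simpa using ht
        · simp [hj]
      rw [cl_map_of_injective _ e.injective, Finset.card_univ, Fintype.card_fin] at this
      omega
  · rcases Nat.lt_or_ge m 3 with h3 | h3
    · obtain ⟨t0, ht0⟩ := exists_ne (1 : T)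
      have : 1 ≤ cl (stabilizer N a) := one_le_cl fun h => by
        have h1 : e.symm (fun _ => t0) ∈ stabilizer N a := (hmem _).mpr fun i j _ => by simp
        rw [h, Subgroup.mem_bot, e.symm_apply_eq, map_one] at h1
        exact ht0 (congrFun h1 ⟨0, hm⟩)
      omega
    exfalso
    apply hmt
    have h1 : 2 * (Finset.univ.image c).card ≤ m := by
      have := Finset.mul_card_image_le_card (f := c) Finset.univ 2 fun j hj => by
        obtain ⟨i, -, rfl⟩ := Finset.mem_image.mp hj
        rw [← Fintype.card_subtype, ← Nat.card_eq_fintype_card]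
        rcases hc (c i) with h | h
        · omega
        · have : Nonempty {l // c l = c i} := ⟨⟨i, rfl⟩⟩
          exact absurd h Nat.card_pos.ne'
      simpa using this
    have h2 : Nat.card (stabilizer N a) ≤ Nat.card T ^ (Finset.univ.image c).card := by
      have hex : ∀ j : Finset.univ.image c, ∃ i, c i = j := fun j => by
        obtain ⟨i, -, hi⟩ := Finset.mem_image.mp j.2
        exact ⟨i, hi⟩
      choose s hs using hex
      have := Nat.card_le_card_of_injective
        (fun (g : stabilizer N a) (j : Finset.univ.image c) => e g (s j)) fun g h hgh =>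
          Subtype.ext (e.injective (funext fun i => by
            have h4 := hs ⟨c i, by simp⟩
            rw [← (hmem g).mp g.2 _ _ h4, ← (hmem h).mp h.2 _ _ h4]
            exact congrFun hgh _))
      rwa [Nat.card_fun, Nat.card_eq_finsetCard] at this
    generalize (Finset.univ.image c).card = r at h1 h2
    have h4 : Nat.card T ^ r * Nat.card T ^ (m - r) ≤ Nat.card T ^ r * Nat.card Ω := by
      rw [← pow_add, show r + (m - r) = m by omega, ← hcardN, ← hcard]
      exact Nat.mul_le_mul_right _ h2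
    exact (mul_le_pow _ _ _ ht (by omega) (by omega)).trans
      (Nat.le_of_mul_le_mul_left h4 (by positivity))

theorem bound (n : ℕ) : Bound.{v} n := by
  induction n using Nat.strong_induction_on with
  | _ n ih =>
    intro G Ω R _ _ _ _ _ π hn hπ hinv
    subst hn
    rcases subsingleton_or_nontrivial Ω with hΩ | hΩ
    · have : Subsingleton G := ⟨fun g h => eq_of_smul_eq_smul (α := Ω) fun _ =>
        Subsingleton.elim _ _⟩
      rw [Subsingleton.elim (⊤ : Subgroup G) ⊥, cl_bot]
      have := Nat.card_le_card_of_surjective π hπ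
      omega
    rcases subsingleton_or_nontrivial R with hR | hR
    swap
    · exact of_nontrivial ih π hπ hinv
    have hR1 : Nat.card R ≤ 1 := by
      have := Finite.of_surjective π hπ
      exact Finite.card_le_one_iff_subsingleton.mpr hR
    suffices 3 * cl (⊤ : Subgroup G) + 4 ≤ 4 * Nat.card Ω by omega
    rcases subsingleton_or_nontrivial (Quotient (orbitRel G Ω)) with hQ | hQ
    swap
    · have h1 := of_nontrivial (G := G) ih (Quotient.mk (orbitRel G Ω)) Quotient.mk_surjective
        fun g x => Quotient.sound ⟨g, rfl⟩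
      have h2 : 1 < Nat.card (Quotient (orbitRel G Ω)) := Finite.one_lt_card
      omega
    have : IsPretransitive G Ω := ⟨fun x y =>
      Quotient.exact (Subsingleton.elim (Quotient.mk (orbitRel G Ω) y) (Quotient.mk _ x))⟩
    obtain ⟨a, b, hab⟩ := exists_pair_ne Ω
    by_cases hK : IsCoatom (stabilizer G a)
    · exact of_primitive ih a hK
    · have h1 : stabilizer G a ≠ ⊤ := fun h => by
        obtain ⟨g, rfl⟩ := exists_smul_eq G a b
        exact hab (mem_stabilizer_iff.mp (h ▸ Subgroup.mem_top g)).symm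
      rw [IsCoatom, not_and] at hK
      have h2 := hK h1
      push Not at h2
      obtain ⟨L, hL, hL'⟩ := h2
      exact of_imprimitive ih a L hL hL'

end Cfsg.Agent.H3.PermLen
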